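import Cfsg.Agent.BLK.Gg.Fr

/-!
Counting under `St`.
-/

set_option autoImplicit false

namespace CL.Gg

open Subgroup Cfsg CL.MSS

universe u v

variable {X : Type u} {V : Type v} [Group X] [Finite X] [AddCommGroup V] [Finite V]
  [DistribMulAction X V]

namespace ArX

theorem dvd_card {G Y : Type*} [Group G] [Finite Y] [MulAction G Y] {b : ℕ}
    (h : ∀ x : Y, (MulAction.stabilizer G x).index = b) : b ∣ Nat.card Y := by
  classical
  have := Fintype.ofFinite (MulAction.orbitRel.Quotient G Y)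
  rw [Nat.card_congr (MulAction.selfEquivSigmaOrbits G Y), Nat.card_sigma]
  refine Finset.dvd_sum fun ω _ => ?_
  rw [← h ω.out, MulAction.index_stabilizer, Nat.card_coe_set_eq]

omit [Finite X] [Finite V] in
theorem ne0 (g : X) {v : V} (hv : v ≠ 0) : g • v ≠ 0 := fun e => hv (by
  rw [← inv_smul_smul g v, e, smul_zero])

omit [Finite X] [Finite V] in
theorem nz [Fintype V] [DecidableEq V] (A : V → Prop) [DecidablePred A] (h0 : A 0) :
    (Finset.univ.filter fun v => v ≠ 0 ∧ A v).card + 1 = Nat.card {v // A v} := by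
  rw [Nat.card_eq_fintype_card, Fintype.card_subtype,
    ← Finset.card_erase_add_one (a := (0 : V)) (s := Finset.univ.filter A) (by simpa using h0)]
  congr 2
  ext v
  simp

end ArX

/-- `V \ 0` is the disjoint union of the `C_V(P') \ 0`, `P'` Sylow (the stabilizer of `v` is the one Sylow subgroup fixing `v`), all of the same size (conjugate); every orbit on
`V \ 0` has length `P.index`. For an involution `t` (exists: `P ≠ ⊥`): `|V| = |C_V(t)|²` (`fr_card`), `C_V(t) \ 0` is the disjoint union of the `C_V(P') \ 0`, `P' ∋ t`. So with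
`|C_V(t)| = 2^m`, `|C_V(P)| = 2^f`: `a (2^f-1) = 2^m-1`, `n₂ (2^f-1) = 4^m-1 = (2^m+1) a (2^f-1)`, `2^m+1 ∣ n₂ ∣ P.index`; `f ∣ m` (`Nat.sub_one_dvd...`/`Nat.pow_sub_one_dvd`, gcd). -/
theorem St.ar (h : St X V) (hO : pCore 2 X = ⊥) (P : Sylow 2 X) (hP : (P : Subgroup X) ≠ ⊥) :
    ∃ m f : ℕ, 1 ≤ f ∧ f ∣ m ∧ 1 ≤ m ∧ Nat.card V = 2 ^ (2 * m) ∧
      Nat.card (MulAction.fixedPoints (P : Subgroup X) V) = 2 ^ f ∧
      Nat.card (Sylow 2 X) * (2 ^ f - 1) = 2 ^ (2 * m) - 1 ∧
      2 ^ m + 1 ∣ Nat.card (Sylow 2 X) ∧ Nat.card (Sylow 2 X) ∣ (P : Subgroup X).index ∧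
      (P : Subgroup X).index ∣ 2 ^ (2 * m) - 1 := by
  classical
  have := Fintype.ofFinite V
  have := Fintype.ofFinite (Sylow 2 X)
  have hφ : ∀ v : V, ∃ Q : Sylow 2 X, v ≠ 0 → MulAction.stabilizer X v = (Q : Subgroup X) := fun v => by
    by_cases hv : v = 0
    · exact ⟨P, fun e => absurd hv e⟩
    · obtain ⟨Q, hQ⟩ := h.syl v hv
      exact ⟨Q, fun _ => hQ⟩
  choose φ hφ using hφ
  have key : ∀ v : V, v ≠ 0 → ∀ Q : Sylow 2 X, φ v = Q ↔ ∀ d ∈ (Q : Subgroup X), d • v = v := fun v hv Q => by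
    constructor
    · rintro rfl d hd
      rw [← hφ v hv] at hd
      exact hd
    · intro hd
      refine Sylow.ext (Q.is_maximal' (φ v).isPGroup' fun d h1 => ?_)
      rw [← hφ v hv]
      exact hd d h1
  let c : Sylow 2 X → ℕ := fun Q => (Finset.univ.filter fun v : V => v ≠ 0 ∧ φ v = Q).card
  have cle : ∀ Q R : Sylow 2 X, c Q ≤ c R := fun Q R => by
    obtain ⟨g, rfl⟩ := MulAction.exists_smul_eq X Q R
    refine Finset.card_le_card_of_injOn (fun v => g • v) (fun v hv => ?_) fun a _ b _ e => MulAction.injective g e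
    simp only [Finset.coe_filter, Finset.mem_univ, true_and, Set.mem_ofPred_eq] at hv ⊢
    refine ⟨ArX.ne0 g hv.1, (key _ (ArX.ne0 g hv.1) _).2 ?_⟩
    rintro _ ⟨d, hd, rfl⟩
    change (g * d * g⁻¹) • g • v = g • v
    rw [mul_smul, inv_smul_smul, mul_smul, (key v hv.1 Q).1 hv.2 d hd]
  have cnt : ∀ (A : Sylow 2 X → Prop), (Finset.univ.filter fun v : V => v ≠ 0 ∧ A (φ v)).card =
      (Finset.univ.filter A).card * c P := fun A => by
    rw [Finset.card_eq_sum_card_fiberwise (f := φ) (t := Finset.univ.filter A) (fun v hv => by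
      simp only [Finset.coe_filter, Finset.mem_univ, true_and, Set.mem_ofPred_eq] at hv ⊢
      exact hv.2), Finset.sum_const_nat]
    intro Q hQ
    rw [le_antisymm (cle P Q) (cle Q P)]
    congr 1
    ext v
    simp only [Finset.mem_filter, Finset.mem_univ, true_and] at hQ ⊢
    exact ⟨fun e => ⟨e.1.1, e.2⟩, fun e => ⟨⟨e.1, e.2 ▸ hQ⟩, e.2⟩⟩
  obtain ⟨f, hf⟩ := h.md.card (FixedPoints.addSubgroup (P : Subgroup X) V)
  have hf' : Nat.card (MulAction.fixedPoints (P : Subgroup X) V) = 2 ^ f := hf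
  have c1 : c P + 1 = 2 ^ f := by
    have := ArX.nz (fun v : V => v ∈ MulAction.fixedPoints (P : Subgroup X) V) fun d => smul_zero d
    rw [← hf']
    refine Eq.trans ?_ this
    refine congrArg (· + 1) (congrArg Finset.card ?_)
    ext v
    simp only [Finset.mem_filter, Finset.mem_univ, true_and]
    refine and_congr_right fun hv => (key v hv P).trans ⟨fun e d => e d d.2, fun e d hd => e ⟨d, hd⟩⟩
  have c0 : 0 < c P := by
    obtain ⟨v, hv, e⟩ := h.md.fix P P.isPGroup'
    exact Finset.card_pos.2 ⟨v, Finset.mem_filter.2 ⟨Finset.mem_univ _, hv, (key v hv P).2 e⟩⟩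
  obtain ⟨t, ht⟩ : ∃ t : X, orderOf t = 2 := by
    refine exists_prime_orderOf_dvd_card' 2 (dvd_trans ?_ (P : Subgroup X).card_subgroup_dvd_card)
    obtain ⟨k, hk⟩ := IsPGroup.iff_card.1 P.isPGroup'
    rw [hk]
    refine dvd_pow_self 2 fun e => hP ?_
    rw [e, pow_zero] at hk
    exact Subgroup.card_eq_one.1 hk
  let W : AddSubgroup V :=
    { carrier := MulAction.fixedBy V t
      zero_mem' := smul_zero t
      add_mem' := fun {a b} ha hb => by
        change t • (a + b) = a + b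
        rw [smul_add, show t • a = a from ha, show t • b = b from hb]
      neg_mem' := fun {a} ha => by
        change t • (-a) = -a
        rw [smul_neg, show t • a = a from ha] }
  obtain ⟨m, hm⟩ := h.md.card W
  have hm' : Nat.card (MulAction.fixedBy V t) = 2 ^ m := hm
  have hV : Nat.card V = 2 ^ (2 * m) := by rw [← h.md.fr_card hO ht, hm', ← pow_mul, mul_comm]
  have a1 : (Finset.univ.filter fun Q : Sylow 2 X => t ∈ (Q : Subgroup X)).card * c P + 1 = 2 ^ m := by
    have := ArX.nz (fun v : V => v ∈ MulAction.fixedBy V t) (smul_zero t)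
    rw [← cnt, ← hm']
    refine Eq.trans ?_ this
    congr 2
    ext v
    simp only [Finset.mem_filter, Finset.mem_univ, true_and]
    refine and_congr_right fun hv => ?_
    rw [← hφ v hv]
    rfl
  have v1 : (Finset.univ.filter fun v : V => v ≠ 0 ∧ True).card + 1 = 2 ^ (2 * m) := by
    rw [ArX.nz (fun _ : V => True) trivial, ← hV]
    exact Nat.card_congr (Equiv.subtypeUnivEquiv fun _ => trivial)
  have a2 : Nat.card (Sylow 2 X) * c P + 1 = 2 ^ (2 * m) := by
    have := cnt fun _ => True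
    simp only [Finset.filter_true, Finset.card_univ, and_true] at this v1
    rw [Nat.card_eq_fintype_card, ← this, ← v1]
  have n0 : 0 < Nat.card (Sylow 2 X) := Nat.card_pos
  have cf : 2 ^ f - 1 = c P := by omega
  have f1 : 1 ≤ f := Nat.pos_of_ne_zero fun e => by
    rw [e, pow_zero] at c1
    omega
  have m1 : 1 ≤ m := Nat.pos_of_ne_zero fun e => by
    have := Nat.mul_pos n0 c0
    rw [e, mul_zero, pow_zero] at a2
    omega
  refine ⟨m, f, f1, ?_, m1, hV, hf', by rw [cf]; omega, ?_, P.card_dvd_index, ?_⟩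
  · have d1 : 2 ^ f - 1 ∣ 2 ^ m - 1 := by
      rw [cf, ← a1, Nat.add_sub_cancel]
      exact Dvd.intro_left _ rfl
    have d2 := Nat.pow_sub_one_gcd_pow_sub_one 2 f m
    rw [Nat.gcd_eq_left d1] at d2
    have p1 : 0 < 2 ^ f := by positivity
    have p2 : 0 < 2 ^ Nat.gcd f m := by positivity
    have d3 : f = Nat.gcd f m := Nat.pow_right_injective le_rfl (show 2 ^ f = 2 ^ Nat.gcd f m by omega)
    exact d3 ▸ Nat.gcd_dvd_right f m
  · refine ⟨(Finset.univ.filter fun Q : Sylow 2 X => t ∈ (Q : Subgroup X)).card, Nat.eq_of_mul_eq_mul_right c0 ?_⟩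
    rw [mul_comm 2 m, pow_mul, ← a1] at a2
    rw [← a1]
    nlinarith [a2]
  · let S : SubMulAction X V := ⟨{v | v ≠ 0}, fun g _ hv => ArX.ne0 g hv⟩
    have d1 : (P : Subgroup X).index ∣ Nat.card S := ArX.dvd_card (G := X) fun x => by
      have e : MulAction.stabilizer X x = (φ x.1 : Subgroup X) := by
        rw [← hφ x.1 x.2]
        ext g
        exact Subtype.ext_iff
      rw [e]
      refine Nat.eq_of_mul_eq_mul_left (Nat.card_pos (α := (P : Subgroup X))) ?_
      rw [Subgroup.card_mul_index, ← Nat.card_congr (Sylow.equiv (φ x.1) P).toEquiv, Subgroup.card_mul_index]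
    have d2 : Nat.card S = 2 ^ (2 * m) - 1 := by
      rw [← v1, Nat.add_sub_cancel, ← Fintype.card_subtype, ← Nat.card_eq_fintype_card]
      exact Nat.card_congr (Equiv.subtypeEquivRight fun v => ⟨fun e => ⟨e, trivial⟩, fun e => e.1⟩)
    exact d2 ▸ d1

omit [Finite V] in
/-- The stabilizer in `L` is `P ∩ L`, a Sylow subgroup of the normal `L`. -/
theorem St.normal (h : St X V) (L : Subgroup X) [L.Normal] : St L V := by
  refine ⟨h.md.sub L, fun v hv => ?_⟩
  obtain ⟨P, hP⟩ := h.syl v hv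
  obtain ⟨Q⟩ : Nonempty (Sylow 2 L) := inferInstance
  obtain ⟨R, hR⟩ := Q.exists_comap_subtype_eq
  obtain ⟨g, rfl⟩ := MulAction.exists_smul_eq X R P
  refine ⟨(MulAut.conjNormal g : MulAut L) • Q, ?_⟩
  ext x
  have e1 : x ∈ MulAction.stabilizer L v ↔ (x : X) ∈ MulAction.stabilizer X v := Iff.rfl
  rw [e1, hP, Sylow.coe_subgroup_smul, Sylow.pointwise_smul_def, ← hR, mem_pointwise_smul_iff_inv_smul_mem,
    mem_pointwise_smul_iff_inv_smul_mem, mem_comap]
  simp

end CL.Gg
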