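import Cfsg.Agent.BLK.Gg.Defs
import Mathlib.GroupTheory.GroupAction.OfQuotient
import Mathlib.Algebra.Ring.Action.Submonoid

/-!
Basic facts on `Md` (sub, quotient, fixed vectors, kernel).
-/

set_option autoImplicit false

namespace CL.Gg

open Subgroup Cfsg CL.MSS

universe u v

variable {X : Type u} {V : Type v} [Group X] [Finite X] [AddCommGroup V] [Finite V]
  [DistribMulAction X V]

namespace BasX

/-- a `2`-power of `g` has odd order -/
theorem odd_pow (g : X) : ∃ k : ℕ, Odd (orderOf (g ^ 2 ^ k)) := by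
  obtain ⟨k, m, hm, e⟩ := Nat.exists_eq_two_pow_mul_odd (orderOf_pos g).ne'
  refine ⟨k, ?_⟩
  rw [orderOf_pow' g (pow_ne_zero _ two_ne_zero), e, Nat.gcd_mul_right_left, Nat.mul_div_cancel_left _ (by positivity)]
  exact hm

omit [Finite X] [Finite V] in
theorem pow_fix {g : X} {v : V} (h : g • v = v) (n : ℕ) : g ^ n • v = v :=
  MulAction.mem_stabilizer_iff.1 (pow_mem (MulAction.mem_stabilizer_iff.2 h) n)

/-- the action on the quotient by an invariant subgroup -/
@[reducible] def qact (D : Subgroup X) (W : AddSubgroup V) (hW : ∀ d ∈ D, ∀ w ∈ W, d • w ∈ W) :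
    MulAction D (V ⧸ W) where
  smul d := QuotientAddGroup.map W W (DistribSMul.toAddMonoidHom V (d : X)) (fun w hw => hW d d.2 w hw)
  one_smul a := QuotientAddGroup.induction_on a fun v =>
    congrArg (QuotientAddGroup.mk (s := W)) (one_smul X v)
  mul_smul d e a := QuotientAddGroup.induction_on a fun v =>
    congrArg (QuotientAddGroup.mk (s := W)) (mul_smul (d : X) (e : X) v)

theorem fix_sec (two : ∀ v : V, v + v = 0) (D : Subgroup X) (hD : IsPGroup 2 D) (W Z : AddSubgroup V)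
    (hW : ∀ d ∈ D, ∀ w ∈ W, d • w ∈ W) (hZ : ∀ d ∈ D, ∀ z ∈ Z, d • z ∈ Z) (hWZ : ¬ Z ≤ W) :
    ∃ z ∈ Z, z ∉ W ∧ ∀ d ∈ D, d • z - z ∈ W := by
  letI := qact D W hW
  let Q : AddSubgroup (V ⧸ W) := Z.map (QuotientAddGroup.mk' W)
  let S : SubMulAction D (V ⧸ W) :=
    { carrier := Q
      smul_mem' := by
        rintro d _ ⟨z, hz, rfl⟩
        exact ⟨(d : X) • z, hZ d d.2 z hz, rfl⟩ }
  obtain ⟨z0, hz0, hz0W⟩ := SetLike.not_le_iff_exists.1 hWZ
  have hc : 2 ∣ Nat.card S := by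
    have h2 : addOrderOf (⟨QuotientAddGroup.mk z0, z0, hz0, rfl⟩ : Q) = 2 := by
      refine addOrderOf_eq_prime (Subtype.ext ?_) fun e => hz0W ?_
      · change (2 • QuotientAddGroup.mk z0 : V ⧸ W) = 0
        rw [two_nsmul, ← QuotientAddGroup.mk_add, two, QuotientAddGroup.mk_zero]
      · exact (QuotientAddGroup.eq_zero_iff _).1 (congrArg Subtype.val e)
    have := addOrderOf_dvd_natCard (⟨QuotientAddGroup.mk z0, z0, hz0, rfl⟩ : Q)
    rw [h2] at this
    exact this
  obtain ⟨⟨_, z, hz, rfl⟩, hb, hne⟩ := hD.exists_fixed_point_of_prime_dvd_card_of_fixed_point S hc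
    (a := ⟨0, Q.zero_mem⟩) (fun d => Subtype.ext (map_zero (QuotientAddGroup.map W W
      (DistribSMul.toAddMonoidHom V (d : X)) (fun w hw => hW d d.2 w hw))))
  refine ⟨z, hz, fun hzW => hne (Subtype.ext ((QuotientAddGroup.eq_zero_iff _).2 hzW).symm), fun d hd => ?_⟩
  have e : (QuotientAddGroup.mk (d • z) : V ⧸ W) = QuotientAddGroup.mk z := congrArg Subtype.val (hb ⟨d, hd⟩)
  exact QuotientAddGroup.eq_iff_sub_mem.1 e

/-- the action of the quotient on the fixed vectors -/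
@[reducible] noncomputable def fact (D : Subgroup X) [D.Normal] :
    DistribMulAction (X ⧸ D) (FixedPoints.addSubgroup D V) where
  __ := (inferInstance : MulAction (X ⧸ D) (MulAction.fixedPoints D V))
  smul_add g a b := g.induction_on fun g => Subtype.ext (smul_add g a.1 b.1)
  smul_zero g := g.induction_on fun g => Subtype.ext (smul_zero g)

end BasX

omit [Finite X] [Finite V] in
/-- `orderOf` in the subgroup is `orderOf` in `X`. -/
theorem Md.sub (h : Md X V) (K : Subgroup X) : Md K V :=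
  ⟨h.two, h.nt, fun g hg h1 v hv => h.fp g (by rwa [Subgroup.orderOf_coe]) (fun e => h1 (Subtype.ext e)) v hv⟩

/-- An element fixing `v ≠ 0`: its odd part (`g ^ 2 ^ k` of odd order) fixes `v`, so is `1`. -/
theorem Md.stab (h : Md X V) {v : V} (hv : v ≠ 0) : IsPGroup 2 (MulAction.stabilizer X v) := by
  intro g
  obtain ⟨k, hk⟩ := BasX.odd_pow (g : X)
  refine ⟨k, Subtype.ext ?_⟩
  by_contra h1
  exact hv (h.fp _ hk h1 v (BasX.pow_fix g.2 _))

/-- `|V|` is a power of `2` (exponent `2`), `> 1`; `IsPGroup.card_modEq_card_fixedPoints`. -/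
theorem Md.fix (h : Md X V) (D : Subgroup X) (hD : IsPGroup 2 D) :
    ∃ v : V, v ≠ 0 ∧ ∀ d ∈ D, d • v = v := by
  obtain ⟨v0, h0⟩ := h.nt
  obtain ⟨z, -, hz, hd⟩ := BasX.fix_sec h.two D hD ⊥ ⊤
    (fun d _ w hw => by rw [AddSubgroup.mem_bot.1 hw, smul_zero]; exact zero_mem _) (fun _ _ _ _ => trivial)
    (fun e => h0 (AddSubgroup.mem_bot.1 (e trivial)))
  exact ⟨z, fun e => hz (AddSubgroup.mem_bot.2 e), fun d h => sub_eq_zero.1 (AddSubgroup.mem_bot.1 (hd d h))⟩

omit [Finite X] in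
theorem Md.card (h : Md X V) (W : AddSubgroup V) : ∃ n : ℕ, Nat.card W = 2 ^ n := by
  have : IsPGroup 2 (Multiplicative W) := fun w => ⟨1, by
    rw [pow_one, pow_two]; exact Subtype.ext (h.two _)⟩
  exact (IsPGroup.iff_card (G := Multiplicative W)).1 this

/-- `W := C_V(D)` (an `AddSubgroup`, `X`-invariant as `D` is normal, `≠ 0` by `fix`); `X ⧸ D` acts on it; an element
of odd order of `X ⧸ D` has a preimage of odd order (a power `g ^ 2 ^ k·c` of any preimage). -/
theorem Md.quot (h : Md X V) (D : Subgroup X) [D.Normal] (hD : IsPGroup 2 D) :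
    ∃ (W : Type v) (_ : AddCommGroup W) (_ : Finite W) (_ : DistribMulAction (X ⧸ D) W),
      Md (X ⧸ D) W := by
  obtain ⟨v0, h0, hv0⟩ := h.fix D hD
  refine ⟨FixedPoints.addSubgroup D V, inferInstance, inferInstance, BasX.fact D,
    @Md.mk _ _ _ _ (BasX.fact D) (fun v => Subtype.ext (h.two _))
      ⟨⟨v0, fun d => hv0 d d.2⟩, fun e => h0 (congrArg Subtype.val e)⟩ ?_⟩
  intro g
  induction g using QuotientGroup.induction_on with | H g => ?_
  intro hg h1 v hv
  by_contra h0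
  have hv' : g • (v : V) = v := congrArg Subtype.val hv
  obtain ⟨k, hk⟩ := h.stab (v := (v : V)) (fun e => h0 (Subtype.ext e)) ⟨g, hv'⟩
  have e : (g : X ⧸ D) ^ 2 ^ k = 1 := by
    rw [← QuotientGroup.mk_pow, show g ^ 2 ^ k = 1 from congrArg Subtype.val hk, QuotientGroup.mk_one]
  exact h1 (orderOf_eq_one_iff.1 ((Nat.Coprime.pow_right k
    (Nat.coprime_two_right.2 hg)).eq_one_of_dvd (orderOf_dvd_of_pow_eq_one e)))

/-- The kernel of the action is a normal `2`-subgroup (`stab`). -/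
theorem Md.ker_le (h : Md X V) {g : X} (hg : ∀ v : V, g • v = v) : g ∈ pCore 2 X := by
  obtain ⟨v0, h0⟩ := h.nt
  have hp : IsPGroup 2 (MulAction.toPermHom X V).ker :=
    (h.stab h0).to_le fun a ha => congrArg (fun f : Equiv.Perm V => f v0) (MonoidHom.mem_ker.1 ha)
  have hle : (MulAction.toPermHom X V).ker ≤ pCore 2 X := le_sSup ⟨inferInstance, hp⟩
  exact hle (MonoidHom.mem_ker.2 (Equiv.ext hg))

theorem Md.faith (h : Md X V) (hO : pCore 2 X = ⊥) {g : X} (hg : ∀ v : V, g • v = v) : g = 1 :=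
  mem_bot.1 (hO ▸ h.ker_le hg)

omit [Finite X] [Finite V] in
/-- `x² + x + 1 = 0`: the vector `x•x•v + x•v + v` is fixed by `x`. -/
theorem Md.cube (h : Md X V) {x : X} (hx : orderOf x = 3) (v : V) : x • x • v = x • v + v := by
  have h3 : x * (x * x) = 1 := by rw [← pow_orderOf_eq_one x, hx, pow_succ', pow_two]
  have e := h.fp x (by rw [hx]; decide) (fun e => by rw [e, orderOf_one] at hx; omega) (x • x • v + (x • v + v)) (by
    rw [smul_add, smul_add, show x • x • x • v = v by rw [smul_smul, smul_smul, mul_assoc, h3, one_smul]]; abel)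
  rw [eq_neg_of_add_eq_zero_left e, neg_eq_of_add_eq_zero_left (h.two _)]

/-- Fixed point free on sections: `w ↦ g•w - w` is injective on the finite `W`, hence onto `W`. -/
theorem Md.sec (h : Md X V) {g : X} (hg : Odd (orderOf g)) (h1 : g ≠ 1) (W : AddSubgroup V)
    (hW : ∀ w ∈ W, g • w ∈ W) {v : V} (hv : g • v - v ∈ W) : v ∈ W := by
  have inj : ∀ a b : V, g • a - a = g • b - b → a = b := fun a b e =>
    sub_eq_zero.1 (h.fp g hg h1 _ (by rw [smul_sub, sub_eq_sub_iff_sub_eq_sub, e]))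
  obtain ⟨w, hw⟩ := Finite.surjective_of_injective (f := fun w : W => (⟨g • (w : V) - w, sub_mem (hW _ w.2) w.2⟩ : W))
    (fun a b e => Subtype.ext (inj _ _ (congrArg Subtype.val e))) ⟨_, hv⟩
  exact inj _ _ (congrArg Subtype.val hw) ▸ w.2

/-- A `2`-group acting on a nonzero section `Z / W` has a nonzero fixed vector there (orbit counting on `Z ⧸ W`, or
induction: `D` acts unipotently). -/
theorem Md.fix_sec (h : Md X V) (D : Subgroup X) (hD : IsPGroup 2 D) (W Z : AddSubgroup V)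
    (hW : ∀ d ∈ D, ∀ w ∈ W, d • w ∈ W) (hZ : ∀ d ∈ D, ∀ z ∈ Z, d • z ∈ Z) (hWZ : ¬ Z ≤ W) (hle : W ≤ Z) :
    ∃ z ∈ Z, z ∉ W ∧ ∀ d ∈ D, d • z - z ∈ W :=
  BasX.fix_sec h.two D hD W Z hW hZ hWZ

end CL.Gg
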