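import Mathlib.GroupTheory.Sylow
import Mathlib.GroupTheory.Solvable
import Mathlib.GroupTheory.GroupAction.Defs
import Mathlib.LinearAlgebra.Matrix.SpecialLinearGroup
import Mathlib.LinearAlgebra.Matrix.ProjectiveSpecialLinearGroup
import Mathlib.FieldTheory.Finite.Basic
import Cfsg.Prelude.Def_Amalgam
import Cfsg.Prelude.Def_CaseTheorems
import Cfsg.Agent.TECH.SylowIn
import Cfsg.Agent.TECH.Conj

/-!
Definitions for the case `p = 2` of Gagola's theorem (S4841): groups acting on an elementary abelian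
`2`-group so that every element of odd order acts without nonzero fixed vectors.
-/

set_option autoImplicit false

namespace CL.Gg

open Subgroup Cfsg

universe u v

/-- `V` is a nonzero group of exponent `2` and every nontrivial element of odd order of `X` fixes only `0`. -/
structure Md (X : Type u) (V : Type v) [Group X] [AddCommGroup V] [DistribMulAction X V] : Prop where
  two : ∀ v : V, v + v = 0
  nt : ∃ v : V, v ≠ 0
  fp : ∀ g : X, Odd (orderOf g) → g ≠ 1 → ∀ v : V, g • v = v → v = 0

/-- `Md`, and the stabilizers of nonzero vectors are Sylow `2`-subgroups. -/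
structure St (X : Type u) (V : Type v) [Group X] [AddCommGroup V] [DistribMulAction X V] : Prop where
  md : Md X V
  syl : ∀ v : V, v ≠ 0 → ∃ P : Sylow 2 X, MulAction.stabilizer X v = (P : Subgroup X)

/-- The elements fixing every vector fixed by `t`. -/
def At (V : Type v) {X : Type u} [Group X] [AddCommGroup V] [DistribMulAction X V] (t : X) :
    Subgroup X where
  carrier := {g | ∀ v : V, t • v = v → g • v = v}
  one_mem' := fun v _ => one_smul X v
  mul_mem' := fun {a b} ha hb v hv => by rw [mul_smul, hb v hv, ha v hv]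
  inv_mem' := fun {a} ha v hv => by rw [inv_smul_eq_iff, ha v hv]

theorem mem_At {V : Type v} {X : Type u} [Group X] [AddCommGroup V] [DistribMulAction X V]
    {t g : X} : g ∈ At V t ↔ ∀ v : V, t • v = v → g • v = v := Iff.rfl

theorem self_mem_At {V : Type v} {X : Type u} [Group X] [AddCommGroup V] [DistribMulAction X V]
    (t : X) : t ∈ At V t := fun _ hv => hv

/-- The subgroup generated by the elements of order `3` of `K`. -/
def X3 {X : Type u} [Group X] (K : Subgroup X) : Subgroup X :=
  closure {x | x ∈ K ∧ orderOf x = 3}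

theorem X3_le {X : Type u} [Group X] (K : Subgroup X) : X3 K ≤ K :=
  (closure_le K).2 fun _ hx => hx.1

theorem mem_X3 {X : Type u} [Group X] {K : Subgroup X} {x : X} (hx : x ∈ K) (h3 : orderOf x = 3) :
    x ∈ X3 K := subset_closure ⟨hx, h3⟩

/-- An element of order `3` centralizes every `2`-subgroup it normalizes. -/
def NoA (X : Type u) [Group X] : Prop :=
  ∀ x : X, orderOf x = 3 → ∀ E : Subgroup X, IsPGroup 2 E → x ∈ normalizer (E : Set X) →
    x ∈ centralizer (E : Set X)

/-- `X ≅ SL₂(2^k)` with `k ≥ 3` odd. -/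
def L2o (X : Type u) [Group X] : Prop :=
  ∃ (F : Type) (_ : Field F) (_ : Fintype F) (k : ℕ), Odd k ∧ 3 ≤ k ∧ Fintype.card F = 2 ^ k ∧
    Nonempty (X ≃* Matrix.SpecialLinearGroup (Fin 2) F)

/-- `X ≅ SL₂(2^k)` with `k ≥ 2`. -/
def L2e (X : Type u) [Group X] : Prop :=
  ∃ (F : Type) (_ : Field F) (_ : Fintype F) (k : ℕ), 2 ≤ k ∧ Fintype.card F = 2 ^ k ∧
    Nonempty (X ≃* Matrix.SpecialLinearGroup (Fin 2) F)

theorem L2o.l2e {X : Type u} [Group X] (h : L2o X) : L2e X := by
  obtain ⟨F, _, _, k, -, hk, hF, e⟩ := h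
  exact ⟨F, inferInstance, inferInstance, k, by omega, hF, e⟩

theorem L2o.of_equiv {X : Type u} {Y : Type v} [Group X] [Group Y] (e : X ≃* Y) (h : L2o Y) :
    L2o X := by
  obtain ⟨F, _, _, k, h1, hk, hF, ⟨e'⟩⟩ := h
  exact ⟨F, inferInstance, inferInstance, k, h1, hk, hF, ⟨e.trans e'⟩⟩

/-- `J / O₂(J)` has order `3` or is `SL₂(2^k)`, `k ≥ 3` odd. -/
def Shape (J : Type u) [Group J] : Prop :=
  Nat.card (J ⧸ pCore 2 J) = 3 ∨ L2o (J ⧸ pCore 2 J)

/-- The induction hypothesis of the theorem `Π` below order `n`. -/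
def IH (n : ℕ) : Prop :=
  ∀ (X : Type u) (V : Type v) [Group X] [Finite X] [AddCommGroup V] [Finite V]
    [DistribMulAction X V], Nat.card X < n → IsSimpleGroup X → ¬ IsMulCommutative X → Md X V →
      NoA X → 3 ∣ Nat.card X → L2o X

end CL.Gg
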