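import Cfsg.Agent.BLK.Gg.Defs

/-!
The configuration of the inductive step of `Π`.
-/

set_option autoImplicit false

namespace CL.Gg

open Subgroup Cfsg CL.MSS

universe u v

/-- `X` simple, `x` of order 3, `E ≠ 1` a Sylow 2-subgroup of `C(x)`. -/
structure Cf (V : Type v) {X : Type u} [Group X] [AddCommGroup V] [DistribMulAction X V]
    (x : X) (E : Subgroup X) : Prop where
  md : Md X V
  simple : IsSimpleGroup X
  na : ¬ IsMulCommutative X
  core : pCore 2 X = ⊥
  noA : NoA X
  ih : IH.{u, v} (Nat.card X)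
  ox : orderOf x = 3
  pg : IsPGroup 2 E
  le : E ≤ centralizer ({x} : Set X)
  max : ∀ D : Subgroup X, IsPGroup 2 D → E ≤ D → D ≤ centralizer ({x} : Set X) → D = E
  ne : E ≠ ⊥

end CL.Gg
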