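import Cfsg.Agent.BLK.Gg.Defs
import Cfsg.Agent.TECH.Sidki

/-!
Involutions act freely.
-/

set_option autoImplicit false
set_option maxHeartbeats 400000

namespace CL.Gg.Fr2

open Subgroup Cfsg CL.MSS

universe u v

variable {X : Type u} {V : Type v} [Group X] [Finite X] [AddCommGroup V] [Finite V]
  [DistribMulAction X V]

omit [Finite X] [Finite V] in
theorem neg_eq (h : Md X V) (v : V) : -v = v := neg_eq_of_add_eq_zero_left (h.two v)

omit [Finite X] [Finite V] in
theorem add_eq_zero (h : Md X V) {v w : V} : v + w = 0 ↔ v = w := by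
  rw [add_eq_zero_iff_eq_neg, neg_eq h]

omit [Finite X] in
theorem tt {t : X} (ht : orderOf t = 2) : t * t = 1 := by rw [← sq, ← ht, pow_orderOf_eq_one]

theorem fr_im (h : Md X V) (hO : pCore 2 X = ⊥) {t : X} (ht : orderOf t = 2) {v : V}
    (hv : t • v = v) : ∃ w : V, v = t • w + w := by
  obtain ⟨g, g1, go, e⟩ := CL.Sidki.exists_inverted (tt ht) (by
    rw [hO, mem_bot]
    rintro rfl
    simp at ht)
  have e1 : t * g = g⁻¹ * t := by rw [← e]; group
  have e2 : t * g⁻¹ = g * t := by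
    have : t * g⁻¹ * t⁻¹ = g := inv_injective (by
      change (t * g⁻¹ * t⁻¹)⁻¹ = g⁻¹
      conv_rhs => rw [← e]
      group)
    rw [← mul_inv_eq_iff_eq_mul, this]
  let φ : V →+ V := DistribMulAction.toAddMonoidHom V g + DistribMulAction.toAddMonoidHom V g⁻¹
  have hφ : ∀ u, φ u = g • u + g⁻¹ • u := fun _ => rfl
  have hi : Function.Injective φ := (injective_iff_map_eq_zero φ).2 fun u hu => by
    rw [hφ, add_eq_zero h] at hu
    refine h.fp (g ^ 2) (go.of_dvd_nat (orderOf_pow_dvd 2)) (fun e => g1 ?_) u (by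
      rw [sq, mul_smul, hu, smul_inv_smul])
    exact orderOf_eq_one_iff.1 ((Nat.coprime_two_right.2 go).eq_one_of_dvd (orderOf_dvd_of_pow_eq_one e))
  obtain ⟨u, rfl⟩ := Finite.surjective_of_injective hi v
  have hu : t • u = u := hi (by
    rw [← hv, hφ, hφ, smul_add, smul_smul, smul_smul, smul_smul, smul_smul, e1, e2, add_comm])
  exact ⟨g • u, by rw [hφ, smul_smul, e1, mul_smul, hu, add_comm]⟩

theorem fr_card (h : Md X V) (hO : pCore 2 X = ⊥) {t : X} (ht : orderOf t = 2) :
    Nat.card (MulAction.fixedBy V t) ^ 2 = Nat.card V := by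
  let ψ : V →+ V := DistribMulAction.toAddMonoidHom V t + AddMonoidHom.id V
  have hψ : ∀ u, ψ u = t • u + u := fun _ => rfl
  have e1 : (ψ.ker : Set V) = MulAction.fixedBy V t := Set.ext fun u => by
    rw [SetLike.mem_coe, AddMonoidHom.mem_ker, hψ, add_eq_zero h, MulAction.mem_fixedBy]
  have e2 : (ψ.range : Set V) = MulAction.fixedBy V t := Set.ext fun u => by
    rw [SetLike.mem_coe, AddMonoidHom.mem_range, MulAction.mem_fixedBy]
    refine ⟨?_, fun hu => (fr_im h hO ht hu).imp fun w hw => hw.symm⟩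
    rintro ⟨w, rfl⟩
    rw [hψ, smul_add, smul_smul, tt ht, one_smul, add_comm]
  have e3 := ψ.ker.card_mul_index
  rw [AddSubgroup.index_ker] at e3
  rw [← e3, sq]
  congr 1
  · rw [← e1]; rfl
  · rw [← e2]; rfl

theorem fix_eq (h : Md X V) (hO : pCore 2 X = ⊥) {s t : X} (hs : orderOf s = 2) (ht : orderOf t = 2)
    (hst : s ∈ At V t) (v : V) : s • v = v ↔ t • v = v := by
  have e : MulAction.fixedBy V t = MulAction.fixedBy V s :=
    Set.eq_of_subset_of_ncard_le (fun u hu => hst u hu) (le_of_eq (by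
      rw [← Nat.card_coe_set_eq, ← Nat.card_coe_set_eq]
      exact Nat.pow_left_injective two_ne_zero ((fr_card h hO hs).trans (fr_card h hO ht).symm)))
  rw [← MulAction.mem_fixedBy, ← MulAction.mem_fixedBy, e]

theorem mem_At_of (h : Md X V) (hO : pCore 2 X = ⊥) {t : X} (ht : orderOf t = 2) {s : X}
    (hs : ∀ v : V, s • (t • v - v) = t • v - v) : s ∈ At V t := fun v hv => by
  obtain ⟨w, rfl⟩ := fr_im h hO ht hv
  have := hs w
  rwa [sub_eq_add_neg, neg_eq h] at this

end CL.Gg.Fr2
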