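import Cfsg.Agent.BLK.Gg.Bas
import Cfsg.Agent.BLK.Gg.Fr2

/-!
Involutions act freely; the groups `At V t`.
-/

set_option autoImplicit false

namespace CL.Gg

open Subgroup Cfsg CL.MSS

universe u v

variable {X : Type u} {V : Type v} [Group X] [Finite X] [AddCommGroup V] [Finite V]
  [DistribMulAction X V]

/-- Baer-Suzuki (`O₂(X) = 1`): `t` inverts some `g ≠ 1` of odd order (`t` and a conjugate generate a non-2-group; dihedral).
For `v` fixed by `t`: `g - 1` and `g + g⁻¹ = g⁻¹ (g-1)²` are bijective on `V`; write `v = g•u + g⁻¹•u`; `t` commutes with `g + g⁻¹`, so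
`t•u = u`; `w := g•u` gives `t•w = g⁻¹•u`. -/
theorem Md.fr_im (h : Md X V) (hO : pCore 2 X = ⊥) {t : X} (ht : orderOf t = 2) {v : V}
    (hv : t • v = v) : ∃ w : V, v = t • w + w :=
  Fr2.fr_im h hO ht hv

/-- `w ↦ t•w + w` has kernel and image `C_V(t)`. -/
theorem Md.fr_card (h : Md X V) (hO : pCore 2 X = ⊥) {t : X} (ht : orderOf t = 2) :
    Nat.card (MulAction.fixedBy V t) ^ 2 = Nat.card V :=
  Fr2.fr_card h hO ht

/-- Two involutions one of which fixes the fixed vectors of the other have the same fixed vectors (`fr_card`). -/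
theorem Md.fix_eq (h : Md X V) (hO : pCore 2 X = ⊥) {s t : X} (hs : orderOf s = 2) (ht : orderOf t = 2)
    (hst : s ∈ At V t) (v : V) : s • v = v ↔ t • v = v :=
  Fr2.fix_eq h hO hs ht hst v

theorem Fr.pg (h : Md X V) {t : X} (ht : orderOf t = 2) : IsPGroup 2 (At V t) := by
  have hz : IsPGroup 2 (zpowers t) := IsPGroup.of_card (n := 1) (by rw [Nat.card_zpowers, ht, pow_one])
  obtain ⟨v, hv, hf⟩ := h.fix _ hz
  exact (h.stab hv).to_le fun g hg => hg v (hf t (mem_zpowers t))

theorem Fr.four (h : Md X V) (hO : pCore 2 X = ⊥) {t : X} (ht : orderOf t = 2) {b : X}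
    (hb : b ∈ At V t) (h4 : b ^ 4 = 1) : b ^ 2 = 1 := by
  by_contra h2
  have hs : orderOf (b ^ 2) = 2 := orderOf_eq_prime (by rw [← pow_mul]; exact h4) h2
  have key : ∀ v : V, b • b • v = v → b • v = v := fun v hv =>
    hb v ((h.fix_eq hO hs ht (pow_mem hb 2) v).1 (by rw [pow_two, mul_smul]; exact hv))
  have h4' : ∀ v : V, b • b • b • b • v = v := fun v => by
    rw [← mul_smul, ← mul_smul, ← mul_smul, show b * b * b * b = b ^ 4 by rw [pow_succ, pow_succ, pow_two], h4,
      one_smul]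
  refine h2 (h.faith hO fun v => ?_)
  have e1 := key (b • b • v + v) (by rw [smul_add, smul_add, h4', add_comm])
  rw [smul_add] at e1
  have e2 := key (b • v + v) (by
    rw [smul_add, smul_add]
    have e3 := h.two (b • b • v)
    have e4 := h.two (b • v)
    calc b • b • b • v + b • b • v = (b • b • b • v + b • v) + (b • b • v + b • v) - (b • v + b • v) := by abel
      _ = (b • b • v + b • b • v) + (b • v + v) - (b • v + b • v) := by rw [e1]; abel
      _ = b • v + v := by rw [e3, e4, zero_add, sub_zero])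
  rw [smul_add, add_comm (b • v) v] at e2
  rw [pow_two, mul_smul]
  exact add_right_cancel e2

/-- `At V t` fixes a nonzero vector so is a 2-group; if `a ∈ At V t` had order 4, `s = a²`: `ker (a+1) = C_V(t) = C_V(s) = ker (a+1)²`, so
`ker (a+1)^k = C_V(t)` for all `k`, but `(a+1)⁴ = 0`: `C_V(t) = V`, against `faith`. -/
theorem Md.At_sq (h : Md X V) (hO : pCore 2 X = ⊥) {t : X} (ht : orderOf t = 2) {a : X}
    (ha : a ∈ At V t) : a ^ 2 = 1 := by
  obtain ⟨k, hk⟩ := Fr.pg h ht ⟨a, ha⟩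
  have hk' : a ^ 2 ^ k = 1 := by simpa using congrArg Subtype.val hk
  have step : ∀ k : ℕ, a ^ 2 ^ (k + 1) = 1 → a ^ 2 = 1 := fun k => by
    induction k with
    | zero => exact fun e => by simpa using e
    | succ k ih =>
      intro e
      refine ih ?_
      rw [pow_succ, pow_mul]
      refine Fr.four h hO ht (pow_mem ha _) ?_
      rw [← pow_mul, ← e]
      congr 1
      ring
  exact step k (by rw [pow_succ, pow_mul, hk', one_pow])

theorem Md.At_comm (h : Md X V) (hO : pCore 2 X = ⊥) {t : X} (ht : orderOf t = 2) {a b : X}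
    (ha : a ∈ At V t) (hb : b ∈ At V t) : a * b = b * a := by
  have e1 := h.At_sq hO ht ha
  have e2 := h.At_sq hO ht hb
  have e3 := h.At_sq hO ht (mul_mem ha hb)
  rw [pow_two] at e1 e2 e3
  calc a * b = a * b * (b * b) * ((a * b) * (a * b))⁻¹ * (a * a) * (b * b) * 1 := by rw [e1, e2, e3]; group
    _ = b * a := by
      rw [e2, e3, e1]
      have : a * b = (a * b)⁻¹ := eq_inv_of_mul_eq_one_left e3
      rw [mul_inv_rev, ← eq_inv_of_mul_eq_one_left e1, ← eq_inv_of_mul_eq_one_left e2] at this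
      simpa using this

theorem Md.At_pg (h : Md X V) (hO : pCore 2 X = ⊥) {t : X} (ht : orderOf t = 2) :
    IsPGroup 2 (At V t) :=
  fun a => ⟨1, Subtype.ext (by simpa using h.At_sq hO ht a.2)⟩

theorem Md.At_eq (h : Md X V) (hO : pCore 2 X = ⊥) {t : X} (ht : orderOf t = 2) {a : X}
    (ha : a ∈ At V t) (h1 : a ≠ 1) : orderOf a = 2 ∧ At V a = At V t := by
  have ho : orderOf a = 2 := orderOf_eq_prime (h.At_sq hO ht ha) h1
  refine ⟨ho, Subgroup.ext fun g => ?_⟩
  simp only [mem_At, h.fix_eq hO ho ht ha]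

omit [Finite X] [Finite V] in
theorem At_conj (g t : X) : At V (g * t * g⁻¹) = g •ᶜ At V t := by
  ext x
  rw [mem_cj, mem_At, mem_At]
  constructor
  · intro hx v hv
    have := hx (g • v) (by rw [mul_smul, mul_smul, inv_smul_smul, hv])
    rw [mul_smul, mul_smul, this, inv_smul_smul]
  · intro hx v hv
    rw [mul_smul, mul_smul, smul_eq_iff_eq_inv_smul] at hv
    have := hx _ hv
    rwa [mul_smul, mul_smul, smul_inv_smul, smul_left_cancel_iff] at this

omit [Finite V] in
theorem cent_le_norm_At (t : X) : centralizer ({t} : Set X) ≤ normalizer (At V t : Set X) := fun g hg => by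
  rw [mem_normalizer_iff_cj, ← At_conj, mem_centralizer_singleton_iff.1 hg, mul_inv_cancel_right]

/-- TI: `At V a = At V t` and `At V a = g •ᶜ At V t`. -/
theorem Md.At_TI (h : Md X V) (hO : pCore 2 X = ⊥) {t : X} (ht : orderOf t = 2) {a g : X}
    (ha : a ∈ At V t) (h1 : a ≠ 1) (hg : g * a * g⁻¹ ∈ At V t) : g ∈ normalizer (At V t : Set X) := by
  have h2 : g * a * g⁻¹ ≠ 1 := fun e => h1 (by simpa [mul_assoc] using congrArg (fun x => g⁻¹ * x * g) e)
  rw [mem_normalizer_iff_cj, ← (h.At_eq hO ht ha h1).2, ← At_conj, (h.At_eq hO ht hg h2).2,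
    (h.At_eq hO ht ha h1).2]

/-- Quadratic: `a ∈ At V t` gives `a•v - v ∈ C_V(t)`. -/
theorem Md.At_quad (h : Md X V) (hO : pCore 2 X = ⊥) {t : X} (ht : orderOf t = 2) {a b : X}
    (ha : a ∈ At V t) (hb : b ∈ At V t) (v : V) : b • (a • v - v) = a • v - v := by
  by_cases h1 : a = 1
  · simp [h1]
  rw [← (h.At_eq hO ht ha h1).2] at hb
  refine hb _ ?_
  rw [smul_sub, ← mul_smul, ← pow_two, h.At_sq hO ht ha, one_smul, ← neg_sub]
  exact neg_eq_of_add_eq_zero_left (h.two _)

/-- Converse: an involution `s` fixing every `t•v - v` lies in `At V t` (`fr_im`). -/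
theorem Md.mem_At_of (h : Md X V) (hO : pCore 2 X = ⊥) {t : X} (ht : orderOf t = 2) {s : X}
    (hs : ∀ v : V, s • (t • v - v) = t • v - v) : s ∈ At V t :=
  Fr2.mem_At_of h hO ht hs

end CL.Gg
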