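import Cfsg.Agent.BLK.Gg.Defs
import Cfsg.Agent.S0802
import Mathlib.GroupTheory.SpecificGroups.Alternating.KleinFour
import Cfsg.Agent.CLAS.SLBasic

/-!
`PSL₂(F)`.
-/

set_option autoImplicit false

namespace CL.Gg

open Subgroup Cfsg CL.MSS

universe u v

namespace L2x

variable {F : Type} [Field F]

theorem center_eq [CharP F 2] : center (Matrix.SpecialLinearGroup (Fin 2) F) = ⊥ := by
  refine eq_bot_iff.2 fun A hA => ?_
  obtain ⟨r, h1, h2⟩ := Matrix.SpecialLinearGroup.mem_center_iff.1 hA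
  rw [Fintype.card_fin] at h1
  have h0 : (2 : F) = 0 := CharTwo.two_eq_zero
  have h3 : (r - 1) ^ 2 = 0 := by linear_combination h1 + (1 - r) * h0
  rw [sub_eq_zero.1 (pow_eq_zero_iff two_ne_zero |>.1 h3), map_one] at h2
  exact Subtype.ext h2.symm

/-- the upper unitriangular matrices -/
def up : Multiplicative F →* Matrix.SpecialLinearGroup (Fin 2) F where
  toFun c := ⟨!![1, c.toAdd; 0, 1], by simp [Matrix.det_fin_two_of]⟩
  map_one' := by
    ext i j
    fin_cases i <;> fin_cases j <;> simp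
  map_mul' a b := by
    apply Subtype.ext
    change !![1, (a * b).toAdd; 0, 1] = !![1, a.toAdd; 0, 1] * !![1, b.toAdd; 0, 1]
    simp [add_comm]

/-- the diagonal matrices -/
def dg : Fˣ →* Matrix.SpecialLinearGroup (Fin 2) F where
  toFun c := ⟨!![(c : F), 0; 0, ((c⁻¹ : Fˣ) : F)], by simp [Matrix.det_fin_two_of]⟩
  map_one' := by
    ext i j
    fin_cases i <;> fin_cases j <;> simp
  map_mul' a b := by
    apply Subtype.ext
    change !![((a * b : Fˣ) : F), 0; 0, (((a * b)⁻¹ : Fˣ) : F)] =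
      !![(a : F), 0; 0, ((a⁻¹ : Fˣ) : F)] * !![(b : F), 0; 0, ((b⁻¹ : Fˣ) : F)]
    simp [mul_comm]

theorem dg_inj : Function.Injective (dg (F := F)) := fun _ _ h =>
  Units.ext (congrArg (fun g : Matrix.SpecialLinearGroup (Fin 2) F => g.1 0 0) h)

theorem dg_up (c : Fˣ) (a : Multiplicative F) :
    dg c * up a = up (Multiplicative.ofAdd ((c : F) * c * a.toAdd)) * dg c := by
  apply Subtype.ext
  change !![(c : F), 0; 0, ((c⁻¹ : Fˣ) : F)] * !![1, a.toAdd; 0, 1] =
    !![1, (c : F) * c * a.toAdd; 0, 1] * !![(c : F), 0; 0, ((c⁻¹ : Fˣ) : F)]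
  have : (c : F) * c * a.toAdd * (c : F)⁻¹ = c * a.toAdd := by field_simp
  simp [this]

end L2x

variable {X : Type u} [Group X] [Finite X]

/-- `|F| = 2^k`, `Z(SL₂) = 1`; `k ≥ 2` since `SL₂(2)` has order 6 (not simple). -/
theorem l2e_of_psl [IsSimpleGroup X] (hna : ¬ IsMulCommutative X) (F : Type) [Field F] [Fintype F]
    [CharP F 2] (e : X ≃* Matrix.ProjectiveSpecialLinearGroup (Fin 2) F) : L2e X := by
  let e2 : X ≃* Matrix.SpecialLinearGroup (Fin 2) F :=
    e.trans ((QuotientGroup.quotientMulEquivOfEq L2x.center_eq).trans QuotientGroup.quotientBot)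
  obtain ⟨k, -, hk⟩ := FiniteField.card F 2
  refine ⟨F, inferInstance, inferInstance, k, ?_, hk, ⟨e2⟩⟩
  by_contra h2
  have h1 : (k : ℕ) = 1 := by have := k.pos; omega
  have hc : Nat.card X = 6 := by
    rw [Nat.card_congr e2.toEquiv, CL.SL.card_SL_two, Nat.card_eq_fintype_card, hk, h1]; rfl
  have := Fact.mk Nat.prime_three
  obtain ⟨x, hx⟩ := exists_prime_orderOf_dvd_card' (G := X) 3 (by rw [hc]; norm_num)
  have h3 : Nat.card (zpowers x) = 3 := by rw [Nat.card_zpowers, hx]
  have h4 := (zpowers x).index_mul_card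
  rw [h3, hc] at h4
  rcases (Subgroup.normal_of_index_eq_two (H := zpowers x) (by omega)).eq_bot_or_eq_top with h | h
  · rw [h, card_bot] at h3; omega
  · rw [h, card_top, hc] at h3; omega

/-- `k` even: `diag(ω, ω⁻¹)` normalizes the unitriangular group. -/
theorem L2e.l2o (h : L2e X)
    (hb : ∀ x : X, orderOf x = 3 → ∀ E : Subgroup X, IsPGroup 2 E → x ∈ normalizer (E : Set X) → E = ⊥) :
    L2o X := by
  classical
  obtain ⟨F, _, _, k, hk, hF, ⟨e⟩⟩ := h
  rcases Nat.even_or_odd k with ⟨m, rfl⟩ | ho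
  · exfalso
    have := Fact.mk Nat.prime_two
    have := Fact.mk Nat.prime_three
    have hc : CharP F 2 := charP_of_card_eq_prime_pow hF
    obtain ⟨w, hw⟩ := exists_prime_orderOf_dvd_card' (G := Fˣ) 3 (by
      rw [Nat.card_units, Nat.card_eq_fintype_card, hF, ← two_mul, pow_mul]
      simpa using Nat.sub_dvd_pow_sub_pow 4 1 m)
    let ι : Multiplicative F →* X := e.symm.toMonoidHom.comp L2x.up
    have h1 := hb (e.symm (L2x.dg w)) (by rw [MulEquiv.orderOf_eq, orderOf_injective _ L2x.dg_inj, hw]) ι.range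
      (by
        rintro ⟨_, a, rfl⟩
        refine ⟨1, Subtype.ext ?_⟩
        change ι a ^ 2 ^ 1 = 1
        rw [← map_pow, show a ^ 2 ^ 1 = 1 from Multiplicative.toAdd.injective (by
          rw [toAdd_pow, toAdd_one, pow_one, two_nsmul, CharTwo.add_self_eq_zero]), map_one])
      (mem_normalizer_fintype (by
        rintro _ ⟨a, rfl⟩
        refine ⟨Multiplicative.ofAdd ((w : F) * w * a.toAdd), ?_⟩
        rw [eq_mul_inv_iff_mul_eq]
        change e.symm (L2x.up _) * _ = _ * e.symm (L2x.up _)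
        rw [← map_mul, ← map_mul, L2x.dg_up]))
    have h2 : ι (Multiplicative.ofAdd 1) ∈ ι.range := ⟨_, rfl⟩
    rw [h1, mem_bot] at h2
    have h3 : L2x.up (Multiplicative.ofAdd (1 : F)) = 1 := e.symm.injective (h2.trans (map_one _).symm)
    have h4 := congrArg (fun g : Matrix.SpecialLinearGroup (Fin 2) F => g.1 0 1) h3
    exact one_ne_zero (α := F) h4
  · exact ⟨F, inferInstance, inferInstance, k, ho, by obtain ⟨m, rfl⟩ := ho; omega, hF, ⟨e⟩⟩

/-- `PSL₂(q)`, `q` odd, contains `A₄`. -/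
theorem psl2_odd (F : Type) [Field F] [Fintype F] (ho : Odd (Fintype.card F)) :
    ∃ (x : Matrix.ProjectiveSpecialLinearGroup (Fin 2) F)
      (E : Subgroup (Matrix.ProjectiveSpecialLinearGroup (Fin 2) F)), orderOf x = 3 ∧ IsPGroup 2 E ∧
      x ∈ normalizer (E : Set (Matrix.ProjectiveSpecialLinearGroup (Fin 2) F)) ∧ E ≠ ⊥ := by
  obtain ⟨p, hp, n, hpp, hn⟩ := FiniteField.card' F
  have := Fact.mk hpp
  have := Fact.mk Nat.prime_three
  obtain ⟨H, ⟨e⟩⟩ := (Cfsg.Agent.S0802.result p n hn).2 (by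
    rintro ⟨rfl, -⟩
    rw [hn] at ho
    exact absurd (Nat.Odd.of_mul_left (by rwa [← Nat.succ_pred_eq_of_pos n.pos, pow_succ'] at ho)) (by decide))
  let ι : alternatingGroup (Fin 4) →* Matrix.ProjectiveSpecialLinearGroup (Fin 2) F :=
    H.subtype.comp e.symm.toMonoidHom
  have hι : Function.Injective ι := H.subtype_injective.comp e.symm.injective
  have h4 : Nat.card (Fin 4) = 4 := by simp
  obtain ⟨a, ha⟩ := exists_prime_orderOf_dvd_card' (G := alternatingGroup (Fin 4)) 3 (by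
    rw [alternatingGroup.card_of_card_eq_four h4]; norm_num)
  have hN := alternatingGroup.normal_kleinFour h4
  have hK := alternatingGroup.kleinFour_card_of_card_eq_four h4
  refine ⟨ι a, (alternatingGroup.kleinFour (Fin 4)).map ι, by rw [orderOf_injective _ hι, ha],
    (IsPGroup.of_card (n := 2) hK).map ι, ?_, fun h => ?_⟩
  · exact Subgroup.le_normalizer_map ι ⟨a, by rw [normalizer_eq_top]; exact mem_top a, rfl⟩
  · rw [Subgroup.map_eq_bot_iff_of_injective _ hι] at h
    rw [h, card_bot] at hK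
    omega

end CL.Gg
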