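import Cfsg.Agent.BLK.Gg.Defs

/-!
`PSL_n(F)`, `n ≥ 3`, char 2, contains the Frobenius group of order 21.
-/

set_option autoImplicit false
set_option maxHeartbeats 400000

namespace CL.Gg

open Subgroup Cfsg CL.MSS

universe u v

namespace L3x

/-- The block embedding `A ↦ A ⊕ 1`. -/
def blk (m : ℕ) (F : Type) [Field F] :
    Matrix.SpecialLinearGroup (Fin 3) F →* Matrix.SpecialLinearGroup (Fin (3 + m)) F where
  toFun A := ⟨Matrix.reindex finSumFinEquiv finSumFinEquiv (Matrix.fromBlocks A.1 0 0 1), by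
    rw [Matrix.det_reindex_self, Matrix.det_fromBlocks_zero₂₁, A.2, Matrix.det_one, mul_one]⟩
  map_one' := Subtype.ext (by simp)
  map_mul' A B := Subtype.ext (by
    change Matrix.reindex finSumFinEquiv finSumFinEquiv (Matrix.fromBlocks (A.1 * B.1) 0 0 1) =
      Matrix.reindex finSumFinEquiv finSumFinEquiv (Matrix.fromBlocks A.1 0 0 1) *
        Matrix.reindex finSumFinEquiv finSumFinEquiv (Matrix.fromBlocks B.1 0 0 1)
    simp [Matrix.fromBlocks_multiply, Matrix.submatrix_mul_equiv])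

theorem blk_inj (m : ℕ) (F : Type) [Field F] : Function.Injective (blk m F) := by
  intro A B h
  have h1 := congrArg Subtype.val h
  have h2 := (Matrix.reindex (finSumFinEquiv (m := 3) (n := m)) finSumFinEquiv).injective h1
  exact Subtype.ext (Matrix.fromBlocks_inj.1 h2).1

theorem map_inj (F : Type) [Field F] [CharP F 2] :
    Function.Injective (Matrix.SpecialLinearGroup.map (n := Fin 3) (ZMod.castHom (dvd_refl 2) F)) := by
  intro A B h
  ext i j
  have h1 := congrFun (congrFun (congrArg Subtype.val h) i) j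
  exact (ZMod.castHom (dvd_refl 2) F).injective h1

/-- companion matrix of `X³ + X + 1` -/
def mA : Matrix.SpecialLinearGroup (Fin 3) (ZMod 2) := ⟨!![0, 0, 1; 1, 0, 1; 0, 1, 0], by decide⟩

/-- the Frobenius map -/
def mB : Matrix.SpecialLinearGroup (Fin 3) (ZMod 2) := ⟨!![1, 0, 0; 0, 0, 1; 0, 1, 1], by decide⟩

theorem mA7 : mA ^ 7 = 1 := by decide
theorem mB3 : mB ^ 3 = 1 := by decide
theorem mBA : mB * mA = mA ^ 2 * mB := by decide
theorem mne : mA * mB ≠ mB * mA := by decide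

end L3x

/-- `SL₃(2) → SL_n(F) → PSL_n(F)` (block matrix `A ⊕ 1`; the images of `a, b` are not central as they do not commute).
`a` = companion matrix of `X³+X+1`, `b` = Frobenius. -/
theorem psl_21 (n : ℕ) (hn : 3 ≤ n) (F : Type) [Field F] [Fintype F] [CharP F 2] :
    ∃ a b : Matrix.ProjectiveSpecialLinearGroup (Fin n) F,
      orderOf a = 7 ∧ orderOf b = 3 ∧ b * a * b⁻¹ = a ^ 2 := by
  obtain ⟨m, rfl⟩ := Nat.exists_eq_add_of_le hn
  let φ := (L3x.blk m F).comp (Matrix.SpecialLinearGroup.map (n := Fin 3) (ZMod.castHom (dvd_refl 2) F))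
  have hφ : Function.Injective φ := (L3x.blk_inj m F).comp (L3x.map_inj F)
  let ψ := (QuotientGroup.mk' (center (Matrix.SpecialLinearGroup (Fin (3 + m)) F))).comp φ
  have hA : ψ L3x.mA ≠ 1 := fun h => by
    have h1 : φ L3x.mA ∈ center _ := (QuotientGroup.eq_one_iff _).1 h
    have h2 := Subgroup.mem_center_iff.1 h1 (φ L3x.mB)
    rw [← map_mul, ← map_mul] at h2
    exact L3x.mne (hφ h2).symm
  have hB : ψ L3x.mB ≠ 1 := fun h => by
    have h1 : φ L3x.mB ∈ center _ := (QuotientGroup.eq_one_iff _).1 h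
    have h2 := Subgroup.mem_center_iff.1 h1 (φ L3x.mA)
    rw [← map_mul, ← map_mul] at h2
    exact L3x.mne (hφ h2)
  have : Fact (Nat.Prime 7) := ⟨by norm_num⟩
  have : Fact (Nat.Prime 3) := ⟨by norm_num⟩
  refine ⟨ψ L3x.mA, ψ L3x.mB, orderOf_eq_prime (by rw [← map_pow, L3x.mA7, map_one]) hA,
    orderOf_eq_prime (by rw [← map_pow, L3x.mB3, map_one]) hB, ?_⟩
  rw [mul_inv_eq_iff_eq_mul, ← map_mul, L3x.mBA, map_mul, map_pow]

end CL.Gg
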