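import Cfsg.Agent.BLK.Gg.Shp
import Cfsg.Agent.BLK.Gg.LJ0

/-!
No 2-element centralizes one element of order 3 and inverts another (second proof).
-/

set_option autoImplicit false

namespace CL.Gg.LJx

open Subgroup Cfsg CL.MSS

universe u v

variable {X : Type u} {V : Type v} [Group X] [Finite X] [AddCommGroup V] [Finite V]
  [DistribMulAction X V]

theorem lj (ih : IH.{u, v} (Nat.card X)) (h : Md X V) (hA : NoA X) {x y u : X}
    (hx : orderOf x = 3) (hy : orderOf y = 3) (hu : ∃ k : ℕ, u ^ 2 ^ k = 1)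
    (h1 : u * x * u⁻¹ = x) (h2 : u * y * u⁻¹ = y⁻¹) : False := by
  have fin : u * y = y * u → False := fun e => by
    have e1 : y⁻¹ = y := by rw [← h2, e, mul_inv_cancel_right]
    have e2 : y ^ 2 = 1 := by rw [pow_two]; nth_rewrite 1 [← e1]; exact inv_mul_cancel y
    have := orderOf_dvd_of_pow_eq_one e2
    rw [hy] at this
    omega
  have hux : u * x = x * u := by rw [← mul_inv_eq_iff_eq_mul, h1]
  by_cases hJ : zpowers x ⊔ zpowers y = ⊤
  · exact LJ0.lj0 h hx hy (hJ ▸ mem_top u) h1 h2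
  set J := zpowers x ⊔ zpowers y with hJd
  have hxJ : x ∈ J := mem_sup_left (mem_zpowers x)
  have hyJ : y ∈ J := mem_sup_right (mem_zpowers y)
  have hn : Nat.card J < Nat.card X :=
    lt_of_le_of_ne (card_le_card_group J) fun e => hJ (eq_top_of_card_eq J e)
  have hyL : y ∈ X3 J := mem_X3 hyJ hy
  have hxL : x ∈ X3 J := mem_X3 hxJ hx
  rcases h.x3_sub ih hA hn hxJ hx with e | hL
  · rw [e] at hyL
    obtain ⟨k, rfl⟩ := mem_zpowers_iff.1 hyL
    exact fin (Commute.zpow_right hux k)
  · have huJ : u ∈ normalizer (J : Set X) := by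
      refine mem_normalizer_fintype fun n hn => ?_
      have : J ≤ J.comap (MulAut.conj u).toMonoidHom := by
        refine sup_le (zpowers_le.2 ?_) (zpowers_le.2 ?_)
        · show u * x * u⁻¹ ∈ J
          rwa [h1]
        · show u * y * u⁻¹ ∈ J
          rw [h2]; exact inv_mem hyJ
      exact this hn
    have huL := normalizer_le_X3 J huJ
    have hle : X3 J ≤ normalizer (X3 J : Set X) := le_normalizer
    haveI : ((X3 J).subgroupOf (normalizer (X3 J : Set X))).Normal := normal_in_normalizer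
    have hL' : L2o ((X3 J).subgroupOf (normalizer (X3 J : Set X))) :=
      L2o.of_equiv (subgroupOfEquivOfLe hle) hL
    obtain ⟨k, hk⟩ := hu
    have c := L2o.out _ hL' (u := ⟨u, huL⟩) (x := ⟨x, hle hxL⟩) ⟨k, Subtype.ext hk⟩ hxL
      ((orderOf_coe _).symm.trans hx) (Subtype.ext hux)
    exact fin (congrArg Subtype.val (c ⟨y, hle hyL⟩ hyL)).symm

end CL.Gg.LJx
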