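import Cfsg.Agent.BLK.Gg.SLa
import Cfsg.Agent.CLAS.SL2Sylow

/-!
Facts on `SL₂(2^k)` (`k ≥ 3` odd), II: Borel subgroup and torus. All Sylow 2-subgroups are conjugate to the unitriangular group.
-/

set_option autoImplicit false

namespace CL.Gg

open Subgroup Cfsg CL.MSS

universe u v

variable {L : Type u} [Group L] [Finite L]

namespace SLb

open CL.SL2 MulAction
open scoped MatrixGroups

variable {F : Type} [Field F]

/-- the first basis vector -/
def v0 (F : Type) [Field F] : Fin 2 → F := ![1, 0]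

theorem v0_ne : v0 F ≠ 0 := fun h => one_ne_zero (congrFun h 0)

theorem smul_v0 (g : SL(2, F)) : g • v0 F = ![g 0 0, g 1 0] := by
  rw [sl_smul_eq]
  ext i
  fin_cases i <;> simp [v0, Matrix.mulVec, dotProduct]

theorem char_two [Fintype F] {k : ℕ} (hF : Fintype.card F = 2 ^ k) : CharP F 2 := by
  obtain ⟨l, hchar, b, hl, hb⟩ := FiniteField.card' F
  have hl2 : l = 2 := by
    have : l ∣ 2 ^ k := by rw [← hF, hb]; exact dvd_pow_self l b.ne_zero
    exact (Nat.prime_dvd_prime_iff_eq hl Nat.prime_two).1 (hl.dvd_of_dvd_pow this)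
  exact hl2 ▸ hchar

/-- normal form: the Sylow subgroup is the stabiliser of the first basis vector -/
theorem nf [Finite F] [CharP F 2] (e : L ≃* SL(2, F)) (T : Sylow 2 L) :
    ∃ e' : L ≃* SL(2, F), ∀ x, x ∈ (T : Subgroup L) ↔ e' x • v0 F = v0 F := by
  obtain ⟨g, hg⟩ := exists_smul_eq SL(2, F) (T.mapSurjective (f := e.toMonoidHom) e.surjective)
    (sylowOfVec 2 (v0 F) v0_ne)
  refine ⟨e.trans (MulAut.conj g), fun x => ?_⟩
  have h1 : e x ∈ (T.mapSurjective (f := e.toMonoidHom) e.surjective : Subgroup SL(2, F)) ↔ x ∈ (T : Subgroup L) :=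
    mem_map_iff_mem (f := e.toMonoidHom) e.injective
  rw [← h1, ← mem_stabilizer_iff, ← coe_sylowOfVec 2 _ v0_ne, ← hg, Sylow.coe_subgroup_smul,
    Subgroup.mem_pointwise_smul_iff_inv_smul_mem]
  exact iff_of_eq (congrArg (· ∈ _) (by simp [mul_assoc]))

omit [Finite L] in
theorem norm_iff {e : L ≃* SL(2, F)} {T : Subgroup L} {v : Fin 2 → F} (hv : v ≠ 0)
    (hT : ∀ x, x ∈ T ↔ e x • v = v) (g : L) : g ∈ normalizer (T : Set L) ↔ ∃ a : F, a • v = e g • v := by
  constructor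
  · intro hg
    refine exists_smul_of_stabilizer_le hv fun y hy => ?_
    obtain ⟨y, rfl⟩ := e.surjective y
    have h1 := (hT _).1 ((mem_normalizer_iff.1 (inv_mem hg) y).1 ((hT y).2 hy))
    rw [mem_stabilizer_iff]
    conv_rhs => rw [← h1]
    simp [mul_smul]
  · rintro ⟨a, ha⟩
    have a0 : a ≠ 0 := by
      rintro rfl
      rw [zero_smul, eq_comm, smul_eq_zero_iff_eq] at ha
      exact hv ha
    refine mem_normalizer_iff.2 fun y => ?_
    rw [hT, hT, ← mem_stabilizer_iff (a := v) (g := e (g * y * g⁻¹)), ← stabilizer_smul_eq a0, ha,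
      mem_stabilizer_iff]
    simp [mul_smul]

/-- the diagonal torus -/
def dg : Fˣ →* SL(2, F) where
  toFun a := ⟨!![(a : F), 0; 0, ((a⁻¹ : Fˣ) : F)], by simp [Matrix.det_fin_two_of]⟩
  map_one' := by
    ext i j
    fin_cases i <;> fin_cases j <;> simp
  map_mul' a b := by
    apply Subtype.ext
    change !![((a * b : Fˣ) : F), 0; 0, (((a * b)⁻¹ : Fˣ) : F)] =
      !![(a : F), 0; 0, ((a⁻¹ : Fˣ) : F)] * !![(b : F), 0; 0, ((b⁻¹ : Fˣ) : F)]
    simp [mul_comm]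

/-- the root subgroup -/
def up (c : F) : SL(2, F) := ⟨!![1, c; 0, 1], by simp [Matrix.det_fin_two_of]⟩

/-- the Weyl element -/
def wy (F : Type) [Field F] : SL(2, F) := ⟨!![0, -1; 1, 0], by simp [Matrix.det_fin_two_of]⟩

theorem up_zero : up (0 : F) = 1 := by
  ext i j
  fin_cases i <;> fin_cases j <;> simp [up]

theorem up_inj {a b : F} (h : up a = up b) : a = b := congrArg (fun g : SL(2, F) => g 0 1) h

theorem exists_up {g : SL(2, F)} (h : g • v0 F = v0 F) : ∃ c, g = up c := by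
  rw [smul_v0] at h
  have h0 : g 0 0 = 1 := congrFun h 0
  have h1 : g 1 0 = 0 := congrFun h 1
  have h2 := g.det_coe
  rw [Matrix.det_fin_two] at h2
  have h3 : g 1 1 = 1 := by
    change g 0 0 * g 1 1 - g 0 1 * g 1 0 = 1 at h2
    rw [h0, h1] at h2
    linear_combination h2
  refine ⟨g 0 1, ?_⟩
  ext i j
  fin_cases i <;> fin_cases j
  exacts [h0, rfl, h1, h3]

theorem dg_up (a : Fˣ) (c : F) : dg a * up c * (dg a)⁻¹ = up ((a : F) ^ 2 * c) := by
  rw [mul_inv_eq_iff_eq_mul]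
  apply Subtype.ext
  change !![(a : F), 0; 0, ((a⁻¹ : Fˣ) : F)] * !![1, c; 0, 1] =
    !![1, (a : F) ^ 2 * c; 0, 1] * !![(a : F), 0; 0, ((a⁻¹ : Fˣ) : F)]
  ext i j
  fin_cases i <;> fin_cases j <;> simp [Matrix.mul_apply, Fin.sum_univ_two]
  field_simp

theorem wy_dg (a : Fˣ) : wy F * dg a * (wy F)⁻¹ = (dg a)⁻¹ := by
  rw [mul_inv_eq_iff_eq_mul, ← map_inv]
  apply Subtype.ext
  change !![0, -1; 1, 0] * !![(a : F), 0; 0, ((a⁻¹ : Fˣ) : F)] =
    !![((a⁻¹ : Fˣ) : F), 0; 0, ((a⁻¹⁻¹ : Fˣ) : F)] * !![0, -1; 1, 0]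
  simp

end SLb

open SLb CL.SL2 in

/-- Two opposite root subgroups generate `SL₂(F)`. -/
theorem L2e.gen (h : L2e L) (T : Sylow 2 L) {g : L}
    (hg : g ∉ normalizer ((T : Subgroup L) : Set L)) : (T : Subgroup L) ⊔ zpowers g = ⊤ := by
  obtain ⟨F, _, _, k, hk, hF, ⟨e⟩⟩ := h
  have := char_two hF
  obtain ⟨e, hT⟩ := nf e T
  rw [norm_iff v0_ne hT] at hg
  have hd : v0 F 0 * (e g • v0 F) 1 - v0 F 1 * (e g • v0 F) 0 ≠ 0 := fun c => hg (exists_smul_of_det_eq_zero v0_ne c)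
  have ht := stabilizer_sup_stabilizer_eq_top hd
  have hle : MulAction.stabilizer _ (v0 F) ⊔ MulAction.stabilizer _ (e g • v0 F) ≤
      ((T : Subgroup L) ⊔ zpowers g).map e.toMonoidHom := by
    refine sup_le (fun y hy => ?_) fun y hy => ?_
    · obtain ⟨y, rfl⟩ := e.surjective y
      exact mem_map_of_mem _ (mem_sup_left ((hT y).2 hy))
    · obtain ⟨y, rfl⟩ := e.surjective y
      have h1 : g⁻¹ * y * g ∈ (T : Subgroup L) := by
        rw [hT, map_mul, map_mul, mul_smul, mul_smul, MulAction.mem_stabilizer_iff.1 hy, map_inv, inv_smul_smul]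
      have h2 : g ∈ (T : Subgroup L) ⊔ zpowers g := mem_sup_right (mem_zpowers g)
      have h3 := mul_mem (mul_mem h2 (mem_sup_left h1)) (inv_mem h2)
      rw [show g * (g⁻¹ * y * g) * g⁻¹ = y by group] at h3
      exact mem_map_of_mem _ h3
  rw [ht] at hle
  exact eq_top_iff.2 fun x _ => (mem_map_iff_mem (f := e.toMonoidHom) e.injective).1 (hle (mem_top _))

open SLb CL.SL2 in

/-- `|N(T)| = q (q-1)` and `3 ∤ 2^k - 1` for odd `k` (or: `x` has no eigenvalue in `F`). -/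
theorem L2o.not_norm (h : L2o L) (T : Sylow 2 L) {x : L} (hx : orderOf x = 3) :
    x ∉ normalizer ((T : Subgroup L) : Set L) := by
  obtain ⟨F, _, _, k, ⟨j, rfl⟩, hk, hF, ⟨e⟩⟩ := h
  have := char_two hF
  obtain ⟨e, hT⟩ := nf e T
  rw [norm_iff v0_ne hT]
  rintro ⟨a, ha⟩
  have x3 : x ^ 3 = 1 := hx ▸ pow_orderOf_eq_one x
  have h3 : a ^ 3 = 1 := by
    have h1 : e (x ^ 3) • v0 F = a ^ 3 • v0 F := by
      rw [pow_three, map_mul, map_mul, mul_smul, mul_smul, ← ha, smul_comm (e x) a, ← ha, smul_comm (e x) a,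
        smul_comm (e x) a, ← ha, smul_smul, smul_smul, ← pow_three']
    rw [x3, map_one, one_smul] at h1
    simpa [v0] using (congrFun h1 0).symm
  have h4 : a ^ 2 ^ (2 * j + 1) = a := hF ▸ FiniteField.pow_card a
  have h5 : 2 ^ (2 * j + 1) % 3 = 2 := by
    rw [pow_succ, pow_mul, Nat.mul_mod, Nat.pow_mod]
    simp
  rw [← Nat.div_add_mod (2 ^ (2 * j + 1)) 3, h5, pow_add, pow_mul, h3, one_pow, one_mul] at h4
  have a1 : a = 1 := by linear_combination a ^ 2 * h4 - (a - 1) * h3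
  rw [a1, one_smul] at ha
  obtain ⟨n, hn⟩ := T.isPGroup' ⟨x, (hT x).2 ha.symm⟩
  have h6 : 3 ∣ 2 ^ n := hx ▸ orderOf_dvd_of_pow_eq_one (congrArg Subtype.val hn)
  exact absurd (Nat.prime_three.dvd_of_dvd_pow h6) (by norm_num)

open SLb CL.SL2 in

/-- `d = diag(λ, λ⁻¹)` with `λ` a generator of `Fˣ`, `w` the Weyl element. `d` acts on `T ≅ F` as multiplication by `λ²`, also a generator. -/
theorem L2e.torus (h : L2e L) (T : Sylow 2 L) : ∃ d w : L, Odd (orderOf d) ∧ d ≠ 1 ∧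
    d ∈ normalizer ((T : Subgroup L) : Set L) ∧ w * d * w⁻¹ = d⁻¹ ∧
    w ∉ normalizer ((T : Subgroup L) : Set L) ∧
    (∀ t ∈ (T : Subgroup L), d * t * d⁻¹ = t → t = 1) ∧
    (∀ t ∈ (T : Subgroup L), ∀ t' ∈ (T : Subgroup L), t ≠ 1 → t' ≠ 1 →
      ∃ i : ℕ, d ^ i * t * (d ^ i)⁻¹ = t') := by
  obtain ⟨F, _, _, k, hk, hF, ⟨e⟩⟩ := h
  have := char_two hF
  obtain ⟨e, hT⟩ := nf e T
  obtain ⟨a, ha⟩ := IsCyclic.exists_monoid_generator (α := Fˣ)
  have h4 : 4 ≤ 2 ^ k := (Nat.pow_le_pow_right two_pos hk :)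
  have a1 : (a : F) ≠ 1 := fun c => by
    have hs : Subsingleton Fˣ := ⟨fun b b' => by
      obtain ⟨i, rfl⟩ := ha b
      obtain ⟨j, rfl⟩ := ha b'
      simp [Units.val_eq_one.1 c]⟩
    have := Finite.card_le_one_iff_subsingleton.2 hs
    rw [Nat.card_units, Nat.card_eq_fintype_card, hF] at this
    omega
  have cj : ∀ (b : Fˣ) (t : L) (c : F), e t = up c →
      e (e.symm (dg b) * t * (e.symm (dg b))⁻¹) = up ((b : F) ^ 2 * c) := fun b t c hc => by
    rw [map_mul, map_mul, map_inv, e.apply_symm_apply, hc, dg_up]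
  refine ⟨e.symm (dg a), e.symm (wy F), ?_, fun c => a1 ?_, ?_, ?_, ?_, fun t ht c => ?_, fun t ht t' ht' t1 t2 => ?_⟩
  · refine Odd.of_dvd_nat (n := Nat.card Fˣ) ?_ (orderOf_dvd_of_pow_eq_one ?_)
    · rw [Nat.card_units, Nat.card_eq_fintype_card, hF]
      exact Nat.Even.sub_odd (by omega) (Nat.even_pow.2 ⟨even_two, by omega⟩) odd_one
    · rw [← map_pow, ← map_pow, pow_card_eq_one', map_one, map_one]
  · exact congrArg (fun g : Matrix.SpecialLinearGroup (Fin 2) F => g 0 0) ((map_eq_one_iff _ e.symm.injective).1 c)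
  · refine (norm_iff v0_ne hT _).2 ⟨a, ?_⟩
    rw [e.apply_symm_apply, smul_v0]
    change _ = ![(a : F), 0]
    ext i
    fin_cases i <;> simp [v0]
  · rw [← map_inv, ← map_mul, ← map_mul, wy_dg, map_inv]
  · rw [norm_iff v0_ne hT, e.apply_symm_apply, smul_v0]
    rintro ⟨b, hb⟩
    simpa [v0, wy] using congrFun hb 1
  · obtain ⟨c0, h0⟩ := exists_up ((hT t).1 ht)
    have h1 := cj a t c0 h0
    rw [c, h0] at h1
    have h2 : ((a : F) - 1) ^ 2 * c0 = 0 := by
      linear_combination -up_inj h1 + (1 - a) * c0 * (CharTwo.two_eq_zero : (2 : F) = 0)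
    rw [(mul_eq_zero.1 h2).resolve_left (pow_ne_zero 2 (sub_ne_zero.2 a1)), up_zero] at h0
    exact (map_eq_one_iff _ e.injective).1 h0
  · obtain ⟨c, h0⟩ := exists_up ((hT t).1 ht)
    obtain ⟨c', h0'⟩ := exists_up ((hT t').1 ht')
    have c0 : c ≠ 0 := by
      rintro rfl
      exact t1 ((map_eq_one_iff _ e.injective).1 (h0.trans up_zero))
    have c1 : c' ≠ 0 := by
      rintro rfl
      exact t2 ((map_eq_one_iff _ e.injective).1 (h0'.trans up_zero))
    obtain ⟨m, hm⟩ := FiniteField.isSquare_of_char_two (ringChar.eq F 2) (c' / c)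
    have m0 : m ≠ 0 := by
      rintro rfl
      exact div_ne_zero c1 c0 (by rw [hm, mul_zero])
    obtain ⟨i, hi⟩ := ha (Units.mk0 m m0)
    refine ⟨i, e.injective ?_⟩
    rw [← map_pow, ← map_pow, cj _ t c h0, h0', show a ^ i = Units.mk0 m m0 from hi, Units.val_mk0, pow_two, ← hm,
      div_mul_cancel₀ _ c0]

end CL.Gg
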