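import Cfsg.Agent.BLK.Gg.Shp
import Cfsg.Agent.BLK.Gg.SLb

/-!
`C_V(⁅O,⟨x⟩⁆)` is invariant when `J / O` has order 3 or is `SL₂(2^k)`, `k` odd.
-/

set_option autoImplicit false

namespace CL.Gg.LYx

open Subgroup Cfsg CL.MSS
open scoped commutatorElement

universe u v

variable {X : Type u} {V : Type v} [Group X] [Finite X] [AddCommGroup V] [Finite V]
  [DistribMulAction X V]

/-- The vectors fixed by a set of group elements. -/
def fx (V : Type v) {X : Type u} [Group X] [AddCommGroup V] [DistribMulAction X V] (S : Set X) :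
    AddSubgroup V where
  carrier := {v | ∀ q ∈ S, q • v = v}
  zero_mem' := fun q _ => smul_zero q
  add_mem' := fun {a b} ha hb q hq => by rw [smul_add, ha q hq, hb q hq]
  neg_mem' := fun {a} ha q hq => by rw [smul_neg, ha q hq]

omit [Finite X] [Finite V] in
theorem fx_smul {S : Set X} {g : X} (hg : ∀ q ∈ S, g⁻¹ * q * g ∈ S) {v : V} (hv : v ∈ fx V S) :
    g • v ∈ fx V S := fun q hq => by
  have := hv _ (hg q hq)
  rw [mul_smul, mul_smul, inv_smul_eq_iff] at this
  exact this

omit [Finite X] in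
theorem top_of (O : Subgroup X) [O.Normal] {H : Subgroup X} (hO : O ≤ H)
    (h : H.map (QuotientGroup.mk' O) = ⊤) : H = ⊤ := by
  have := comap_map_eq (QuotientGroup.mk' O) H
  rw [h, comap_top, QuotientGroup.ker_mk', sup_eq_left.2 hO] at this
  exact this.symm

theorem core (h : Md X V) (O : Subgroup X) [hN : O.Normal] (hO : IsPGroup 2 O)
    (hS : Nat.card (X ⧸ O) = 3 ∨ L2o (X ⧸ O)) {x : X} (hx : orderOf x = 3) (g : X) {v : V}
    (hv : v ∈ fx V ((⁅O, zpowers x⁆ : Subgroup X) : Set X)) :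
    g • v ∈ fx V ((⁅O, zpowers x⁆ : Subgroup X) : Set X) := by
  have hx' := ord3_mk O hO hx
  have nrm : ∀ k ∈ normalizer ((⁅O, zpowers x⁆ : Subgroup X) : Set X), ∀ w ∈
      fx V ((⁅O, zpowers x⁆ : Subgroup X) : Set X),
      k • w ∈ fx V ((⁅O, zpowers x⁆ : Subgroup X) : Set X) := fun k hk w hw =>
    fx_smul (fun q hq => by simpa using (mem_normalizer_iff.1 (inv_mem hk) q).1 hq) hw
  have hQO : ⁅O, zpowers x⁆ ≤ O := commutator_le_left _ _
  rcases hS with hS | hS
  · refine nrm g ?_ v hv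
    have : normalizer ((⁅O, zpowers x⁆ : Subgroup X) : Set X) = ⊤ := by
      refine top_of O (normalizer_commutator_ge_left _ _) (eq_top_iff.2 ?_)
      have h1 : zpowers (x : X ⧸ O) = ⊤ := by
        apply eq_top_of_card_eq
        rw [Nat.card_zpowers, hx', hS]
      rw [← h1, zpowers_le]
      exact mem_map_of_mem _ (normalizer_commutator_ge_right _ _ (mem_zpowers x))
    rw [this]; exact mem_top g
  · let R : Set X := {r | ∃ k : X, k * r * k⁻¹ ∈ ⁅O, zpowers x⁆}
    have hW : ∀ k : X, ∀ w ∈ fx V R, k • w ∈ fx V R := fun k w hw =>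
      fx_smul (fun q hq => by
        obtain ⟨m, hm⟩ := hq
        refine ⟨m * k, ?_⟩
        have e : m * k * (k⁻¹ * q * k) * (m * k)⁻¹ = m * q * m⁻¹ := by group
        rwa [e]) hw
    have hWU : fx V R ≤ fx V ((⁅O, zpowers x⁆ : Subgroup X) : Set X) := fun w hw q hq =>
      hw q ⟨1, by simpa using hq⟩
    by_cases hUW : fx V ((⁅O, zpowers x⁆ : Subgroup X) : Set X) ≤ fx V R
    · exact hWU (hW g v (hUW hv))
    exfalso
    obtain ⟨σ, hσ, hi⟩ := hS.l2e.inv_of_ord3 hx'
    obtain ⟨s, rfl, ⟨k, hk⟩, hs⟩ := lift_inv O hO hx ⟨1, by rw [pow_one, ← hσ, pow_orderOf_eq_one]⟩ hi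
    have hsO : s ∉ O := fun c => by
      rw [(QuotientGroup.eq_one_iff s).2 c, orderOf_one] at hσ; omega
    have hsp : IsPGroup 2 (zpowers s) := by
      rintro ⟨_, n, rfl⟩
      exact ⟨k, Subtype.ext (by
        change (s ^ n) ^ 2 ^ k = 1
        rw [← zpow_natCast, ← zpow_mul, mul_comm, zpow_mul, zpow_natCast, hk, one_zpow])⟩
    have hD : IsPGroup 2 (O ⊔ zpowers s : Subgroup X) := hO.to_sup_of_normal_left hsp
    have hsQ : s ∈ normalizer ((⁅O, zpowers x⁆ : Subgroup X) : Set X) := by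
      apply mem_normalizer_fintype
      intro q hq
      have : ⁅O, zpowers x⁆ ≤ ⁅O, zpowers x⁆.comap (MulAut.conj s).toMonoidHom := by
        refine commutator_le.2 fun a ha b hb => ?_
        rw [mem_comap, map_commutatorElement]
        refine commutator_mem_commutator (hN.conj_mem a ha s) ?_
        obtain ⟨n, rfl⟩ := hb
        rw [map_zpow]
        refine zpow_mem ?_ n
        change s * x * s⁻¹ ∈ _
        rw [hs]
        exact inv_mem (mem_zpowers x)
      exact this hq
    have hDn : O ⊔ zpowers s ≤ normalizer ((⁅O, zpowers x⁆ : Subgroup X) : Set X) :=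
      sup_le (normalizer_commutator_ge_left _ _) (zpowers_le.2 hsQ)
    obtain ⟨z, hz, hzW, hzD⟩ := h.fix_sec _ hD (fx V R) _ (fun d _ => hW d)
      (fun d hd => nrm d (hDn hd)) hUW hWU
    obtain ⟨T, hT⟩ := hD.exists_le_sylow
    let Z : AddSubgroup V :=
      { carrier := {v | ∀ o ∈ O, o • v - v ∈ fx V R}
        zero_mem' := fun o _ => by rw [smul_zero, sub_zero]; exact zero_mem _
        add_mem' := fun {a b} ha hb o ho => by
          have := add_mem (ha o ho) (hb o ho)
          rw [smul_add]; convert this using 1; abel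
        neg_mem' := fun {a} ha o ho => by
          have := neg_mem (ha o ho)
          rw [smul_neg]; convert this using 1; abel }
    have hτ : ∀ τ ∈ (T : Subgroup X), τ • z ∈ fx V ((⁅O, zpowers x⁆ : Subgroup X) : Set X) := by
      intro τ hτ
      have := h.nat1 O hO hS.l2e (fx V R) Z (fun w hw o _ => sub_mem (hW o w hw) hw) hW
        (fun k w hw o ho => by
          have := hW k _ (hw _ (hN.conj_mem' o ho k))
          rwa [smul_sub, ← mul_smul, ← mul_assoc, ← mul_assoc, mul_inv_cancel, one_mul,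
            mul_smul] at this)
        (fun o ho w hw => hw o ho) T (hT (mem_sup_right (mem_zpowers s))) hsO
        (z := z) (fun o ho => hzD o (mem_sup_left ho)) (hzD s (mem_sup_right (mem_zpowers s))) hτ
      simpa using add_mem (hWU this) hz
    let F : Subgroup X :=
      { carrier := {o | o ∈ O ∧ ∀ τ ∈ (T : Subgroup X), o • τ • z = τ • z}
        one_mem' := ⟨one_mem _, fun τ _ => one_smul X _⟩
        mul_mem' := fun {a b} ha hb => ⟨mul_mem ha.1 hb.1, fun τ hτ => by
          rw [mul_smul, hb.2 τ hτ, ha.2 τ hτ]⟩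
        inv_mem' := fun {a} ha => ⟨inv_mem ha.1, fun τ hτ => by rw [inv_smul_eq_iff, ha.2 τ hτ]⟩ }
    have hQF : ⁅O, zpowers x⁆ ≤ F := fun q hq => ⟨hQO hq, fun τ h1 => hτ τ h1 q hq⟩
    have hTF : (T : Subgroup X) ≤ normalizer (F : Set X) := fun σ hσ => by
      apply mem_normalizer_fintype
      intro o ho
      refine ⟨hN.conj_mem o ho.1 σ, fun τ h1 => ?_⟩
      have := ho.2 _ (mul_mem (inv_mem hσ) h1)
      rw [mul_smul] at this
      rw [mul_smul, mul_smul, this, smul_inv_smul]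
    have hxF : x ∈ normalizer (F : Set X) := by
      apply mem_normalizer_fintype
      intro o ho
      have := F.mul_mem (F.inv_mem (hQF (commutator_mem_commutator ho.1 (mem_zpowers x)))) ho
      have e : ⁅o, x⁆⁻¹ * o = x * o * x⁻¹ := by rw [commutatorElement_def]; group
      rwa [e] at this
    have htop : normalizer (F : Set X) = ⊤ := by
      refine top_of O ((le_sup_left.trans hT).trans hTF) (eq_top_iff.2 ?_)
      have h1 := hS.l2e.gen (T.mapSurjective (f := QuotientGroup.mk' O) (QuotientGroup.mk'_surjective O))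
        (hS.not_norm _ hx')
      rw [← h1]
      exact sup_le (map_mono hTF) (zpowers_le.2 (mem_map_of_mem _ hxF))
    refine hzW fun r ⟨m, hm⟩ => ?_
    have h2 : r ∈ F := (mem_normalizer_iff.1 (htop.ge (mem_top m)) r).2 (hQF hm)
    simpa using h2.2 1 (one_mem _)

theorem ly0 (ih : ∀ n, IH.{u, v} n) (h : Md X V) (hO : pCore 2 X = ⊥) {J : Subgroup X}
    (hJ : J ≤ pCoreOf 2 J ⊔ X3 J) {x : X} (hxJ : x ∈ J) (hx : orderOf x = 3) {t : X}
    (ht : t ∈ ⁅pCoreOf 2 J, zpowers x⁆) (h1 : t ≠ 1) (hle : ⁅At V t, zpowers x⁆ ≤ pCoreOf 2 J) :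
    J ≤ normalizer (At V t : Set X) := by
  have hS := h.shapeA ih hO hJ hxJ hx ht h1 hle
  have hp : IsPGroup 2 (pCore 2 J) := Sylow.sSup_of_normal _ (fun _ h => h.2) (fun _ h => h.1)
  have hn : x ∈ normalizer (pCoreOf 2 J : Set X) := by
    apply mem_normalizer_fintype
    rintro _ ⟨o, ho, rfl⟩
    exact ⟨_, (pCore_normal 2 J).conj_mem o ho ⟨x, hxJ⟩, rfl⟩
  have hQ := (h.q2_le hO (hp.map J.subtype) hx hn ht h1).2
  have e : (⁅pCore 2 J, zpowers (⟨x, hxJ⟩ : J)⁆ : Subgroup J).map J.subtype =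
      ⁅pCoreOf 2 J, zpowers x⁆ := by
    rw [map_commutator, MonoidHom.map_zpowers]; rfl
  have key : ∀ g ∈ J, ∀ v : V, t • v = v → t • g • v = g • v := fun g hg v hv => by
    obtain ⟨t', ht', rfl⟩ := e.ge ht
    exact core (h.sub J) (pCore 2 J) hp hS (x := ⟨x, hxJ⟩) ((orderOf_mk x hxJ).trans hx) ⟨g, hg⟩
      (v := v) (fun q hq => hQ (e.le (mem_map_of_mem _ hq)) v hv) t' ht'
  intro g hg
  apply mem_normalizer_fintype
  intro a ha v hv
  rw [mul_smul, mul_smul, ha _ (key _ (inv_mem hg) v hv), smul_inv_smul]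

end CL.Gg.LYx
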