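import Cfsg.Agent.BLK.Gg.SLa

/-!
The last step of `ma1`.
-/

set_option autoImplicit false

namespace CL.Gg.MA1b

open Subgroup Cfsg

universe u

variable {X : Type u} [Group X] [Finite X]

/-- Elements whose commutators with `Y` centralize `K`. -/
def M {X : Type u} [Group X] (K Y : Subgroup X) (hn : K ≤ normalizer (Y : Set X)) : Subgroup K where
  carrier := {k | ∀ y ∈ Y, ∀ g : K, Commute (g : X) ((k : X) * y * (k : X)⁻¹ * y⁻¹)}
  one_mem' := fun y _ g => by simp
  mul_mem' := fun {a b} ha hb y hy g => by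
    have e : ((a * b : K) : X) * y * ((a * b : K) : X)⁻¹ * y⁻¹ =
        ((b : X) * y * (b : X)⁻¹ * y⁻¹) * ((a : X) * y * (a : X)⁻¹ * y⁻¹) := by
      have h1 := (hb y hy a).eq
      calc ((a * b : K) : X) * y * ((a * b : K) : X)⁻¹ * y⁻¹
          = ((a : X) * ((b : X) * y * (b : X)⁻¹ * y⁻¹)) * (y * (a : X)⁻¹ * y⁻¹) := by
            simp only [Subgroup.coe_mul]; group
        _ = _ := by rw [h1]; group
    rw [e]
    exact (hb y hy g).mul_right (ha y hy g)
  inv_mem' := fun {a} ha y hy g => by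
    have hy' : (a : X)⁻¹ * y * a ∈ Y := by
      have := (mem_normalizer_iff.1 (hn (inv_mem a.2)) y).1 hy
      simpa using this
    have e : ((a⁻¹ : K) : X) * y * ((a⁻¹ : K) : X)⁻¹ * y⁻¹ =
        ((a : X) * ((a : X)⁻¹ * y * a) * (a : X)⁻¹ * ((a : X)⁻¹ * y * a)⁻¹)⁻¹ := by
      simp only [Subgroup.coe_inv]; group
    rw [e]
    exact (ha _ hy' g).inv_right

theorem M_normal {X : Type u} [Group X] (K Y : Subgroup X) (hn : K ≤ normalizer (Y : Set X)) :
    (M K Y hn).Normal := by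
  refine ⟨fun a ha g y hy k => ?_⟩
  have hy' : (g : X)⁻¹ * y * g ∈ Y := by
    have := (mem_normalizer_iff.1 (hn (inv_mem g.2)) y).1 hy
    simpa using this
  have e : ((g * a * g⁻¹ : K) : X) * y * ((g * a * g⁻¹ : K) : X)⁻¹ * y⁻¹ =
      (a : X) * ((g : X)⁻¹ * y * g) * (a : X)⁻¹ * ((g : X)⁻¹ * y * g)⁻¹ := by
    have h1 := (ha _ hy' g).eq
    calc ((g * a * g⁻¹ : K) : X) * y * ((g * a * g⁻¹ : K) : X)⁻¹ * y⁻¹
        = ((g : X) * ((a : X) * ((g : X)⁻¹ * y * g) * (a : X)⁻¹ * ((g : X)⁻¹ * y * g)⁻¹)) * (g : X)⁻¹ := by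
          simp only [Subgroup.coe_mul, Subgroup.coe_inv]; group
      _ = _ := by rw [h1]; group
  rw [e]
  exact ha _ hy' k

theorem fin {K Y : Subgroup X} (O : Subgroup K) [O.Normal] (hO : IsPGroup 2 O) (hL : L2e (K ⧸ O))
    (hY : IsPGroup 2 Y) (hn : K ≤ normalizer (Y : Set X))
    (_hOY : ∀ o ∈ O, ∀ y ∈ Y, (o : X) * y = y * o) (T : Sylow 2 K)
    (h2 : ∀ y ∈ Y, ∀ σ ∈ (T : Subgroup K), ∀ τ ∈ (T : Subgroup K),
      (τ : X) * ((σ : X) * y * (σ : X)⁻¹ * y⁻¹) = ((σ : X) * y * (σ : X)⁻¹ * y⁻¹) * τ)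
    (hc : ∀ k : K, ∀ y ∈ Y, (∀ τ ∈ (T : Subgroup K), (τ : X) * y = y * τ) → (k : X) * y = y * k)
    {x : K} (hx : orderOf x = 3) : ∀ y ∈ Y, (x : X) * y = y * x := by
  have hcY : ∀ k : K, ∀ y ∈ Y, (k : X) * y * (k : X)⁻¹ * y⁻¹ ∈ Y := fun k y hy =>
    mul_mem ((mem_normalizer_iff.1 (hn k.2) y).1 hy) (inv_mem hy)
  have hT : (T : Subgroup K) ≤ M K Y hn := fun σ hσ y hy g =>
    hc g _ (hcY σ y hy) (h2 y hy σ hσ)
  have hOT : O ≤ (T : Subgroup K) := hO.le_sylow_of_normal T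
  have hM := M_normal K Y hn
  have hs := hL.simple.1
  have htop : M K Y hn = ⊤ := by
    have hN : ((M K Y hn).map (QuotientGroup.mk' O)).Normal :=
      hM.map _ (QuotientGroup.mk'_surjective O)
    rcases hs.eq_bot_or_eq_top_of_normal _ hN with hb | hb
    · exfalso
      have h4 := hL.syl_card (T.mapSurjective (QuotientGroup.mk'_surjective O))
      have hbot : ((T.mapSurjective (QuotientGroup.mk'_surjective O) : Sylow 2 (K ⧸ O)) :
          Subgroup (K ⧸ O)) = ⊥ := by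
        rw [eq_bot_iff, ← hb, Sylow.coe_mapSurjective]
        exact map_mono hT
      rw [hbot, card_bot] at h4
      omega
    · have := congrArg (comap (QuotientGroup.mk' O)) hb
      rw [comap_map_eq, QuotientGroup.ker_mk', comap_top, sup_eq_left.2 (hOT.trans hT)] at this
      exact this
  intro y hy
  have hxM : x ∈ M K Y hn := htop ▸ mem_top x
  have hcm := (hxM y hy x).eq
  set c : X := (x : X) * y * (x : X)⁻¹ * y⁻¹ with hcdef
  have hx3 : (x : X) ^ 3 = 1 := by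
    rw [← Subgroup.coe_pow, ← hx, pow_orderOf_eq_one, Subgroup.coe_one]
  have e1 : (x : X) * y = c * y * x := by rw [hcdef]; group
  have e3 : (x : X) ^ 3 * y = c ^ 3 * y * (x : X) ^ 3 := by
    have step : ∀ n : ℕ, (x : X) ^ n * y = c ^ n * y * (x : X) ^ n := by
      intro n
      induction n with
      | zero => simp
      | succ n ih =>
        have hcn : (x : X) * c ^ n = c ^ n * x := (Commute.pow_right hcm n).eq
        calc (x : X) ^ (n + 1) * y = x * ((x : X) ^ n * y) := by rw [pow_succ']; group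
          _ = (x * c ^ n) * y * (x : X) ^ n := by rw [ih]; group
          _ = c ^ n * ((x : X) * y) * (x : X) ^ n := by rw [hcn]; group
          _ = c ^ (n + 1) * y * (x : X) ^ (n + 1) := by rw [e1, pow_succ, pow_succ']; group
    exact step 3
  rw [hx3, one_mul, mul_one] at e3
  have hc3 : c ^ 3 = 1 := by
    have : c ^ 3 * y = 1 * y := by rw [one_mul]; exact e3.symm
    exact mul_right_cancel this
  obtain ⟨k, hk⟩ := hY ⟨c, hcY x y hy⟩
  have hk' : c ^ 2 ^ k = 1 := by simpa using congrArg Subtype.val hk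
  have hc1 : c = 1 := by
    have := pow_gcd_eq_one.2 ⟨hc3, hk'⟩
    rwa [Nat.Coprime.gcd_eq_one (Nat.Coprime.pow_right k (by norm_num)), pow_one] at this
  rw [e1, hc1, one_mul]

end CL.Gg.MA1b
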