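import Cfsg.Agent.BLK.Gg.X3
import Cfsg.Agent.BLK.Gg.SLb

/-!
Pure group theory: a quadratic module with centralizing torus, the fixed points of the Sylow subgroup.
-/

set_option autoImplicit false

namespace CL.Gg.MA1c

open Subgroup Cfsg CL.MSS CL.Gg

universe u v

variable {X : Type u} [Group X] [Finite X]

theorem hc {K Y : Subgroup X} (O : Subgroup K) [O.Normal] (hO : IsPGroup 2 O) (hL : L2e (K ⧸ O))
    (hn : K ≤ normalizer (Y : Set X))
    (hOY : ∀ o ∈ O, ∀ y ∈ Y, (o : X) * y = y * o) (T : Sylow 2 K)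
    (h1 : ∀ g ∈ normalizer ((T : Subgroup K) : Set K), ∀ y ∈ Y,
      (∀ τ ∈ (T : Subgroup K), (τ : X) * y = y * τ) → ((g : X) * g) * y = y * ((g : X) * g))
    (h2 : ∀ y ∈ Y, ∀ σ ∈ (T : Subgroup K), ∀ τ ∈ (T : Subgroup K),
      (τ : X) * ((σ : X) * y * (σ : X)⁻¹ * y⁻¹) = ((σ : X) * y * (σ : X)⁻¹ * y⁻¹) * τ) :
    ∀ k : K, ∀ y ∈ Y, (∀ τ ∈ (T : Subgroup K), (τ : X) * y = y * τ) → (k : X) * y = y * k := by
  intro k y hy hT
  let π := QuotientGroup.mk' O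
  have hπ : Function.Surjective π := QuotientGroup.mk'_surjective O
  have hk : ∀ a : K, π a = 1 ↔ a ∈ O := fun a => QuotientGroup.eq_one_iff a
  let S : Sylow 2 (K ⧸ O) := T.mapSurjective hπ
  have hOT : O ≤ T := hO.le_sylow_of_normal T
  have mS : ∀ a : K, π a ∈ (S : Subgroup (K ⧸ O)) ↔ a ∈ (T : Subgroup K) := fun a => by
    refine ⟨?_, fun h => ⟨a, h, rfl⟩⟩
    rintro ⟨b, hb, e⟩
    have : b⁻¹ * a ∈ O := (hk _).1 (by rw [map_mul, map_inv, ← e]; exact inv_mul_cancel _)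
    simpa using mul_mem hb (hOT this)
  obtain ⟨d0, w0, od, -, dn, wd, wn, dfp, -⟩ := hL.torus S
  obtain ⟨d, od', rfl⟩ := lift_odd O hO od
  obtain ⟨w, rfl⟩ := hπ w0
  change π d ∈ _ at dn
  change π w * π d * (π w)⁻¹ = (π d)⁻¹ at wd
  have dN : d ∈ normalizer ((T : Subgroup K) : Set K) := mem_normalizer_iff.2 fun a => by
    rw [← mS, ← mS, map_mul, map_mul, map_inv]; exact mem_normalizer_iff.1 dn _
  have dc : ∀ z ∈ Y, (∀ τ ∈ (T : Subgroup K), (τ : X) * z = z * τ) → (d : X) * z = z * d := fun z hz hz' => by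
    obtain ⟨m, hm⟩ := od' ▸ od
    have e : d ^ (m + 1) * d ^ (m + 1) = d := by
      rw [← pow_add, show m + 1 + (m + 1) = 2 * m + 1 + 1 by ring, ← hm, pow_succ, pow_orderOf_eq_one, one_mul]
    have := h1 _ (pow_mem dN (m + 1)) z hz hz'
    rwa [← coe_mul, e] at this
  let C : X → Subgroup K := fun z => (centralizer {z}).subgroupOf K
  have mC : ∀ (z : X) (a : K), a ∈ C z ↔ (a : X) * z = z * a := fun z a => mem_centralizer_singleton_iff
  have cj : ∀ (z : X) (a b : K), a ∈ C ((b : X) * z * (b : X)⁻¹) ↔ b⁻¹ * a * b ∈ C z := fun z a b => by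
    rw [mC, mC]
    push_cast
    constructor
    · intro h
      calc _ = (b : X)⁻¹ * (a * (b * z * (b : X)⁻¹)) * b := by group
        _ = _ := by rw [h]; group
    · intro h
      calc _ = (b : X) * ((b : X)⁻¹ * a * b * z) * (b : X)⁻¹ := by group
        _ = _ := by rw [h]; group
  have cY : ∀ (a : K), ∀ z ∈ Y, (a : X) * z * (a : X)⁻¹ ∈ Y := fun a z hz => (mem_normalizer_iff.1 (hn a.2) z).1 hz
  have hy' := cY w⁻¹ y hy
  set y' : X := ((w⁻¹ : K) : X) * y * ((w⁻¹ : K) : X)⁻¹ with ey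
  have d1 : d ∈ C y' := by
    rw [ey, cj, inv_inv]
    have : w * d * w⁻¹ * d ∈ O := (hk _).1 (by simp only [map_mul, map_inv, wd, inv_mul_cancel])
    simpa using mul_mem ((mC y _).2 (hOY _ this y hy)) (inv_mem ((mC y d).2 (dc y hy hT)))
  obtain ⟨τ0, hτ0, τ1⟩ : ∃ a ∈ (S : Subgroup (K ⧸ O)), a ≠ 1 := by
    by_contra! h
    have := hL.syl_card S
    rw [(eq_bot_iff_forall _).2 h, card_bot] at this
    omega
  obtain ⟨τ, rfl⟩ := hπ τ0
  have hτ := (mS τ).1 hτ0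
  have d2 : τ⁻¹ * d * τ ∈ C y' := by
    rw [← cj, mC]
    have a1 := dc _ (mul_mem (cY τ y' hy') (inv_mem hy')) (h2 y' hy' τ hτ)
    have a2 := (mC _ _).1 d1
    calc _ = (d : X) * (τ * y' * (τ : X)⁻¹ * y'⁻¹) * y' := by group
      _ = (τ * y' * (τ : X)⁻¹ * y'⁻¹) * (d * y') := by rw [a1]; group
      _ = _ := by rw [a2]; group
  have sT : τ⁻¹ * (d * τ * d⁻¹) ∈ (T : Subgroup K) := mul_mem (inv_mem hτ) ((mem_normalizer_iff.1 dN τ).1 hτ)
  have sC : τ⁻¹ * (d * τ * d⁻¹) ∈ C y' := by simpa [mul_assoc] using mul_mem d2 (inv_mem d1)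
  have s1 : π (τ⁻¹ * (d * τ * d⁻¹)) ≠ 1 := fun h => τ1 (dfp _ hτ0 (by
    rw [map_mul, map_inv, inv_mul_eq_one, map_mul, map_mul, map_inv] at h; exact h.symm))
  generalize τ⁻¹ * (d * τ * d⁻¹) = σ at sT sC s1
  rw [ey, cj, inv_inv] at sC
  have gn : π w * π σ * (π w)⁻¹ ∉ normalizer ((S : Subgroup (K ⧸ O)) : Set (K ⧸ O)) := fun h => by
    have := (S.isPGroup'.map (MulAut.conj (π w)).toMonoidHom).inf_normalizer_sylow S
    exact wn (hL.syl_TI S ((mS σ).2 sT) s1 (this.le ⟨⟨π σ, (mS σ).2 sT, rfl⟩, h⟩).2)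
  have top : (⊤ : Subgroup (K ⧸ O)) ≤ (C y).map π := by
    rw [← hL.gen S gn]
    refine sup_le ?_ ((zpowers_le).2 ⟨_, sC, by simp only [map_mul, map_inv]⟩)
    rintro _ ⟨a, ha, rfl⟩
    exact ⟨a, (mC y a).2 (hT a ha), rfl⟩
  obtain ⟨b, hb, e⟩ := top (mem_top (π k))
  have : b⁻¹ * k ∈ O := (hk _).1 (by rw [map_mul, map_inv, e]; exact inv_mul_cancel _)
  exact (mC y k).1 (by simpa using mul_mem hb ((mC y _).2 (hOY _ this y hy)))

end CL.Gg.MA1c
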