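import Cfsg.Agent.BLK.Gg.X3
import Cfsg.Agent.BLK.Gg.SLb
import Cfsg.Agent.BLK.Gg.MA1b
import Cfsg.Agent.BLK.Gg.MA1c

/-!
Pure group theory: a quadratic module with centralizing torus.
-/

set_option autoImplicit false

namespace CL.Gg

open Subgroup Cfsg CL.MSS

universe u v

variable {X : Type u} [Group X] [Finite X]

theorem ma1 {K Y : Subgroup X} (O : Subgroup K) [O.Normal] (hO : IsPGroup 2 O) (hL : L2e (K ⧸ O))
    (hY : IsPGroup 2 Y) (hn : K ≤ normalizer (Y : Set X))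
    (hOY : ∀ o ∈ O, ∀ y ∈ Y, (o : X) * y = y * o) (T : Sylow 2 K)
    (h1 : ∀ g ∈ normalizer ((T : Subgroup K) : Set K), ∀ y ∈ Y,
      (∀ τ ∈ (T : Subgroup K), (τ : X) * y = y * τ) → ((g : X) * g) * y = y * ((g : X) * g))
    (h2 : ∀ y ∈ Y, ∀ σ ∈ (T : Subgroup K), ∀ τ ∈ (T : Subgroup K),
      (τ : X) * ((σ : X) * y * (σ : X)⁻¹ * y⁻¹) = ((σ : X) * y * (σ : X)⁻¹ * y⁻¹) * τ)
    {x : K} (hx : orderOf x = 3) : ∀ y ∈ Y, (x : X) * y = y * x :=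
  MA1b.fin O hO hL hY hn hOY T h2 (MA1c.hc O hO hL hn hOY T h1 h2) hx

end CL.Gg
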