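import Cfsg.Agent.BLK.Gg.Fr
import Cfsg.Agent.BLK.Gg.Nat

/-! The commutators `[σ, y]` are centralized by a Sylow subgroup. -/

set_option autoImplicit false

namespace CL.Gg

open Subgroup Cfsg CL.MSS

universe u v

variable {X : Type u} {V : Type v} [Group X] [Finite X] [AddCommGroup V] [Finite V]
  [DistribMulAction X V]

namespace MA2b

/-- The vectors fixed by a set. -/
def fx (V : Type v) [AddCommGroup V] [DistribMulAction X V] (S : Set X) : AddSubgroup V where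
  carrier := {v | ∀ s ∈ S, s • v = v}
  zero_mem' s _ := smul_zero s
  add_mem' ha hb s hs := by rw [smul_add, ha s hs, hb s hs]
  neg_mem' ha s hs := by rw [smul_neg, ha s hs]

theorem inj (h : Md X V) (hO : pCore 2 X = ⊥) {t : X} (ht : orderOf t = 2) {n : V} (hn : t • n ≠ n) {a b : X}
    (ha : a ∈ At V t) (hb : b ∈ At V t) (e : a • n = b • n) : a = b := by
  by_contra hab
  have m := mul_mem (inv_mem hb) ha
  have h1 : b⁻¹ * a ≠ 1 := fun e1 => hab (inv_mul_eq_one.1 e1).symm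
  exact hn ((h.fix_eq hO (h.At_eq hO ht m h1).1 ht m n).1 (by rw [mul_smul, e, inv_smul_smul]))

theorem ma2b (h : Md X V) (hO : pCore 2 X = ⊥) {t : X} (ht : orderOf t = 2) {K : Subgroup X}
    (hK : K ≤ normalizer (At V t : Set X)) (O : Subgroup K) [O.Normal] (hO2 : IsPGroup 2 O)
    (hL : L2e (K ⧸ O)) (T : Sylow 2 K) {y : X} (hy : y ∈ At V t)
    (hyO : ∀ o ∈ O, (o : X) * y = y * o) {σ τ : K} (hσ : σ ∈ (T : Subgroup K))
    (hτ : τ ∈ (T : Subgroup K)) :
    (τ : X) * ((σ : X) * y * (σ : X)⁻¹ * y⁻¹) = ((σ : X) * y * (σ : X)⁻¹ * y⁻¹) * τ := by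
  have cj : ∀ (k : K) (a : X), a ∈ At V t → (k : X) * a * (k : X)⁻¹ ∈ At V t := fun k a ha =>
    ((mem_normalizer_iff.1 (hK k.2)) a).1 ha
  have mU : ∀ v : V, v ∈ fx V ({t} : Set X) ↔ t • v = v := fun v => ⟨fun hv => hv t rfl, fun hv s hs => hs ▸ hv⟩
  have iU : ∀ k : K, ∀ w ∈ fx V ({t} : Set X), k • w ∈ fx V ({t} : Set X) := fun k w hw => by
    have := cj k⁻¹ t (self_mem_At t) w ((mU w).1 hw)
    rw [coe_inv, inv_inv, mul_smul, mul_smul, inv_smul_eq_iff] at this
    exact (mU _).2 this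
  have t1 : t ≠ 1 := fun e => by rw [e, orderOf_one] at ht; exact absurd ht (by decide)
  obtain ⟨n, -, hn, hT⟩ := (h.sub K).fix_sec T T.isPGroup' (fx V ({t} : Set X)) ⊤ (fun d _ => iU d)
    (fun _ _ _ _ => AddSubgroup.mem_top _)
    (fun hle => t1 (h.faith hO fun v => (mU v).1 (hle (AddSubgroup.mem_top v)))) le_top
  rw [mU] at hn
  have ec : ∀ k ∈ (T : Subgroup K), ∀ a ∈ At V t,
      ((k : X) * a * (k : X)⁻¹) • n - n = (k : X) • (a • n - n) := fun k hk a ha => by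
    have e1 : a • ((k : X)⁻¹ • n - n) = (k : X)⁻¹ • n - n := ha _ ((mU _).1 (hT k⁻¹ (inv_mem hk)))
    rw [smul_sub, sub_eq_sub_iff_sub_eq_sub] at e1
    rw [mul_smul, mul_smul, ← e1, smul_sub, smul_inv_smul]
  have hOT : O ≤ T := hO2.le_sylow_of_normal T
  have hu : y • n - n ∈ fx V (O : Set K) := fun o ho => by
    have := ec o (hOT ho) y hy
    rw [hyO o ho, mul_inv_cancel_right] at this
    exact this.symm
  have iZ : ∀ k : K, ∀ w ∈ fx V (O : Set K), k • w ∈ fx V (O : Set K) := fun k w hw o ho => by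
    have := hw _ (Normal.conj_mem ‹_› o ho k⁻¹)
    rwa [inv_inv, mul_smul, mul_smul, inv_smul_eq_iff] at this
  have hc := mul_mem (cj σ y hy) (inv_mem hy)
  have ev : ((σ : X) * y * (σ : X)⁻¹ * y⁻¹) • n - n = σ • (y • n - n) - (y • n - n) := by
    have e1 := ec σ hσ y hy
    have e2 := h.At_quad hO ht hy hc n
    rw [smul_sub, smul_smul, inv_mul_cancel_right] at e2
    change _ = (σ : X) • (y • n - n) - (y • n - n)
    rw [← e1, ← e2]
    abel
  have hz : τ • (σ • (y • n - n) - (y • n - n)) = σ • (y • n - n) - (y • n - n) := by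
    by_cases hs : σ ∈ O
    · rw [hu σ hs, sub_self, smul_zero]
    have s2 : σ * σ ∈ O := by
      rw [← QuotientGroup.eq_one_iff, QuotientGroup.mk_mul, ← pow_two]
      obtain ⟨k, hk⟩ := T.isPGroup' ⟨σ, hσ⟩
      refine hL.sq ⟨k, ?_⟩
      rw [← QuotientGroup.mk_pow, show σ ^ 2 ^ k = 1 from congrArg Subtype.val hk, QuotientGroup.mk_one]
    refine sub_eq_zero.1 (AddSubgroup.mem_bot.1 ((h.sub K).nat1 O hO2 hL ⊥ (fx V (O : Set K)) bot_le
      (fun g w hw => by rw [AddSubgroup.mem_bot.1 hw, smul_zero]; exact zero_mem _) iZ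
      (fun o ho z hz => by rw [hz o ho, sub_self]; exact zero_mem _) T hσ hs
      (sub_mem (iZ σ _ hu) hu) ?_ hτ))
    rw [AddSubgroup.mem_bot, smul_sub σ (σ • _), smul_smul, hu _ s2]
    have a1 := h.two (y • n - n)
    have a2 := h.two (σ • (y • n - n))
    rw [← sub_eq_zero.2 (a1.trans a2.symm)]
    abel
  rw [← mul_inv_eq_iff_eq_mul]
  refine inj h hO ht hn (cj τ _ hc) hc (sub_left_injective (b := n) ?_)
  change _ - n = _ - n
  rw [ec τ hτ _ hc, ev]
  exact hz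

end MA2b

end CL.Gg
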