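import Cfsg.Agent.BLK.Gg.Fr
import Cfsg.Agent.BLK.Gg.Nat

/-!
The square of an element normalizing `T` centralizes `C_A(T)`.
-/

set_option autoImplicit false

namespace CL.Gg.MA2x

open Subgroup Cfsg CL.MSS

universe u v

variable {X : Type u} {V : Type v} [Group X] [Finite X] [AddCommGroup V] [Finite V]
  [DistribMulAction X V]

/-- Fixed vectors of `t`. -/
def UU (V : Type v) {X : Type u} [Group X] [AddCommGroup V] [DistribMulAction X V] (t : X) :
    AddSubgroup V where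
  carrier := {v | t • v = v}
  zero_mem' := smul_zero t
  add_mem' := fun {a b} ha hb => by
    show t • (a + b) = a + b
    rw [smul_add, show t • a = a from ha, show t • b = b from hb]
  neg_mem' := fun {a} ha => by
    show t • (-a) = -a
    rw [smul_neg, show t • a = a from ha]

/-- Vectors fixed by `O` modulo `W`, inside `Y`. -/
def ZZ {K : Type u} [Group K] [DistribMulAction K V] (O : Subgroup K) (W Y : AddSubgroup V) :
    AddSubgroup V where
  carrier := {v | v ∈ Y ∧ ∀ o ∈ O, o • v - v ∈ W}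
  zero_mem' := ⟨Y.zero_mem, fun o _ => by rw [smul_zero, sub_zero]; exact W.zero_mem⟩
  add_mem' := fun {a b} ha hb => ⟨Y.add_mem ha.1 hb.1, fun o ho => by
    have := W.add_mem (ha.2 o ho) (hb.2 o ho)
    rw [smul_add]
    convert this using 1
    abel⟩
  neg_mem' := fun {a} ha => ⟨Y.neg_mem ha.1, fun o ho => by
    have := W.neg_mem (ha.2 o ho)
    rw [smul_neg]
    convert this using 1
    abel⟩

omit [Finite V] in
theorem ZZ_inv {K : Type u} [Group K] [DistribMulAction K V] (O : Subgroup K) [hO : O.Normal]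
    {W Y : AddSubgroup V} (hW : ∀ g : K, ∀ w ∈ W, g • w ∈ W) (hY : ∀ g : K, ∀ w ∈ Y, g • w ∈ Y)
    (g : K) (z : V) (hz : z ∈ ZZ O W Y) : g • z ∈ ZZ O W Y := by
  refine ⟨hY g z hz.1, fun o ho => ?_⟩
  have h1 := hW g _ (hz.2 (g⁻¹ * o * g⁻¹⁻¹) (hO.conj_mem o ho g⁻¹))
  rw [smul_sub, ← mul_smul] at h1
  rw [← mul_smul]
  convert h1 using 3
  group

/-- The kernel of the action on `Z / W`. -/
def NN {K : Type u} [Group K] [DistribMulAction K V] (W Z : AddSubgroup V)
    (hW : ∀ g : K, ∀ w ∈ W, g • w ∈ W) : Subgroup K where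
  carrier := {k | ∀ z ∈ Z, k • z - z ∈ W}
  one_mem' := fun z _ => by rw [one_smul, sub_self]; exact W.zero_mem
  mul_mem' := fun {a b} ha hb z hz => by
    have := W.add_mem (hW a _ (hb z hz)) (ha z hz)
    rw [smul_sub] at this
    rw [mul_smul]
    convert this using 1
    abel
  inv_mem' := fun {a} ha z hz => by
    have := W.neg_mem (hW a⁻¹ _ (ha z hz))
    rw [smul_sub, inv_smul_smul] at this
    convert this using 1
    abel

theorem moves {K : Type u} [Group K] [Finite K] [DistribMulAction K V] (h : Md K V)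
    (O : Subgroup K) [O.Normal] (hO : IsPGroup 2 O) (hL : L2e (K ⧸ O)) (T : Sylow 2 K)
    {W Z : AddSubgroup V} (hW : ∀ g : K, ∀ w ∈ W, g • w ∈ W) (hZ : ∀ g : K, ∀ w ∈ Z, g • w ∈ Z)
    (hne : ¬ Z ≤ W) : ∃ τ ∈ (T : Subgroup K), ∃ z ∈ Z, τ • z - z ∉ W := by
  by_contra hcon
  push Not at hcon
  have hTN : (T : Subgroup K) ≤ NN W Z hW := fun τ hτ => hcon τ hτ
  have hN : (NN W Z hW : Subgroup K).Normal := ⟨fun n hn g z hz => by
    have h1 := hW g _ (hn (g⁻¹ • z) (hZ _ _ hz))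
    rw [smul_sub, smul_inv_smul] at h1
    rwa [mul_smul, mul_smul]⟩
  have hOT : O ≤ (T : Subgroup K) := hO.le_sylow_of_normal T
  have h2 : 2 ∣ Nat.card (K ⧸ O) := by
    obtain ⟨P⟩ : Nonempty (Sylow 2 (K ⧸ O)) := inferInstance
    have h4 := hL.syl_card P
    obtain ⟨n, hn⟩ := (IsPGroup.iff_card).1 P.isPGroup'
    refine dvd_trans ?_ (card_subgroup_dvd_card (P : Subgroup (K ⧸ O)))
    rw [hn] at h4 ⊢
    refine dvd_pow_self 2 ?_
    rintro rfl
    omega
  have hs := hL.simple.1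
  rcases (hN.map (QuotientGroup.mk' O) (QuotientGroup.mk'_surjective O)).eq_bot_or_eq_top with h0 | h0
  · have h1 : (T : Subgroup K) ≤ O := by
      have := (Subgroup.map_eq_bot_iff _).1 h0
      rw [QuotientGroup.ker_mk'] at this
      exact hTN.trans this
    exact T.not_dvd_index (h2.trans (index_dvd_of_le h1))
  · obtain ⟨s, hs2⟩ := exists_prime_orderOf_dvd_card' 2 h2
    obtain ⟨x', hx', -⟩ := hL.inv_of_inv hs2
    obtain ⟨x, hx, -⟩ := lift3 O hO hx'
    have hxN : x ∈ NN W Z hW := by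
      have h1 : x ∈ ((NN W Z hW).map (QuotientGroup.mk' O)).comap (QuotientGroup.mk' O) := by
        rw [h0]; trivial
      rwa [comap_map_eq_self (by rw [QuotientGroup.ker_mk']; exact hOT.trans hTN)] at h1
    refine hne fun z hz => h.sec (g := x) (by rw [hx]; decide) ?_ W (hW x) (hxN z hz)
    rintro rfl
    rw [orderOf_one] at hx
    omega

theorem ma2a (h : Md X V) (hO : pCore 2 X = ⊥) {t : X} (ht : orderOf t = 2) {K : Subgroup X}
    (hK : K ≤ normalizer (At V t : Set X)) (O : Subgroup K) [O.Normal] (hO2 : IsPGroup 2 O)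
    (hL : L2e (K ⧸ O)) (T : Sylow 2 K) {y : X} (hy : y ∈ At V t)
    {g : K} (hg : g ∈ normalizer ((T : Subgroup K) : Set K))
    (hc : ∀ τ ∈ (T : Subgroup K), (τ : X) * y = y * τ) : ((g : X) * g) * y = y * ((g : X) * g) := by
  have hconj : ∀ k ∈ K, ∀ a ∈ At V t, k⁻¹ * a * k ∈ At V t := fun k hk a ha => by
    have := (mem_normalizer_iff.1 (hK (K.inv_mem hk)) a).1 ha
    rwa [inv_inv] at this
  have hU : ∀ k : K, ∀ w ∈ UU V t, k • w ∈ UU V t := fun k w hw => by
    have h1 : ((k : X)⁻¹ * t * k) • w = w := hconj k k.2 t (self_mem_At t) w hw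
    show t • (k : X) • w = (k : X) • w
    rw [mul_smul, mul_smul, inv_smul_eq_iff] at h1
    exact h1
  have hT : ∀ k : K, ∀ w ∈ (⊤ : AddSubgroup V), k • w ∈ (⊤ : AddSubgroup V) := fun _ _ _ => trivial
  have hB : ∀ k : K, ∀ w ∈ (⊥ : AddSubgroup V), k • w ∈ (⊥ : AddSubgroup V) := fun k w hw => by
    rw [AddSubgroup.mem_bot] at hw ⊢
    rw [hw, smul_zero]
  have hK' := h.sub K
  have hZ := ZZ_inv O hU hT
  have hU1 := ZZ_inv O hB hU
  have hUZ : UU V t ≤ ZZ O (UU V t) ⊤ := fun w hw =>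
    ⟨trivial, fun o _ => (UU V t).sub_mem (hU o w hw) hw⟩
  have hOT : O ≤ (T : Subgroup K) := hO2.le_sylow_of_normal T
  have hne : ¬ ZZ O (UU V t) ⊤ ≤ UU V t := by
    have h1 : ¬ (⊤ : AddSubgroup V) ≤ UU V t := fun hle => by
      have := h.faith hO (g := t) fun v => hle (AddSubgroup.mem_top v)
      rw [this, orderOf_one] at ht
      omega
    obtain ⟨z, -, hz, hz'⟩ := hK'.fix_sec O hO2 (UU V t) ⊤ (fun d _ => hU d) (fun d _ => hT d) h1 le_top
    exact fun hle => hz (hle ⟨trivial, hz'⟩)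
  obtain ⟨τ, hτ, z, hz, hn⟩ := moves hK' O hO2 hL T hU hZ hne
  have hyU : ∀ w ∈ UU V t, y • w = w := fun w hw => hy w hw
  have hcomm : ∀ σ ∈ (T : Subgroup K), ∀ w : V, σ • y • w = y • σ • w := fun σ hσ w => by
    show (σ : X) • y • w = y • (σ : X) • w
    rw [← mul_smul, ← mul_smul, hc σ hσ]
  have hu : y • z - z ∈ ZZ O ⊥ (UU V t) := by
    refine ⟨h.At_quad hO ht hy (self_mem_At t) z, fun o ho => ?_⟩
    have h1 := hyU _ (hz.2 o ho)
    rw [AddSubgroup.mem_bot, smul_sub, hcomm o (hOT ho)]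
    rw [smul_sub] at h1
    rw [← sub_eq_zero] at h1
    rw [← h1]
    abel
  have e1 := hyU _ (hK'.nat2 O hO2 hL (UU V t) _ hUZ hU hZ (fun o ho z hz => hz.2 o ho) T hg hτ hz)
  have e2 := hK'.nat2 O hO2 hL ⊥ _ bot_le hB hU1 (fun o ho z hz => hz.2 o ho) T hg hτ hu
  have hτ' : g * τ * g⁻¹ ∈ (T : Subgroup K) := (mem_normalizer_iff.1 hg τ).1 hτ
  rw [AddSubgroup.mem_bot] at e2
  have e3 : y • (g * g) • (τ • z - z) = (g * g) • y • (τ • z - z) := by
    simp only [smul_sub, hcomm _ hτ, hcomm _ hτ'] at e1 e2 ⊢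
    rw [← sub_eq_zero] at e1 ⊢
    have e5 := congrArg₂ (· - ·) e1 e2
    simp only [sub_zero] at e5
    rw [← e5]
    abel
  have ha : ((g : X) * g)⁻¹ * y⁻¹ * ((g : X) * g) * y ∈ At V t :=
    (At V t).mul_mem (hconj _ (K.mul_mem g.2 g.2) _ ((At V t).inv_mem hy)) hy
  have hfix : (((g : X) * g)⁻¹ * y⁻¹ * ((g : X) * g) * y) • (τ • z - z) = τ • z - z := by
    have e4 : y • ((g : X) * g) • (τ • z - z) = ((g : X) * g) • y • (τ • z - z) := e3
    rw [mul_smul, mul_smul, mul_smul, ← e4, inv_smul_smul, inv_smul_smul]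
  by_contra hne1
  have h1 : ((g : X) * g)⁻¹ * y⁻¹ * ((g : X) * g) * y ≠ 1 := fun h0 => hne1 (by
    calc ((g : X) * g) * y = y * ((g : X) * g) * (((g : X) * g)⁻¹ * y⁻¹ * ((g : X) * g) * y) := by group
      _ = _ := by rw [h0, mul_one])
  exact hn ((h.fix_eq hO (h.At_eq hO ht ha h1).1 ht ha _).1 hfix)

end CL.Gg.MA2x
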