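import Cfsg.Agent.BLK.Gg.Defs
import Cfsg.Agent.CLAS.SL2Sylow
import Cfsg.Agent.CLAS.SLBasic
import Cfsg.Agent.PERM.SpecSL2

/-!
Facts on `SL₂(2^k)` (`k ≥ 3` odd), I. Transport along the isomorphism; search `SL2 char two` in the library first.
-/

set_option autoImplicit false

namespace CL.Gg

open Subgroup Cfsg CL.MSS

universe u v

variable {L : Type u} [Group L] [Finite L]

namespace SLa
open scoped MatrixGroups

variable {F : Type} [Field F]

theorem ext' {g h : SL(2, F)} (h0 : g 0 0 = h 0 0) (h1 : g 0 1 = h 0 1) (h2 : g 1 0 = h 1 0) (h3 : g 1 1 = h 1 1) :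
    g = h := by
  ext i j
  fin_cases i <;> fin_cases j <;> assumption

theorem mul' (g h : SL(2, F)) (i j : Fin 2) : (g * h) i j = g i 0 * h 0 j + g i 1 * h 1 j := by
  simp [Matrix.mul_apply, Fin.sum_univ_two]

theorem det' (g : SL(2, F)) : g 0 0 * g 1 1 - g 0 1 * g 1 0 = 1 := by
  rw [← Matrix.det_fin_two]; exact g.det_coe

/-- upper unitriangular -/
def up (c : F) : SL(2, F) := ⟨!![1, c; 0, 1], by simp [Matrix.det_fin_two_of]⟩
/-- lower unitriangular -/
def lo (c : F) : SL(2, F) := ⟨!![1, 0; c, 1], by simp [Matrix.det_fin_two_of]⟩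
/-- the Weyl element -/
def we : SL(2, F) := ⟨!![0, -1; 1, 0], by simp [Matrix.det_fin_two_of]⟩

variable [CharP F 2]

theorem two : (2 : F) = 0 := CharP.cast_eq_zero F 2

theorem sq0 {g : SL(2, F)} (h : g 0 0 + g 1 1 = 0) : g * g = 1 := by
  refine ext' ?_ ?_ ?_ ?_ <;> rw [mul'] <;> simp only [Matrix.SpecialLinearGroup.coe_one, Matrix.one_apply_eq,
    Matrix.one_apply_ne, ne_eq, zero_ne_one, one_ne_zero, not_false_eq_true]
  · linear_combination g 0 0 * h - det' g - two (F := F)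
  · linear_combination g 0 1 * h
  · linear_combination g 1 0 * h
  · linear_combination g 1 1 * h - det' g - two (F := F)

theorem tr0 {g : SL(2, F)} (h : g * g = 1) : g 0 0 + g 1 1 = 0 := by
  have h0 : (g * g) 0 0 = 1 := by rw [h]; simp
  have h1 : (g * g) 1 1 = 1 := by rw [h]; simp
  rw [mul'] at h0 h1
  refine pow_eq_zero_iff (n := 2) (by simp) |>.1 ?_
  linear_combination h0 + h1 + 2 * det' g + 2 * two (F := F)

theorem ord3 {g : SL(2, F)} (h : g 0 0 + g 1 1 = 1) : orderOf g = 3 := by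
  have : Fact (Nat.Prime 3) := ⟨Nat.prime_three⟩
  refine orderOf_eq_prime ?_ ?_
  · rw [pow_three']
    refine ext' ?_ ?_ ?_ ?_ <;> simp only [mul', Matrix.SpecialLinearGroup.coe_one, Matrix.one_apply_eq,
      Matrix.one_apply_ne, ne_eq, zero_ne_one, one_ne_zero, not_false_eq_true]
    · linear_combination (g 0 0 ^ 2 + g 0 1 * g 1 0 + g 0 0) * h - (g 0 0 + 1) * det' g - two (F := F)
    · linear_combination (g 0 1 * (g 0 0 + g 1 1 + 1)) * h - g 0 1 * det' g
    · linear_combination (g 1 0 * (g 0 0 + g 1 1 + 1)) * h - g 1 0 * det' g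
    · linear_combination (g 1 1 ^ 2 + g 0 1 * g 1 0 + g 1 1) * h - (g 1 1 + 1) * det' g - two (F := F)
  · rintro rfl
    simp only [Matrix.SpecialLinearGroup.coe_one, Matrix.one_apply_eq] at h
    exact one_ne_zero (α := F) (by linear_combination h)

theorem dih {s : SL(2, F)} (h : s * s = 1) (h1 : s ≠ 1) : ∃ t : SL(2, F), t * t = 1 ∧ orderOf (s * t) = 3 := by
  have ht := tr0 h
  by_cases hc : s 1 0 = 0
  · have hd := det' s
    have ha : s 0 0 = 1 := by
      refine sub_eq_zero.1 (pow_eq_zero_iff (n := 2) (by simp) |>.1 ?_)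
      linear_combination s 0 0 * ht - hd - s 0 1 * hc - s 0 0 * two (F := F)
    have hb : s 0 1 ≠ 0 := fun hb => h1 (ext' (by simp [ha]) (by simp [hb]) (by simp [hc])
      (by simp only [Matrix.SpecialLinearGroup.coe_one, Matrix.one_apply_eq]; linear_combination ht - ha - two (F := F)))
    refine ⟨lo (s 0 1)⁻¹, sq0 (by simp [lo, one_add_one_eq_two, two]), ord3 ?_⟩
    simp only [mul']
    simp [lo, hb]
    linear_combination ht
  · refine ⟨up (s 1 0)⁻¹, sq0 (by simp [up, one_add_one_eq_two, two]), ord3 ?_⟩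
    simp only [mul']
    simp [up, hc]
    linear_combination ht

theorem real {x : SL(2, F)} (h : x * x ≠ 1) : ∃ s : SL(2, F), s ≠ 1 ∧ s * s = 1 ∧ s * x * (s * x) = 1 := by
  have key : ∀ s : SL(2, F), s 0 0 + s 1 1 = 0 → (s * x) 0 0 + (s * x) 1 1 = 0 →
      ∃ s : SL(2, F), s ≠ 1 ∧ s * s = 1 ∧ s * x * (s * x) = 1 := fun s h1 h2 =>
    ⟨s, by rintro rfl; exact h (by simpa using sq0 h2), sq0 h1, sq0 h2⟩
  by_cases hc : x 1 0 = 0
  · by_cases hb : x 0 1 = 0
    · exact key we (by simp [we]) (by simp only [mul']; simp [we, hb, hc])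
    · refine key (lo (-(x 0 0 + x 1 1) / x 0 1)) (by simp [lo, one_add_one_eq_two, two]) ?_
      simp only [mul']
      simp [lo]
      field_simp
      ring
  · refine key (up (-(x 0 0 + x 1 1) / x 1 0)) (by simp [up, one_add_one_eq_two, two]) ?_
    simp only [mul']
    simp [up]
    field_simp
    ring

theorem ex (h : L2e L) : ∃ (F : Type) (_ : Field F) (_ : Fintype F) (_ : CharP F 2), 4 ∣ Fintype.card F ∧
    Nonempty (L ≃* SL(2, F)) := by
  obtain ⟨F, _, _, k, hk, hF, e⟩ := h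
  exact ⟨F, inferInstance, inferInstance, charP_of_card_eq_prime_pow hF, hF ▸ pow_dvd_pow 2 hk, e⟩

theorem ord (h : L2e L) (g : L) : orderOf g ∣ 2 ∨ Odd (orderOf g) := by
  obtain ⟨F, _, _, _, h4, ⟨e⟩⟩ := ex h
  have h1 : orderOf (e g) ∈ Set.range (orderOf : SL(2, F) → ℕ) := ⟨_, rfl⟩
  have h0 := Fintype.card_pos (α := F)
  rw [CL.Spec.spec_SL2_char_two, MulEquiv.orderOf_eq] at h1
  rcases h1 with h1 | h1 | h1
  · exact .inl h1
  · exact .inr (Odd.of_dvd_nat (Nat.odd_iff.2 (by omega)) h1)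
  · exact .inr (Odd.of_dvd_nat (Nat.odd_iff.2 (by omega)) h1)

end SLa

theorem L2e.simple (h : L2e L) : IsSimpleGroup L ∧ ¬ IsMulCommutative L := by
  obtain ⟨F, _, _, _, h4, ⟨e⟩⟩ := SLa.ex h
  obtain ⟨a, ha, ha'⟩ := CL.SL.exists_sq_ne_one_of_four_le_card (F := F)
    (by rw [Nat.card_eq_fintype_card]; exact Nat.le_of_dvd Fintype.card_pos h4)
  have := CL.SL.psl_isSimpleGroup_of_perfect (CL.SL.commutator_eq_top_of_sq_ne_one (ι := Fin 2) ha ha')
  refine ⟨(e.trans CL.Spec.psl2EquivCharTwo.symm).isSimpleGroup, fun hc => ?_⟩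
  have h1 := congrArg e (hc.is_comm.comm (e.symm (SLa.up 1)) (e.symm (SLa.lo 1)))
  simp only [map_mul, MulEquiv.apply_symm_apply] at h1
  have h2 := congrArg (fun g : Matrix.SpecialLinearGroup (Fin 2) F => g 0 0) h1
  simp only [SLa.mul'] at h2
  simp [SLa.up, SLa.lo] at h2

/-- A 2-element of `SL₂(2^k)` is unipotent. -/
theorem L2e.sq (h : L2e L) {s : L} (hs : ∃ k : ℕ, s ^ 2 ^ k = 1) : s ^ 2 = 1 := by
  obtain ⟨k, hk⟩ := hs
  rcases SLa.ord h s with h1 | h1
  · exact orderOf_dvd_iff_pow_eq_one.1 h1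
  · have h2 : orderOf s = 1 := Nat.Coprime.eq_one_of_dvd ((Nat.coprime_two_right.2 h1).pow_right k)
      (orderOf_dvd_of_pow_eq_one hk)
    rw [orderOf_eq_one_iff.1 h2, one_pow]

/-- No element of order 6: the centralizer of a transvection is a 2-group. -/
theorem L2e.cent3 (h : L2e L) {x u : L} (hx : orderOf x = 3) (hu : ∃ k : ℕ, u ^ 2 ^ k = 1)
    (hc : u * x = x * u) : u = 1 := by
  by_contra h1
  have h2 : orderOf u = 2 := orderOf_eq_prime (h.sq hu) h1
  have h3 := Commute.orderOf_mul_eq_mul_orderOf_of_coprime (x := u) (y := x) hc (by rw [h2, hx]; decide)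
  have h4 := SLa.ord h (u * x)
  rw [h3, h2, hx] at h4
  revert h4; decide

/-- All involutions are conjugate and `SL₂(2) ≤ SL₂(2^k)`. -/
theorem L2e.inv_of_inv (h : L2e L) {s : L} (hs : orderOf s = 2) :
    ∃ x : L, orderOf x = 3 ∧ s * x * s⁻¹ = x⁻¹ := by
  obtain ⟨F, _, _, _, -, ⟨e⟩⟩ := SLa.ex h
  have h1 : s * s = 1 := by rw [← pow_two, ← hs, pow_orderOf_eq_one]
  obtain ⟨t, ht, h3⟩ := SLa.dih (s := e s) (by rw [← map_mul, h1, map_one]) (fun c => by
    rw [e.map_eq_one_iff.1 c, orderOf_one] at hs; omega)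
  obtain ⟨t, rfl⟩ := e.surjective t
  rw [← map_mul, e.map_eq_one_iff] at ht
  rw [← map_mul, MulEquiv.orderOf_eq] at h3
  refine ⟨s * t, h3, ?_⟩
  rw [← mul_assoc, h1, one_mul, mul_inv_rev, inv_eq_of_mul_eq_one_right ht]

/-- Elements of order 3 have trace 1, so are conjugate to the companion matrix of `X²+X+1` (in `GL₂ = Z·SL₂`). -/
theorem L2e.inv_of_ord3 (h : L2e L) {x : L} (hx : orderOf x = 3) :
    ∃ s : L, orderOf s = 2 ∧ s * x * s⁻¹ = x⁻¹ := by
  obtain ⟨F, _, _, _, -, ⟨e⟩⟩ := SLa.ex h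
  obtain ⟨s, h1, h2, h3⟩ := SLa.real (x := e x) fun c => by
    rw [← map_mul, e.map_eq_one_iff, ← pow_two, ← orderOf_dvd_iff_pow_eq_one, hx] at c
    omega
  obtain ⟨s, rfl⟩ := e.surjective s
  rw [← map_mul, e.map_eq_one_iff] at h2
  rw [← map_mul, ← map_mul, e.map_eq_one_iff] at h3
  refine ⟨s, orderOf_eq_prime (by rw [pow_two, h2]) fun c => h1 (by rw [c, map_one]), ?_⟩
  rw [inv_eq_of_mul_eq_one_right h2, eq_inv_iff_mul_eq_one, mul_assoc, h3]

theorem L2e.syl_comm (h : L2e L) (T : Sylow 2 L) {a b : L} (ha : a ∈ (T : Subgroup L))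
    (hb : b ∈ (T : Subgroup L)) : a * b = b * a := by
  have key : ∀ c ∈ (T : Subgroup L), c⁻¹ = c := fun c hc => by
    obtain ⟨k, hk⟩ := T.isPGroup' ⟨c, hc⟩
    exact inv_eq_of_mul_eq_one_right (by rw [← pow_two]; exact h.sq ⟨k, congrArg Subtype.val hk⟩)
  rw [← key _ (mul_mem ha hb), mul_inv_rev, key a ha, key b hb]

theorem L2e.syl_TI (h : L2e L) (T : Sylow 2 L) {a g : L} (ha : a ∈ (T : Subgroup L)) (h1 : a ≠ 1)
    (hg : g * a * g⁻¹ ∈ (T : Subgroup L)) : g ∈ normalizer ((T : Subgroup L) : Set L) := by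
  obtain ⟨F, _, _, _, -, ⟨e⟩⟩ := SLa.ex h
  obtain ⟨v, hv, hT⟩ := CL.SL2.sylow_eq_stabilizer 2 (T.mapSurjective (f := e.toMonoidHom) e.surjective)
  have hm : ∀ x : L, x ∈ (T : Subgroup L) ↔ e x • v = v := fun x => by
    rw [← MulAction.mem_stabilizer_iff, ← hT]
    exact (mem_map_iff_mem (f := e.toMonoidHom) e.injective).symm
  have hc : ∀ x : L, g * x * g⁻¹ ∈ (T : Subgroup L) ↔ e x • (e g)⁻¹ • v = (e g)⁻¹ • v := fun x => by
    rw [hm, map_mul, map_mul, map_inv, mul_smul, mul_smul, smul_eq_iff_eq_inv_smul]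
  have h0 : v 0 * ((e g)⁻¹ • v) 1 - v 1 * ((e g)⁻¹ • v) 0 = 0 := by
    by_contra h0
    exact h1 (e.map_eq_one_iff.1 (Subtype.ext (CL.SL2.eq_one_of_fix_two h0 ((hm a).1 ha) ((hc a).1 hg))))
  obtain ⟨c, hc'⟩ := CL.SL2.exists_smul_of_det_eq_zero hv h0
  have c0 : c ≠ 0 := by
    rintro rfl
    rw [zero_smul, eq_inv_smul_iff, smul_zero] at hc'
    exact hv hc'.symm
  refine mem_normalizer_iff.2 fun x => ?_
  rw [hc, hm, ← hc', ← MulAction.mem_stabilizer_iff, ← MulAction.mem_stabilizer_iff, CL.SL2.stabilizer_smul_eq c0]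

theorem L2e.syl_card (h : L2e L) (T : Sylow 2 L) : 4 ≤ Nat.card (T : Subgroup L) := by
  obtain ⟨F, _, _, _, h4, ⟨e⟩⟩ := SLa.ex h
  refine Nat.le_of_dvd Nat.card_pos (T.pow_dvd_card_of_pow_dvd_card (n := 2) ?_)
  rw [Nat.card_congr e.toEquiv, CL.SL.card_SL_two, Nat.card_eq_fintype_card]
  exact h4.mul_right _

end CL.Gg
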