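import Cfsg.Agent.BLK.Gg.Defs
import Cfsg.Agent.SOLV.Coprime
import Cfsg.Agent.SOLV.Core

/-!
Elements of order 3, `X3`, `NoA` under subgroups and quotients by normal 2-subgroups.
-/

set_option autoImplicit false

namespace CL.Gg

open Subgroup Cfsg CL.MSS

universe u v

variable {X : Type u} [Group X] [Finite X]

omit [Finite X] in
theorem X3x.ord_mk (D : Subgroup X) [D.Normal] (hD : IsPGroup 2 D) {x : X} (hx : Odd (orderOf x)) :
    orderOf (x : X ⧸ D) = orderOf x := by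
  refine Nat.dvd_antisymm (orderOf_map_dvd (QuotientGroup.mk' D) x) ?_
  obtain ⟨k, hk⟩ := hD ⟨x ^ orderOf (x : X ⧸ D), (QuotientGroup.eq_one_iff _).1 (by
    rw [QuotientGroup.mk_pow, pow_orderOf_eq_one])⟩
  have : x ^ (orderOf (x : X ⧸ D) * 2 ^ k) = 1 := by rw [pow_mul]; exact congrArg Subtype.val hk
  exact ((Nat.coprime_two_right.2 hx).pow_right k).dvd_of_dvd_mul_right (orderOf_dvd_of_pow_eq_one this)

theorem X3x.lift (D : Subgroup X) [D.Normal] (hD : IsPGroup 2 D) {y : X ⧸ D} (hy : Odd (orderOf y)) :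
    ∃ x : X, orderOf x = orderOf y ∧ (x : X ⧸ D) = y := by
  obtain ⟨g, rfl⟩ := QuotientGroup.mk_surjective y
  obtain ⟨a, m, hm, h⟩ := Nat.exists_eq_two_pow_mul_odd (orderOf_pos g).ne'
  obtain ⟨n, hn⟩ := exists_pow_eq_self_of_coprime (x := (g : X ⧸ D)) (n := 2 ^ a) ((Nat.coprime_two_left.2 hy).pow_left a)
  have e : ((g ^ (2 ^ a * n) : X) : X ⧸ D) = g := by rw [QuotientGroup.mk_pow, pow_mul, hn]
  refine ⟨_, ?_, e⟩
  rw [← e, X3x.ord_mk D hD (hm.of_dvd_nat (orderOf_dvd_of_pow_eq_one (by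
    rw [← pow_mul, mul_right_comm, ← h, pow_mul, pow_orderOf_eq_one, one_pow])))]

theorem ord3_mk (D : Subgroup X) [D.Normal] (hD : IsPGroup 2 D) {x : X} (hx : orderOf x = 3) :
    orderOf (x : X ⧸ D) = 3 := (X3x.ord_mk D hD (by rw [hx]; decide)).trans hx

/-- A preimage has order `3 · 2^k`; a suitable power of it. -/
theorem lift3 (D : Subgroup X) [D.Normal] (hD : IsPGroup 2 D) {y : X ⧸ D} (hy : orderOf y = 3) :
    ∃ x : X, orderOf x = 3 ∧ (x : X ⧸ D) = y := hy ▸ X3x.lift D hD (by rw [hy]; decide)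

/-- Same for any element of odd order. -/
theorem lift_odd (D : Subgroup X) [D.Normal] (hD : IsPGroup 2 D) {y : X ⧸ D} (hy : Odd (orderOf y)) :
    ∃ x : X, orderOf x = orderOf y ∧ (x : X ⧸ D) = y := X3x.lift D hD hy

/-- An element inverting `x` modulo `D` can be corrected by an element of `D` (Sylow in `D ⊔ ⟨x⟩`: `⟨x⟩` and `⟨s x s⁻¹⟩` are
Sylow 3-subgroups of `D⟨x⟩`, conjugate by `d ∈ D`; `d x d⁻¹ ≡ x`), and replaced by an odd power which is a 2-element. -/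
theorem lift_inv (D : Subgroup X) [D.Normal] (hD : IsPGroup 2 D) {x : X} (hx : orderOf x = 3) {σ : X ⧸ D}
    (hσ : ∃ k : ℕ, σ ^ 2 ^ k = 1) (hi : σ * (x : X ⧸ D) * σ⁻¹ = (x : X ⧸ D)⁻¹) :
    ∃ s : X, (s : X ⧸ D) = σ ∧ (∃ k : ℕ, s ^ 2 ^ k = 1) ∧ s * x * s⁻¹ = x⁻¹ := by
  classical
  obtain ⟨s, rfl⟩ := QuotientGroup.mk_surjective σ
  have := Fintype.ofFinite D
  have h3 : x ^ 3 = 1 := hx ▸ pow_orderOf_eq_one x
  have h3' : (s * x * s⁻¹) ^ 3 = 1 := by rw [conj_pow, h3, mul_one, mul_inv_cancel]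
  have hy : ((s * x * s⁻¹ : X) : X ⧸ D) = (x : X ⧸ D)⁻¹ := hi
  generalize e : s * x * s⁻¹ = y at h3' hy
  let π : Equiv.Perm D := (Equiv.mulLeft x * Equiv.mulRight y).subtypePerm fun d => by
    change x * (d * y) ∈ D ↔ _
    rw [← QuotientGroup.eq_one_iff, ← QuotientGroup.eq_one_iff, QuotientGroup.mk_mul, QuotientGroup.mk_mul, hy,
      ← mul_assoc, conj_eq_one_iff]
  obtain ⟨d, hd⟩ := Equiv.Perm.exists_fixed_point_of_prime (p := 3) (n := 1) (σ := π) (by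
    obtain ⟨k, hk⟩ := hD.exists_card_eq
    rw [← Nat.card_eq_fintype_card, hk]
    exact fun h => absurd (Nat.prime_three.dvd_of_dvd_pow h) (by decide)) (Equiv.ext fun d => Subtype.ext (by
      change x * (x * (x * (d * y) * y) * y) = d
      calc _ = x ^ 3 * d * y ^ 3 := by simp only [pow_succ, pow_zero, one_mul, mul_assoc]
        _ = d := by rw [h3, h3', one_mul, mul_one]))
  have hd' : x * (d * y) = d := congrArg Subtype.val hd
  have e1 : ((d * s : X) : X ⧸ D) = s := by rw [QuotientGroup.mk_mul, (QuotientGroup.eq_one_iff _).2 d.2, one_mul]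
  obtain ⟨k, hk⟩ := hσ
  obtain ⟨j, hj⟩ := hD ⟨(d * s) ^ 2 ^ k, (QuotientGroup.eq_one_iff _).1 (by rw [QuotientGroup.mk_pow, e1, hk])⟩
  refine ⟨d * s, e1, ⟨k + j, by rw [pow_add, pow_mul]; exact congrArg Subtype.val hj⟩, ?_⟩
  calc _ = x⁻¹ * (x * (d * y)) * (d : X)⁻¹ := by rw [← e]; group
    _ = _ := by rw [hd', mul_inv_cancel_right]

omit [Finite X] in
theorem NoA.sub (h : NoA X) (K : Subgroup X) : NoA K := fun x hx E hE hn e he => Subtype.ext
  (h x.1 ((orderOf_coe x).trans hx) (E.map K.subtype) (hE.map _) (le_normalizer_map _ ⟨x, hn, rfl⟩) e.1 ⟨e, he, rfl⟩)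

/-- Lift `x`; the preimage of `E` is a 2-group normalized by the lift. -/
theorem NoA.quot (h : NoA X) (D : Subgroup X) [D.Normal] (hD : IsPGroup 2 D) : NoA (X ⧸ D) := fun y hy E hE hn e he => by
  obtain ⟨x, hx, rfl⟩ := lift3 D hD hy
  obtain ⟨e, rfl⟩ := QuotientGroup.mk_surjective e
  exact congrArg QuotientGroup.mk (h x hx (E.comap (QuotientGroup.mk' D))
    (hE.comap_of_ker_isPGroup _ (by rwa [QuotientGroup.ker_mk'])) (le_normalizer_comap _ hn) e he)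

omit [Finite X] in
theorem normalizer_le_X3 (K : Subgroup X) : normalizer (K : Set X) ≤ normalizer (X3 K : Set X) :=
  CL.Amalg.le_normalizer_of_conj_mem fun g hg _ ha => by
    have : X3 K ≤ (X3 K).comap (MulAut.conj g).toMonoidHom := (closure_le _).2 fun x hx =>
      mem_X3 ((mem_normalizer_iff.1 hg x).1 hx.1) (((MulAut.conj g).orderOf_eq x).trans hx.2)
    exact this ha

omit [Finite X] in
theorem X3_X3 (K : Subgroup X) : X3 (X3 K) = X3 K := le_antisymm (X3_le _) (closure_mono fun _ hx => ⟨mem_X3 hx.1 hx.2, hx.2⟩)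

omit [Finite X] in
theorem X3_top_of {J : Subgroup X} (hJ : X3 J = J) : X3 (⊤ : Subgroup J) = ⊤ := eq_top_iff.2 fun x _ => by
  have : X3 J ≤ (X3 (⊤ : Subgroup J)).map J.subtype := (closure_le _).2 fun y hy =>
    ⟨⟨y, hy.1⟩, mem_X3 (mem_top _) ((orderOf_coe _).symm.trans hy.2), rfl⟩
  obtain ⟨y, hy, e⟩ := this (hJ.ge x.2)
  exact Subtype.ext e ▸ hy

theorem X3_quot (h : X3 (⊤ : Subgroup X) = ⊤) (D : Subgroup X) [D.Normal] (hD : IsPGroup 2 D) :
    X3 (⊤ : Subgroup (X ⧸ D)) = ⊤ := eq_top_iff.2 fun y _ => by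
  obtain ⟨x, rfl⟩ := QuotientGroup.mk_surjective y
  have : X3 (⊤ : Subgroup X) ≤ (X3 ⊤).comap (QuotientGroup.mk' D) := (closure_le _).2 fun z hz =>
    mem_X3 (mem_top _) (ord3_mk D hD hz.2)
  exact this (h.ge (mem_top x))

theorem pCore_quot : pCore 2 (X ⧸ pCore 2 X) = ⊥ := CL.pCore_quotient_pCore 2 X

omit [Finite X] in
/-- `⁅Y, ⟨x⟩⁆ = ⁅Y, ⟨x⟩, ⟨x⟩⁆` for a finite 2-group `Y` normalized by `x` (coprime action, search `commutator coprime`). -/
theorem comm_comm {Y : Subgroup X} [Finite Y] (hY : IsPGroup 2 Y) {x : X} (hx : orderOf x = 3)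
    (hn : x ∈ normalizer (Y : Set X)) : ⁅⁅Y, zpowers x⁆, zpowers x⁆ = ⁅Y, zpowers x⁆ := by
  obtain ⟨k, hk⟩ := hY.exists_card_eq
  have : Finite (zpowers x) := finite_zpowers.2 (orderOf_pos_iff.1 (by omega))
  exact coprime_commutator_commutator _ _ (zpowers_le.2 hn)
    (by rw [hk, Nat.card_zpowers, hx]; exact Nat.Coprime.pow_right k (by decide)) (Or.inl inferInstance)

end CL.Gg
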