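import Cfsg.Agent.BLK.Gg.Bas
import Cfsg.Agent.BLK.Gg.X3
import Cfsg.Agent.BLK.Gg.SLa
import Cfsg.Agent.FGS.HigSL2

/-! Sections `Z / W` as modules for `SL₂(2^k)` in the sense of `CL.Hig.Mod`. -/

set_option autoImplicit false

namespace CL.Gg.Nat2

open Subgroup Cfsg CL.MSS CL.Hig
open scoped MatrixGroups

universe u v

variable {X : Type u} {V : Type v} [Group X] [Finite X] [AddCommGroup V] [Finite V]
  [DistribMulAction X V]

/-- the action on the section -/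
def act (W Z : AddSubgroup V) (hW : ∀ g : X, ∀ w ∈ W, g • w ∈ W) (hZ : ∀ g : X, ∀ z ∈ Z, g • z ∈ Z) :
    X →* AddMonoid.End (Z ⧸ W.addSubgroupOf Z) where
  toFun g := QuotientAddGroup.map _ _
    (((DistribSMul.toAddMonoidHom V g).comp Z.subtype).codRestrict Z fun z => hZ g z z.2) fun z hz => hW g z hz
  map_one' := AddMonoidHom.ext fun a => QuotientAddGroup.induction_on a fun z =>
    congrArg _ (Subtype.ext (one_smul X z.1))
  map_mul' g g' := AddMonoidHom.ext fun a => QuotientAddGroup.induction_on a fun z =>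
    congrArg _ (Subtype.ext (mul_smul g g' z.1))

omit [Finite V] in
theorem setup (h : Md X V) (O : Subgroup X) [O.Normal] (hO : IsPGroup 2 O) (hL : L2e (X ⧸ O))
    (W Z : AddSubgroup V) (hW : ∀ g : X, ∀ w ∈ W, g • w ∈ W)
    (hZ : ∀ g : X, ∀ z ∈ Z, g • z ∈ Z) (hOZ : ∀ o ∈ O, ∀ z ∈ Z, o • z - z ∈ W) (T : Sylow 2 X) :
    ∃ (K : Type) (_ : Field K) (_ : Finite K) (_ : CharP K 2) (A : Type v) (_ : AddCommGroup A)
      (_ : DistribMulAction SL(2, K) A) (φ : X →* SL(2, K)) (π : Z →+ A), Mod K A ∧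
      (∀ g, φ g = 1 ↔ g ∈ O) ∧ (∀ t ∈ (T : Subgroup X), ∃ c, φ t = u c) ∧
      (∃ t ∈ (T : Subgroup X), φ t = u 1) ∧ (∀ z, π z = 0 ↔ z.1 ∈ W) ∧
      ∀ (g : X) (z : Z), π ⟨g • z.1, hZ g z z.2⟩ = φ g • π z := by
  obtain ⟨K, _, _, k, hk, hK, ⟨e0⟩⟩ := hL
  have : CharP K 2 := (CharP.charP_iff_prime_eq_zero Nat.prime_two).2 (by
    have h := FiniteField.cast_card_eq_zero K
    rw [hK, Nat.cast_pow] at h
    exact pow_eq_zero_iff (by omega) |>.1 h)
  have hS : L2e SL(2, K) := ⟨K, inferInstance, inferInstance, k, hk, hK, ⟨MulEquiv.refl _⟩⟩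
  have uu : u (1 : K) ^ 2 = 1 := by rw [pow_two, u_mul, CharTwo.add_self_eq_zero, u_zero]
  have hU : IsPGroup 2 (zpowers (u (1 : K))) :=
    IsPGroup.of_card_dvd_pow (n := 1) (by rw [Nat.card_zpowers, pow_one]; exact orderOf_dvd_of_pow_eq_one uu)
  obtain ⟨Q, hQ⟩ := hU.exists_le_sylow
  have s0 : Function.Surjective (e0.toMonoidHom.comp (QuotientGroup.mk' O)) :=
    e0.surjective.comp (QuotientGroup.mk'_surjective O)
  obtain ⟨c, hc⟩ := MulAction.exists_smul_eq SL(2, K) (T.mapSurjective s0) Q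
  let e : X ⧸ O ≃* SL(2, K) := e0.trans (MulAut.conj c)
  let φ : X →* SL(2, K) := e.toMonoidHom.comp (QuotientGroup.mk' O)
  have hT : (T : Subgroup X).map φ = Q := by
    rw [← hc, Sylow.coe_subgroup_smul, Sylow.coe_mapSurjective, pointwise_smul_def]
    exact (Subgroup.map_map (T : Subgroup X) (MulAut.conj c).toMonoidHom
      (e0.toMonoidHom.comp (QuotientGroup.mk' O))).symm
  let ρ : X ⧸ O →* AddMonoid.End (Z ⧸ W.addSubgroupOf Z) :=
    QuotientGroup.lift O (act W Z hW hZ) fun o ho =>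
      AddMonoidHom.ext fun a => QuotientAddGroup.induction_on a fun z =>
        QuotientAddGroup.eq_iff_sub_mem.2 (hOZ o ho z z.2)
  let _ : DistribMulAction SL(2, K) (Z ⧸ W.addSubgroupOf Z) :=
    DistribMulAction.compHom _ (ρ.comp e.symm.toMonoidHom)
  have eq : ∀ (g : X) (z : Z), QuotientAddGroup.mk' (W.addSubgroupOf Z) ⟨g • z.1, hZ g z z.2⟩ =
      φ g • QuotientAddGroup.mk' (W.addSubgroupOf Z) z := fun g z => by
    change _ = ρ (e.symm (e g)) _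
    rw [e.symm_apply_apply]
    rfl
  have h1 : u (1 : K) ∈ (Q : Subgroup SL(2, K)) := hQ (mem_zpowers _)
  refine ⟨K, inferInstance, inferInstance, inferInstance, Z ⧸ W.addSubgroupOf Z, inferInstance, inferInstance, φ,
    QuotientAddGroup.mk' _, ⟨fun a => ⟨1, ?_⟩, fun a ha w => ?_, ?_⟩, fun g => ?_, fun t ht => ?_, ?_,
    fun z => QuotientAddGroup.eq_zero_iff z, eq⟩
  · obtain ⟨z, rfl⟩ := QuotientAddGroup.mk'_surjective _ a
    rw [pow_one, two_nsmul, ← map_add, show z + z = 0 from Subtype.ext (h.two z.1), map_zero]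
  · have e2 : u a * n K * Hig.h a⁻¹ * (u a * n K) = n K * u a⁻¹ := by
      ext i j; fin_cases i <;> fin_cases j <;> simp [coe_u, coe_n, coe_h, ha, CharTwo.add_self_eq_zero]
    have e1 : Hig.h a⁻¹ * Hig.h a = 1 := by rw [h_mul (inv_ne_zero ha) ha, inv_mul_cancel₀ ha, h_one]
    have o3 : orderOf (u a * n K * Hig.h a⁻¹) = 3 := by
      refine orderOf_eq_prime ?_ fun h0 => ?_
      · ext i j; fin_cases i <;> fin_cases j <;>
          simp [pow_three, coe_u, coe_n, coe_h, ha, CharTwo.add_self_eq_zero]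
      · have := congrArg (fun m : SL(2, K) => m.1 1 1) h0
        simp [coe_u, coe_n, coe_h, ha] at this
    obtain ⟨x, hx, hxe⟩ := lift3 O hO (y := e.symm (u a * n K * Hig.h a⁻¹)) (by rw [e.symm.orderOf_eq, o3])
    have hφ : φ x = u a * n K * Hig.h a⁻¹ := by
      change e x = _
      rw [hxe, e.apply_symm_apply]
    obtain ⟨z, hz⟩ := QuotientAddGroup.mk'_surjective _ (Hig.h a • w)
    have e3 := eq x z
    have e4 := eq x ⟨_, hZ x z z.2⟩
    have e5 : (u a * n K * Hig.h a⁻¹) • Hig.h a • w = (u a * n K) • w := by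
      rw [← mul_smul (u a * n K * Hig.h a⁻¹), mul_assoc _ _ (Hig.h a), e1, mul_one]
    rw [hφ, hz, e5] at e3
    rw [e3, hφ, ← mul_smul (u a * n K * Hig.h a⁻¹), e2, mul_smul (n K)] at e4
    rw [mul_smul (u a)] at e3
    rw [← e3, ← e4, ← hz, ← map_add, ← map_add]
    refine (congrArg _ (Subtype.ext ?_)).trans (map_zero _)
    change z.1 + x • z.1 + x • x • z.1 = 0
    rw [h.cube hx, add_comm (x • z.1), h.two]
  · classical
    have h4 : 2 < Fintype.card K := hK ▸ (by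
      calc 2 < 2 ^ 2 := by norm_num
        _ ≤ 2 ^ k := Nat.pow_le_pow_right two_pos hk)
    obtain ⟨w, -, hw⟩ := Finset.exists_mem_notMem_of_card_lt_card
      (s := ({0, 1} : Finset K)) (t := Finset.univ) (Finset.card_le_two.trans_lt h4)
    exact ⟨w, by simpa using hw⟩
  · exact e.map_eq_one_iff.trans (QuotientGroup.eq_one_iff g)
  · have hm : φ t ∈ (Q : Subgroup SL(2, K)) := hT ▸ mem_map_of_mem φ ht
    have hcm := hS.syl_comm Q hm h1
    generalize φ t = g at hcm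
    have e := fun i j => congrArg (fun m : SL(2, K) => m.1 i j) hcm
    have e11 := e 1 1
    have e01 := e 0 1
    simp [coe_u, Matrix.mul_apply] at e11 e01
    have hd := g.det_coe
    rw [Matrix.det_fin_two, e11, mul_zero, sub_zero] at hd
    have e5 : g.1 0 0 = g.1 1 1 := by linear_combination e01
    have e6 : g.1 1 1 = 1 := by
      rw [e5] at hd
      rcases mul_self_eq_one_iff.1 hd with h' | h'
      · exact h'
      · rw [h', CharTwo.neg_eq]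
    refine ⟨g.1 0 1, ?_⟩
    ext i j; fin_cases i <;> fin_cases j <;> simp [coe_u, e11, e5, e6]
  · rw [← hT] at h1
    exact h1

theorem sub_eq {K : Type} [Field K] [CharP K 2] {A : Type v} [AddCommGroup A] [DistribMulAction SL(2, K) A]
    {y z : A} (hy : y ∈ Hig.Fix K) (c : K) : u c • (y + n K • z) - (y + n K • z) = sm c z := by
  rw [smul_add, hy c, u_n]; abel

omit [Finite V] in
theorem nat1 (h : Md X V) (O : Subgroup X) [O.Normal] (hO : IsPGroup 2 O) (hL : L2e (X ⧸ O))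
    (W Z : AddSubgroup V) (_ : W ≤ Z) (hW : ∀ g : X, ∀ w ∈ W, g • w ∈ W)
    (hZ : ∀ g : X, ∀ z ∈ Z, g • z ∈ Z) (hOZ : ∀ o ∈ O, ∀ z ∈ Z, o • z - z ∈ W) (T : Sylow 2 X)
    {s : X} (hs : s ∈ (T : Subgroup X)) (hsO : s ∉ O) {z : V} (hz : z ∈ Z) (hsz : s • z - z ∈ W)
    {t : X} (ht : t ∈ (T : Subgroup X)) : t • z - z ∈ W := by
  obtain ⟨K, _, _, _, A, _, _, φ, π, M, h1, h2, -, h4, h5⟩ := setup h O hO hL W Z hW hZ hOZ T
  obtain ⟨y, hy, w, hw, e⟩ := M.exists_eq (π ⟨z, hz⟩)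
  obtain ⟨c, hc⟩ := h2 s hs
  obtain ⟨d, hd⟩ := h2 t ht
  have c0 : c ≠ 0 := fun e0 => hsO ((h1 s).1 (by rw [hc, e0, u_zero]))
  have e1 := (h4 (⟨s • z, hZ s z hz⟩ - ⟨z, hz⟩)).2 hsz
  rw [map_sub, h5 s ⟨z, hz⟩, hc, e, sub_eq hy] at e1
  refine (h4 (⟨t • z, hZ t z hz⟩ - ⟨z, hz⟩)).1 ?_
  rw [map_sub, h5 t ⟨z, hz⟩, hd, e, M.sm_eq_zero hw c0 e1, smul_zero, add_zero, hy d, sub_self]

omit [Finite V] in
theorem nat2 (h : Md X V) (O : Subgroup X) [O.Normal] (hO : IsPGroup 2 O) (hL : L2e (X ⧸ O))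
    (W Z : AddSubgroup V) (_ : W ≤ Z) (hW : ∀ g : X, ∀ w ∈ W, g • w ∈ W)
    (hZ : ∀ g : X, ∀ z ∈ Z, g • z ∈ Z) (hOZ : ∀ o ∈ O, ∀ z ∈ Z, o • z - z ∈ W) (T : Sylow 2 X)
    {g : X} (hg : g ∈ normalizer ((T : Subgroup X) : Set X)) {t : X} (ht : t ∈ (T : Subgroup X))
    {z : V} (hz : z ∈ Z) : (g * g) • (t • z - z) - ((g * t * g⁻¹) • z - z) ∈ W := by
  obtain ⟨K, _, _, _, A, _, _, φ, π, M, -, h2, ⟨t1, ht1, h3⟩, h4, h5⟩ := setup h O hO hL W Z hW hZ hOZ T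
  obtain ⟨y, hy, w, hw, e⟩ := M.exists_eq (π ⟨z, hz⟩)
  obtain ⟨c, hc⟩ := h2 t ht
  obtain ⟨d, hd⟩ := h2 _ ((mem_normalizer_iff.1 hg t1).1 ht1)
  rw [map_mul, map_mul, map_inv, h3, mul_inv_eq_iff_eq_mul] at hd
  obtain ⟨a, b, ha, hG⟩ : ∃ a b, a ≠ 0 ∧ φ g = u b * Hig.h a := by
    rcases bruhat (φ g) with h' | ⟨a, b, f, ha, h'⟩
    · exact h'
    · have := congrArg (fun m : SL(2, K) => m.1 1 1) hd
      simp [h', coe_u, coe_n, coe_h, ha] at this
  have e1 : φ (g * t * g⁻¹) = u (a * (a * c)) := by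
    rw [map_mul, map_mul, map_inv, hc, hG, mul_inv_eq_iff_eq_mul]
    ext i j; fin_cases i <;> fin_cases j <;> simp [coe_u, coe_h, ha]
    field_simp
    ring
  have e2 : ∀ v : A, v ∈ Hig.Fix K → φ g • v = sm a v := fun v hv => by
    rw [hG, mul_smul, h_mem hv, M.sm_eq hv ha]
  refine (h4 (⟨(g * g) • (⟨t • z, hZ t z hz⟩ - ⟨z, hz⟩ : Z).1, hZ _ _ (Subtype.prop _)⟩ -
    (⟨(g * t * g⁻¹) • z, hZ _ z hz⟩ - ⟨z, hz⟩))).1 ?_
  rw [map_sub, h5, map_sub, map_sub, h5 t ⟨z, hz⟩, h5 _ ⟨z, hz⟩, e1, hc, e, sub_eq hy, sub_eq hy, map_mul, mul_smul,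
    e2 _ (M.sm_mem hw c), e2 _ (M.sm_mem (M.sm_mem hw c) a), M.mul_sm hw, M.mul_sm hw, sub_self]

end CL.Gg.Nat2
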