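import Cfsg.Agent.BLK.Gg.Bas
import Cfsg.Agent.PERM.FCStruct
import Cfsg.Agent.SOLV.Basic

/-!
Odd order subgroups under `Md`; elements of order 3.
-/

set_option autoImplicit false

namespace CL.Gg

open Subgroup Cfsg CL.MSS

universe u v

variable {X : Type u} {V : Type v} [Group X] [Finite X] [AddCommGroup V] [Finite V]
  [DistribMulAction X V]

/-- A subgroup of odd order is an abstract Frobenius complement. -/
theorem Md.isFPF (h : Md X V) (H : Subgroup X) (hH : Odd (Nat.card H)) : CL.FC.IsFPF H := by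
  obtain ⟨v0, hv0⟩ := h.nt
  have : Nontrivial (Multiplicative V) := ⟨⟨Multiplicative.ofAdd v0, 1, by simpa using hv0⟩⟩
  let φ : H →* MulAut (Multiplicative V) :=
    { toFun := fun g => AddEquiv.toMultiplicative (DistribMulAction.toAddEquiv V (g : X))
      map_one' := by
        ext k
        simp
      map_mul' := fun a b => by
        ext k
        simp [mul_smul] }
  refine CL.FC.isFPF_of_fpf_aut φ ?_
  intro g hg k hk
  have ho : Odd (orderOf (g : X)) := by
    rw [Subgroup.orderOf_coe]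
    exact Odd.of_dvd_nat hH (orderOf_dvd_natCard g)
  have h1 : (g : X) ≠ 1 := fun e => hg (Subtype.ext e)
  have : (g : X) • Multiplicative.toAdd k = Multiplicative.toAdd k := congrArg Multiplicative.toAdd hk
  have h0 := h.fp g ho h1 _ this
  exact Multiplicative.toAdd.injective h0

theorem OddX.odd_card {r : ℕ} [Fact r.Prime] (hr : r ≠ 2) {R : Subgroup X}
    (hR : IsPGroup r R) : Odd (Nat.card R) := by
  obtain ⟨n, hn⟩ := IsPGroup.iff_card.1 hR
  rw [hn]
  exact ((Fact.out : r.Prime).odd_of_ne_two hr).pow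

/-- An `r`-group (`r` odd) acting fixed point freely has no subgroup `C_r × C_r` (coprime action: `V` is generated by the
`C_V(a)`), so it is cyclic. -/
theorem Md.cyclic (h : Md X V) {r : ℕ} [Fact r.Prime] (hr : r ≠ 2) (R : Subgroup X)
    (hR : IsPGroup r R) : IsCyclic R := by
  have hF := h.isFPF R (OddX.odd_card hr hR)
  have hT : IsCyclic (⊤ : Subgroup R) := hF.isCyclic_of_ne_two hr (hR.to_subgroup ⊤)
  exact isCyclic_of_surjective (Subgroup.topEquiv (G := R)) (Subgroup.topEquiv (G := R)).surjective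

omit [Finite X] in
theorem OddX.comm {R : Subgroup X} (hR : IsCyclic R) {a b : X} (ha : a ∈ R) (hb : b ∈ R) :
    a * b = b * a := by
  let := hR.commGroup
  exact congrArg Subtype.val (mul_comm (⟨a, ha⟩ : R) ⟨b, hb⟩)

/-- `r = 3`: `R ⊔ ⟨x⟩` is a 3-group, cyclic. `r ≠ 3`: `R` is cyclic and `x` has a nontrivial fixed point on `[R, x]`
unless that group is trivial. -/
theorem Md.cent3 (h : Md X V) {r : ℕ} [Fact r.Prime] (hr : r ≠ 2) (R : Subgroup X)
    (hR : IsPGroup r R) {x : X} (hx : orderOf x = 3) (hn : x ∈ normalizer (R : Set X)) :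
    x ∈ centralizer (R : Set X) := by
  have : Fact (Nat.Prime 3) := ⟨Nat.prime_three⟩
  have hz : zpowers x ≤ normalizer (R : Set X) := (zpowers_le).2 hn
  have hx3 : IsPGroup 3 (zpowers x) := IsPGroup.of_card (n := 1) (by rw [Nat.card_zpowers, hx]; rfl)
  by_cases h3 : r = 3
  · subst h3
    have hS : IsPGroup 3 (zpowers x ⊔ R : Subgroup X) := IsPGroup.to_sup_of_normal_right' hx3 hR hz
    have hc := h.cyclic hr _ hS
    rw [mem_centralizer_iff]
    intro a ha
    exact OddX.comm hc (mem_sup_right ha) (mem_sup_left (mem_zpowers x))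
  have hc := h.cyclic hr R hR
  have hcon : ∀ a ∈ R, x * a * x⁻¹ ∈ R := fun a ha => CL.Amalg.conj_mem_of_mem_normalizer hn ha
  let Y : Subgroup X :=
    { carrier := {b | ∃ a ∈ R, b = x * a * x⁻¹ * a⁻¹}
      one_mem' := ⟨1, one_mem R, by group⟩
      mul_mem' := by
        rintro _ _ ⟨a, ha, rfl⟩ ⟨b, hb, rfl⟩
        refine ⟨a * b, mul_mem ha hb, ?_⟩
        have e1 := OddX.comm hc (inv_mem ha) (mul_mem (hcon b hb) (inv_mem hb))
        calc x * a * x⁻¹ * a⁻¹ * (x * b * x⁻¹ * b⁻¹)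
            = x * a * x⁻¹ * (a⁻¹ * (x * b * x⁻¹ * b⁻¹)) := by group
          _ = x * a * x⁻¹ * (x * b * x⁻¹ * b⁻¹ * a⁻¹) := by rw [e1]
          _ = x * (a * b) * x⁻¹ * (a * b)⁻¹ := by group
      inv_mem' := by
        rintro _ ⟨a, ha, rfl⟩
        refine ⟨a⁻¹, inv_mem ha, ?_⟩
        have e1 := OddX.comm hc ha (hcon _ (inv_mem ha))
        calc (x * a * x⁻¹ * a⁻¹)⁻¹ = a * (x * a⁻¹ * x⁻¹) := by group
          _ = x * a⁻¹ * x⁻¹ * a := e1
          _ = x * a⁻¹ * x⁻¹ * a⁻¹⁻¹ := by group }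
  have hYR : Y ≤ R := by
    rintro _ ⟨a, ha, rfl⟩
    exact mul_mem (hcon a ha) (inv_mem ha)
  have hodd : Odd (Nat.card (zpowers x ⊔ R : Subgroup X)) := by
    refine Odd.of_dvd_nat ?_ (CL.card_sup_dvd_mul_of_le_normalizer hz)
    refine Odd.mul ?_ (OddX.odd_card hr hR)
    rw [Nat.card_zpowers, hx]
    decide
  have hF := h.isFPF _ hodd
  have hxH : x ∈ (zpowers x ⊔ R : Subgroup X) := mem_sup_left (mem_zpowers x)
  by_cases hY : Y.subgroupOf (zpowers x ⊔ R) = ⊥
  · rw [mem_centralizer_iff]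
    intro a ha
    have hm : x * a * x⁻¹ * a⁻¹ ∈ Y := ⟨a, ha, rfl⟩
    have : (⟨_, mem_sup_right (hYR hm)⟩ : (zpowers x ⊔ R : Subgroup X)) ∈
        Y.subgroupOf (zpowers x ⊔ R) := hm
    rw [hY, mem_bot] at this
    have e : x * a * x⁻¹ * a⁻¹ = 1 := congrArg Subtype.val this
    calc a * x = (x * a * x⁻¹ * a⁻¹) * a * x := by rw [e, one_mul]
      _ = x * a := by group
  exfalso
  have hp : (orderOf (⟨x, hxH⟩ : (zpowers x ⊔ R : Subgroup X))).Prime := by
    rw [← Subgroup.orderOf_coe]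
    show (orderOf x).Prime
    rw [hx]
    exact Nat.prime_three
  obtain ⟨b, hb, hb1, hbx⟩ := hF.exists_fixed_of_prime hp (Y.subgroupOf (zpowers x ⊔ R)) hY (by
    rintro b ⟨a, ha, e⟩
    refine ⟨x * a * x⁻¹, hcon a ha, ?_⟩
    show x * (b : X) * x⁻¹ = _
    have e' : (b : X) = x * a * x⁻¹ * a⁻¹ := e
    rw [e']
    group)
  obtain ⟨a, ha, e⟩ := hb
  have e' : (b : X) = x * a * x⁻¹ * a⁻¹ := e
  have hbx' : x * (b : X) = b * x := congrArg Subtype.val hbx
  have hx1 : x * x * x = 1 := by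
    have := pow_orderOf_eq_one x
    rw [hx] at this
    rw [← this, pow_succ, pow_two]
  have e1 : x * a * x⁻¹ = b * a := by rw [e']; group
  have c1 : x * (b : X) * x⁻¹ = b := by rw [hbx']; group
  have e2 : x * x * a * x⁻¹ * x⁻¹ = b * (b * a) := by
    calc x * x * a * x⁻¹ * x⁻¹ = x * (x * a * x⁻¹) * x⁻¹ := by group
      _ = x * (b * a) * x⁻¹ := by rw [e1]
      _ = (x * b * x⁻¹) * (x * a * x⁻¹) := by group
      _ = b * (b * a) := by rw [c1, e1]
  have e3 : a = b * (b * (b * a)) := by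
    calc a = (x * x * x) * a * (x * x * x)⁻¹ := by rw [hx1]; group
      _ = x * (x * x * a * x⁻¹ * x⁻¹) * x⁻¹ := by group
      _ = (x * b * x⁻¹) * ((x * b * x⁻¹) * (x * a * x⁻¹)) := by rw [e2]; group
      _ = b * (b * (b * a)) := by rw [c1, e1]
  have hb3 : (b : X) ^ 3 = 1 := by
    have : (b : X) ^ 3 * a = 1 * a := by
      rw [one_mul, pow_succ, pow_two, mul_assoc, mul_assoc]
      exact e3.symm
    exact mul_right_cancel this
  have hbR : (b : X) ∈ R := hYR ⟨a, ha, e'⟩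
  obtain ⟨k, hk⟩ := hR ⟨b, hbR⟩
  have hk' : (b : X) ^ r ^ k = 1 := congrArg Subtype.val hk
  have hcop : Nat.Coprime 3 (r ^ k) :=
    ((Nat.coprime_primes Nat.prime_three Fact.out).2 (Ne.symm h3)).pow_right k
  have : orderOf (b : X) ∣ Nat.gcd 3 (r ^ k) :=
    Nat.dvd_gcd (orderOf_dvd_of_pow_eq_one hb3) (orderOf_dvd_of_pow_eq_one hk')
  rw [hcop, Nat.dvd_one, orderOf_eq_one_iff] at this
  exact hb1 (Subtype.ext this)

/-- Sylow 3-subgroups of `K` are cyclic and conjugate in `K`; a cyclic group has one subgroup of order 3. -/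
theorem Md.conj3 (h : Md X V) (K : Subgroup X) {x y : X} (hx : x ∈ K) (hy : y ∈ K)
    (ox : orderOf x = 3) (oy : orderOf y = 3) :
    ∃ g ∈ K, g * x * g⁻¹ = y ∨ g * x * g⁻¹ = y⁻¹ := by
  have : Fact (Nat.Prime 3) := ⟨Nat.prime_three⟩
  have ox' : orderOf (⟨x, hx⟩ : K) = 3 := by rw [← Subgroup.orderOf_coe]; exact ox
  have oy' : orderOf (⟨y, hy⟩ : K) = 3 := by rw [← Subgroup.orderOf_coe]; exact oy
  have px : IsPGroup 3 (zpowers (⟨x, hx⟩ : K)) :=
    IsPGroup.of_card (n := 1) (by rw [Nat.card_zpowers, ox']; rfl)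
  have py : IsPGroup 3 (zpowers (⟨y, hy⟩ : K)) :=
    IsPGroup.of_card (n := 1) (by rw [Nat.card_zpowers, oy']; rfl)
  obtain ⟨P, hP⟩ := px.exists_le_sylow
  obtain ⟨Q, hQ⟩ := py.exists_le_sylow
  obtain ⟨g, hg⟩ := MulAction.exists_smul_eq K P Q
  have h1 : g * ⟨x, hx⟩ * g⁻¹ ∈ (Q : Subgroup K) := by
    rw [← hg, Sylow.coe_subgroup_smul]
    exact Subgroup.smul_mem_pointwise_smul _ (MulAut.conj g) _ (hP (mem_zpowers _))
  have hQ3 : IsPGroup 3 ((Q : Subgroup K).map K.subtype) := Q.isPGroup'.map _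
  have hz : (g : X) * x * (g : X)⁻¹ ∈ (Q : Subgroup K).map K.subtype := ⟨_, h1, rfl⟩
  have hyQ : y ∈ (Q : Subgroup K).map K.subtype := ⟨_, hQ (mem_zpowers _), rfl⟩
  have hF := h.isFPF _ (OddX.odd_card (by norm_num) hQ3)
  have hc := h.cyclic (by norm_num) _ hQ3
  have oz : orderOf ((g : X) * x * (g : X)⁻¹) = 3 := by
    rw [← ox]
    exact (MulAut.conj (g : X)).orderOf_eq x
  have hm := hF.mem_zpowers_of_commute Nat.prime_three (x := ⟨y, hyQ⟩) (y := ⟨_, hz⟩)
    (by rw [← Subgroup.orderOf_coe]; exact oy)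
    (Subtype.ext (by
      have := pow_orderOf_eq_one ((g : X) * x * (g : X)⁻¹)
      rwa [oz] at this))
    (Subtype.ext (OddX.comm hc hyQ hz))
  obtain ⟨n, hn⟩ := hm
  have hn' : y ^ n = (g : X) * x * (g : X)⁻¹ := congrArg Subtype.val hn
  refine ⟨g, g.2, ?_⟩
  have hy3 : y ^ (3 : ℤ) = 1 := by
    have := pow_orderOf_eq_one y
    rw [oy] at this
    exact_mod_cast this
  have hmod : y ^ n = y ^ (n % 3) := by
    conv_lhs => rw [← Int.emod_add_mul_ediv n 3, zpow_add, zpow_mul, hy3, one_zpow, mul_one]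
  have h3 : n % 3 = 0 ∨ n % 3 = 1 ∨ n % 3 = 2 := by omega
  rw [← hn'] at oz ⊢
  rw [hmod] at oz ⊢
  rcases h3 with e | e | e
  · rw [e, zpow_zero, orderOf_one] at oz
    omega
  · left
    rw [e, zpow_one]
  · right
    rw [e, eq_inv_iff_mul_eq_one, ← hy3]
    group

end CL.Gg
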