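import Cfsg.Agent.BLK.Gg.Pi1

/-!
`Π`, step 3: the subgroup `At V t` for `t ∈ T ⊓ K`.
-/

set_option autoImplicit false

namespace CL.Gg.Pi3b

open Subgroup Cfsg CL.MSS

universe u v

variable {X : Type u} {V : Type v} [Group X] [Finite X] [AddCommGroup V] [Finite V]
  [DistribMulAction X V]

variable {x : X} {E : Subgroup X}

theorem At_eq (c : Cf V x E) (hL : L2o (X3 (normalizer (E : Set X)))) (T : Sylow 2 X) (hT : E ≤ T)
    {t : X} (ht : t ∈ (T : Subgroup X) ⊓ X3 (normalizer (E : Set X))) (h1 : t ≠ 1) :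
    orderOf t = 2 ∧ At V t = (T : Subgroup X) ⊓ X3 (normalizer (E : Set X)) := by
  have p2 : ∀ s ∈ (T : Subgroup X), ∃ k : ℕ, s ^ 2 ^ k = 1 := fun s hs => by
    obtain ⟨k, hk⟩ := T.isPGroup' ⟨s, hs⟩
    exact ⟨k, congrArg Subtype.val hk⟩
  have p3 : ∃ k : ℕ, (⟨t, ht.2⟩ : X3 (normalizer (E : Set X))) ^ 2 ^ k = 1 := by
    obtain ⟨k, hk⟩ := p2 t ht.1
    exact ⟨k, Subtype.ext hk⟩
  have ot : orderOf t = 2 := orderOf_eq_prime (congrArg Subtype.val (hL.l2e.sq p3)) h1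
  have hle : (T : Subgroup X) ⊓ X3 (normalizer (E : Set X)) ≤ At V t :=
    c.md.syl_At hL.l2e (T.isPGroup'.to_inf_left) inf_le_right ht h1
  have dec : ∀ s ∈ (T : Subgroup X), ∃ e ∈ E, ∃ l ∈ (T : Subgroup X) ⊓ X3 (normalizer (E : Set X)), s = e * l :=
    fun s hs => by
      obtain ⟨e, he, l, hl, -, rfl⟩ := c.dec hL (p2 s hs) (c.syl T hT hs)
      exact ⟨e, he, l, ⟨(mul_mem_cancel_left (hT he)).1 hs, hl⟩, rfl⟩
  have hn : (T : Subgroup X) ≤ normalizer (At V t : Set X) := fun s hs => by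
    obtain ⟨e, he, l, hl, rfl⟩ := dec s hs
    refine cent_le_norm_At t (mul_mem ?_ ?_) <;> rw [mem_centralizer_singleton_iff]
    · exact c.cent ht.2 e he
    · exact c.md.At_comm c.core ot (hle hl) (self_mem_At t)
  have hA : At V t ≤ (T : Subgroup X) := le_sup_left.trans (T.is_maximal'
    (IsPGroup.to_sup_of_normal_left' (c.md.At_pg c.core ot) T.isPGroup' hn) le_sup_right).le
  refine ⟨ot, le_antisymm (fun a ha => ?_) hle⟩
  obtain ⟨e, he, l, hl, rfl⟩ := dec a (hA ha)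
  by_cases e1 : e = 1
  · rwa [e1, one_mul]
  have hx : x ∈ normalizer (At V t : Set X) := by
    rw [← (c.md.At_eq c.core ot ((mul_mem_cancel_right (hle hl)).1 ha) e1).2]
    exact cent_le_norm_At e (mem_centralizer_singleton_iff.2 (mem_centralizer_singleton_iff.1 (c.le he)).symm)
  have hxK : x ∈ X3 (normalizer (E : Set X)) :=
    mem_X3 (centralizer_le_normalizer _ fun e he => mem_centralizer_singleton_iff.1 (c.le he)) c.ox
  exact absurd (congrArg Subtype.val (hL.l2e.cent3 (x := ⟨x, hxK⟩) (by rw [← c.ox, ← orderOf_coe]) p3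
    (Subtype.ext (c.noA x c.ox _ (c.md.At_pg c.core ot) hx t (self_mem_At t))))) h1

end CL.Gg.Pi3b
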