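import Cfsg.Agent.BLK.Gg.Fr

/-!
Two elements of order 3 whose quotient is a 2-element.
-/

set_option autoImplicit false
set_option linter.unusedSimpArgs false

namespace CL.Gg

open Subgroup Cfsg CL.MSS

universe u v

variable {X : Type u} {V : Type v} [Group X] [Finite X] [AddCommGroup V] [Finite V]
  [DistribMulAction X V]

namespace Q1

section ring
variable {R : Type*} [Ring R] [Module (ZMod 2) R]

theorem eq2 {a b : R} (h : (1 : ZMod 2) • a = (1 : ZMod 2) • b) : a = b := by rwa [one_smul, one_smul] at h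

theorem frob (a : R) (i : ℕ) : (a + 1) ^ 2 ^ i = a ^ 2 ^ i + 1 := by
  induction i with
  | zero => simp
  | succ i ih =>
    rw [pow_succ, pow_mul, pow_mul, ih, sq, sq]
    simp only [mul_add, add_mul, mul_one, one_mul]
    apply eq2; match_scalars <;> decide

theorem unit {b c z : R} (hb : c * c = b) (hn : IsNilpotent b) (hz : Commute b z) : IsUnit (1 + (c + b * z)) := by
  have hc : Commute b c := by rw [← hb]; exact (Commute.refl c).mul_left (Commute.refl c)
  have e : (c + b * z) ^ 2 = b * (1 + c * z + z * c + z * (b * z)) := by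
    rw [sq]
    simp only [mul_add, add_mul, mul_one, hb, mul_assoc]
    rw [← mul_assoc c b, ← hc.eq, mul_assoc]
    abel
  have h : IsNilpotent ((c + b * z) ^ 2) := e ▸ Commute.isNilpotent_mul_right
    ((((Commute.one_right b).add_right (hc.mul_right hz)).add_right (hz.mul_right hc)).add_right
      (hz.mul_right ((Commute.refl b).mul_right hz))) hn
  exact (IsNilpotent.of_pow h).isUnit_one_add

theorem rel {x y : R} (hx : x * x = x + 1) (hy : y * y = y + 1) {b : R} (hb : (x + y) * (x + y) = b) :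
    y * x = b + x + y + x * y ∧ x * b = b * x ∧ y * b = b * y := by
  have hx' : ∀ z, x * (x * z) = x * z + z := fun z => by rw [← mul_assoc, hx, add_mul, one_mul]
  have hy' : ∀ z, y * (y * z) = y * z + z := fun z => by rw [← mul_assoc, hy, add_mul, one_mul]
  subst hb
  refine ⟨?_, ?_, ?_⟩ <;> simp only [mul_add, add_mul, mul_assoc, hx, hy, hx', hy', mul_one, one_mul] <;>
    apply eq2 <;> match_scalars <;> decide

theorem usq {x y : R} (hx : x * x = x + 1) (hy : y * y = y + 1) :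
    (x * (y + 1)) ^ 2 + 1 = (x + y) * (x + y) * (x * (y + 1)) ∧ Commute ((x + y) * (x + y)) (x * (y + 1)) := by
  obtain ⟨-, h1, h2⟩ := rel hx hy rfl
  refine ⟨?_, Commute.mul_right h1.symm (Commute.add_right h2.symm (Commute.one_right _))⟩
  have hx' : ∀ z, x * (x * z) = x * z + z := fun z => by rw [← mul_assoc, hx, add_mul, one_mul]
  have hy' : ∀ z, y * (y * z) = y * z + z := fun z => by rw [← mul_assoc, hy, add_mul, one_mul]
  simp only [sq, mul_add, add_mul, mul_assoc, hx, hy, hx', hy', mul_one, one_mul]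
  apply eq2; match_scalars <;> decide

theorem alg {x y : R} (hx : x * x = x + 1) (hy : y * y = y + 1) (hn : IsNilpotent ((x + y) * (x + y))) :
    (∀ m, ∃ η η', IsUnit η ∧ IsUnit η' ∧ ((x * y) ^ 3 + 1) ^ m = η' * (x + y) ^ (2 * m) ∧
      ((x * y) ^ 3 + 1) ^ m = (x + y) ^ (2 * m) * η) ∧
    ∀ i, ∃ η η', IsUnit η ∧ IsUnit η' ∧
      ((x * (y + 1)) ^ 2 * (x * y) ^ 3 + 1) ^ 2 ^ i = η' * (x + y) ^ (3 * 2 ^ i) ∧
      ((x * (y + 1)) ^ 2 * (x * y) ^ 3 + 1) ^ 2 ^ i = (x + y) ^ (3 * 2 ^ i) * η := by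
  obtain ⟨b, hb⟩ : ∃ b, (x + y) * (x + y) = b := ⟨_, rfl⟩
  obtain ⟨h0, h1, h2⟩ := rel hx hy hb
  rw [hb] at hn
  have hx' : ∀ z, x * (x * z) = x * z + z := fun z => by rw [← mul_assoc, hx, add_mul, one_mul]
  have hy' : ∀ z, y * (y * z) = y * z + z := fun z => by rw [← mul_assoc, hy, add_mul, one_mul]
  have h0' : ∀ z, y * (x * z) = b * z + x * z + y * z + x * (y * z) := fun z => by
    rw [← mul_assoc, h0, add_mul, add_mul, add_mul, mul_assoc]
  have h1' : ∀ z, x * (b * z) = b * (x * z) := fun z => by rw [← mul_assoc, h1, mul_assoc]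
  have h2' : ∀ z, y * (b * z) = b * (y * z) := fun z => by rw [← mul_assoc, h2, mul_assoc]
  have cx : Commute b x := h1.symm
  have cy : Commute b y := h2.symm
  have c1 := Commute.one_right b
  have cc := cx.add_right cy
  have ux : IsUnit x := isUnit_iff_exists.2 ⟨x + 1, by
    constructor <;> simp only [mul_add, add_mul, hx, mul_one, one_mul] <;> apply eq2 <;> match_scalars <;> decide⟩
  have uy : IsUnit (y + 1) := isUnit_iff_exists.2 ⟨y, by
    constructor <;> simp only [mul_add, add_mul, hy, mul_one, one_mul] <;> apply eq2 <;> match_scalars <;> decide⟩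
  have e2 : (x * y) ^ 3 = b * (1 + b * (x * y)) + 1 := by
    simp only [pow_succ, pow_zero, mul_add, add_mul, mul_assoc, hx, hy, hx', hy', h0, h0', h1, h1', h2, h2', mul_one,
      one_mul]
    apply eq2; match_scalars <;> decide
  have e1 : (x * (y + 1)) ^ 2 = b * (x * (y + 1)) + 1 := by
    simp only [pow_succ, pow_zero, mul_add, add_mul, mul_assoc, hx, hy, hx', hy', h0, h0', h1, h1', h2, h2', mul_one,
      one_mul]
    apply eq2; match_scalars <;> decide
  have pw : ∀ {N ζ : R} {a : ℕ}, IsUnit ζ → Commute b ζ → N = b ^ a * ζ → ∀ m, ∃ η η', IsUnit η ∧ IsUnit η' ∧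
      N ^ m = η' * (x + y) ^ (2 * a * m) ∧ N ^ m = (x + y) ^ (2 * a * m) * η := fun {N ζ a} hζ hc e m => by
    have e' : (x + y) ^ (2 * a * m) = (b ^ a) ^ m := by rw [pow_mul, pow_mul, sq, hb]
    refine ⟨ζ ^ m, ζ ^ m, hζ.pow m, hζ.pow m, ?_, ?_⟩
    · rw [e, e', (hc.pow_left a).eq, (hc.pow_left a).symm.mul_pow]
    · rw [e, e', (hc.pow_left a).mul_pow]
  constructor
  · intro m
    have := pw (N := (x * y) ^ 3 + 1) (a := 1)
      (Commute.isNilpotent_mul_right (cx.mul_right cy) hn).isUnit_one_add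
      (c1.add_right ((Commute.refl b).mul_right (cx.mul_right cy))) (by
        rw [e2, pow_one]; apply eq2; match_scalars <;> decide) m
    rwa [mul_one] at this
  obtain ⟨t, ht⟩ : ∃ t, t = x * (y + 1) * (x * y) := ⟨_, rfl⟩
  have ct : Commute b t := ht ▸ (cx.mul_right (cy.add_right c1)).mul_right (cx.mul_right cy)
  have cz : Commute b (y * (x + y) * t) := (cy.mul_right cc).mul_right ct
  have cz' : Commute b ((x + 1) * t * (x + y)) := ((cx.add_right c1).mul_right ct).mul_right cc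
  obtain ⟨η, hη⟩ : ∃ η, η = (y + 1) * (1 + ((x + y) + b * (y * (x + y) * t))) := ⟨_, rfl⟩
  obtain ⟨η', hη'⟩ : ∃ η, η = x * (1 + ((x + y) + b * ((x + 1) * t * (x + y)))) := ⟨_, rfl⟩
  have u1 : IsUnit η := hη ▸ uy.mul (unit hb hn cz)
  have u2 : IsUnit η' := hη' ▸ ux.mul (unit hb hn cz')
  have d1 : Commute b η := hη ▸ (cy.add_right c1).mul_right (c1.add_right (cc.add_right ((Commute.refl b).mul_right cz)))
  have d2 : Commute b η' := hη' ▸ cx.mul_right (c1.add_right (cc.add_right ((Commute.refl b).mul_right cz')))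
  have f1 : (x + y) * η = x * (y + 1) + 1 + b * x + b * (b * t) := by
    rw [hη]
    simp only [mul_add, add_mul, mul_assoc, hx, hy, hx', hy', h0, h0', h1, h1', h2, h2', mul_one, one_mul]
    apply eq2; match_scalars <;> decide
  have f2 : η' * (x + y) = x * (y + 1) + 1 + b * x + b * (b * t) := by
    have : η' = x + x * (x + y) + b * t * (x + y) := by
      rw [hη']
      simp only [mul_add, add_mul, mul_assoc, hx, hy, hx', hy', h0, h0', h1, h1', h2, h2', mul_one, one_mul]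
      apply eq2; match_scalars <;> decide
    rw [this, add_mul, add_mul, mul_assoc x, mul_assoc (b * t), hb, mul_assoc b, ← ct.eq]
    simp only [mul_add, add_mul, mul_assoc, hx, h1, mul_one, one_mul]
    apply eq2; match_scalars <;> decide
  have f3 : (x * (y + 1)) ^ 2 * (x * y) ^ 3 + 1 = b * ((x + y) * η) := by
    have k : x * (y + 1) * (b * (1 + b * (x * y)) + 1) = b * (x * (y + 1)) + b * (b * t) + x * (y + 1) := by
      rw [ht]
      simp only [mul_add, add_mul, mul_assoc, h1, h1', h2, h2', mul_one, one_mul]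
    rw [e1, e2, f1, add_mul, mul_assoc b, k]
    simp only [mul_add, add_mul, mul_assoc, mul_one, one_mul]
    apply eq2; match_scalars <;> decide
  have f4 : (x + y) ^ 3 = b * (x + y) := by rw [pow_succ, sq, hb]
  rintro (_ | i)
  · refine ⟨η, η', u1, u2, ?_, ?_⟩
    · rw [pow_zero, pow_one, mul_one, f3, f4, f1, ← f2, ← mul_assoc, d2.eq, mul_assoc]
    · rw [pow_zero, pow_one, mul_one, f3, f4, mul_assoc]
  · have := pw (N := ((x * (y + 1)) ^ 2 * (x * y) ^ 3 + 1) ^ 2) (a := 3) (u2.mul u1) (d2.mul_right d1) (by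
      rw [sq, f3]
      calc b * ((x + y) * η) * (b * ((x + y) * η)) = b * (η' * (x + y)) * (b * ((x + y) * η)) := by rw [f1, f2]
        _ = b * η' * ((x + y) * b) * (x + y) * η := by simp only [mul_assoc]
        _ = b * (η' * b) * ((x + y) * (x + y)) * η := by rw [← cc.eq]; simp only [mul_assoc]
        _ = b * b * (η' * b) * η := by rw [← d2.eq, hb, mul_assoc b, mul_assoc b η', ← d2.eq]; simp only [mul_assoc]
        _ = b ^ 3 * (η' * η) := by rw [← d2.eq, pow_succ, sq]; simp only [mul_assoc]) (2 ^ i)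
    rwa [← pow_mul, ← pow_succ', show 2 * 3 * 2 ^ i = 3 * 2 ^ (i + 1) by ring] at this

end ring

omit [Finite V] in
theorem key {c M η η' : AddMonoid.End V} {α : ℕ} (hα : 0 < α) (u : IsUnit η) (u' : IsUnit η') (e' : M = η' * c ^ α)
    (e : M = c ^ α * η) (h0 : M ≠ 0) (h2 : M * M = 0) (hk : ∀ v, M v = 0 → ∃ w, v = M w) :
    c ^ (2 * α) = 0 ∧ c ^ (2 * α - 1) ≠ 0 := by
  constructor
  · have : η' * (c ^ (2 * α) * η) = 0 := by
      rw [two_mul, pow_add, mul_assoc, ← mul_assoc η', ← e, ← e', h2]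
    rwa [u'.mul_right_eq_zero, u.mul_left_eq_zero] at this
  · obtain ⟨β, rfl⟩ := Nat.exists_eq_succ_of_ne_zero hα.ne'
    rw [show 2 * β.succ - 1 = β + 1 + β by omega]
    intro h
    have h1 : ∀ v, ∃ w, (c ^ β) v = (c ^ β) (c w) := fun v => by
      obtain ⟨w, hw⟩ := hk ((c ^ β) v) (by
        change (M * c ^ β) v = 0
        rw [e', mul_assoc, ← pow_add, h, mul_zero]; rfl)
      exact ⟨η w, by rw [hw, e, pow_succ]; rfl⟩
    have h3 : ∀ j v, ∃ w, (c ^ β) v = (c ^ (j + β)) w := fun j => by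
      induction j with
      | zero => exact fun v => ⟨v, by rw [zero_add]⟩
      | succ j ih =>
        intro v
        obtain ⟨w, hw⟩ := ih v
        obtain ⟨w', hw'⟩ := h1 w
        refine ⟨w', ?_⟩
        rw [hw, pow_add, show j + 1 + β = j + β + 1 by omega, pow_succ, pow_add]
        change (c ^ j) ((c ^ β) w) = (c ^ j) ((c ^ β) (c w'))
        rw [hw']
    have h4 : c ^ β = 0 := AddMonoidHom.ext fun v => by
      obtain ⟨w, hw⟩ := h3 (β + 1) v
      rw [h] at hw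
      exact hw
    exact h0 (by rw [e, pow_succ, h4, zero_mul, zero_mul])

theorem inv (h : Md X V) (hO : pCore 2 X = ⊥) [Module (ZMod 2) (AddMonoid.End V)] (δ : X) {N : AddMonoid.End V}
    (hN : N = DistribMulAction.toAddMonoidEnd X V δ + 1) (h0 : N ≠ 0) (hn : IsNilpotent N) :
    ∃ i : ℕ, N ^ 2 ^ i ≠ 0 ∧ N ^ 2 ^ i * N ^ 2 ^ i = 0 ∧ ∀ v, (N ^ 2 ^ i) v = 0 → ∃ w, v = (N ^ 2 ^ i) w := by
  classical
  have ex : ∃ i : ℕ, N ^ 2 ^ i = 0 := by
    obtain ⟨n, hn⟩ := hn
    exact ⟨n, pow_eq_zero_of_le Nat.lt_two_pow_self.le hn⟩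
  have h1 := Nat.find_spec ex
  obtain ⟨i, hi⟩ := Nat.exists_eq_succ_of_ne_zero (n := Nat.find ex) fun e => h0 (by simpa [e] using h1)
  have h2 := Nat.find_min ex (m := i) (by omega)
  rw [hi] at h1
  have e : ∀ j v, (N ^ 2 ^ j) v = δ ^ 2 ^ j • v + v := fun j v => by
    rw [hN, frob, ← map_pow]; rfl
  have e' : ∀ a b : V, a + b = 0 → a = b := fun a b k => by
    rw [← add_zero a, ← h.two b, ← add_assoc, k, zero_add]
  have ht : orderOf (δ ^ 2 ^ i) = 2 := orderOf_eq_prime (by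
      rw [← pow_mul, ← pow_succ]
      exact h.faith hO fun v => e' _ _ (by rw [← e, h1]; rfl)) fun k =>
    h2 (AddMonoidHom.ext fun v => (e i v).trans (by rw [k, one_smul]; exact h.two v))
  refine ⟨i, h2, by rw [← pow_add, ← two_mul, ← pow_succ', h1], fun v hv => ?_⟩
  obtain ⟨w, hw⟩ := h.fr_im hO ht (e' _ _ ((e i v).symm.trans hv))
  exact ⟨w, hw.trans (e i w).symm⟩

end Q1

/-- In `R = End V` (char 2; `AddMonoid.End V` or `Module.End (ZMod 2) V`): `x² = x+1`, `x⁻¹ = x+1` (`cube`), same for `y`. `c := x+y`,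
`b := c² = x+y+xy+yx`. `x c = c y⁻¹`, `y c = c x⁻¹`, `x⁻¹c = c y`, `y⁻¹ c = c x`, so `b` commutes with `x, y`. `u := x y⁻¹`: `u+1 = c y⁻¹`,
`u²+1 = b u`, so `b`, `c` are nilpotent (`(u+1)^(2^k) = 0`). `g := xy`: `g + g⁻¹ = b+1`, `w := g³` has `w+1 = b(1+bg) = c²·η₂`;
`γ := u² w` has `γ+1 = b u (c y⁻¹ + b u g) = c³·η₃`, `η₃ = y⁻¹ x (y⁻¹ + c u g)` (`u c = c y⁻¹ x`). `x, y, c` preserve `ker c^j`, `im c^j`; `η₂, η₃` do too and are
injective (`(y⁻¹ + c r) v = 0`, `v ∈ im c^j` ⇒ `v ∈ im c^(j+1)`), hence bijective on these finite sets. So for `N = c^a η` (`a = 2, 3`):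
`ker N^m = ker c^(am)`, `im N^m = im c^(am)`. If `c^a ≠ 0` take `i` maximal with `c^(a 2^i) ≠ 0`: the group element `δ^(2^i)` (`δ+1 = N`) is an
involution (`faith`, `δ^(2^i)+1 = N^(2^i)`), so `fr_im` gives `ker c^(a2^i) = im c^(a2^i)`. If `ker c^α = im c^α`, `ker c^β = im c^β`, `α < β`, then
`ker c^α ≤ ker c^β = im c^β ≤ im c^α = ker c^α`, so the kernels are stationary from `α` on, `ker c^α = V`, `im c^α = 0 = V`: absurd. As
`2·2^i ≠ 3·2^j`: `c³ = 0` or `b = 0`. If `c³ = 0 ≠ b`: `ker c² = im c²` (`i = 0`), `im c ≤ ker c² = im c²` ⇒ `im c = im c² = im c³ = 0`. So `b = 0`, `u² = 1`. -/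
theorem Md.q1 (h : Md X V) (hO : pCore 2 X = ⊥) {x y : X} (hx : orderOf x = 3) (hy : orderOf y = 3)
    (hu : ∃ k : ℕ, (x * y⁻¹) ^ 2 ^ k = 1) : (x * y⁻¹) ^ 2 = 1 := by
  letI : Module (ZMod 2) (AddMonoid.End V) := AddCommGroup.zmodModule (n := 2) fun r => by
    rw [two_smul]; exact AddMonoidHom.ext fun v => h.two _
  set φ := DistribMulAction.toAddMonoidEnd X V with hφ
  have cb : ∀ {z : X}, orderOf z = 3 → φ z * φ z = φ z + 1 := fun hz => AddMonoidHom.ext fun v => h.cube hz v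
  have iy : φ y⁻¹ = φ y + 1 := by
    rw [← cb hy, ← map_mul]
    congr 1
    rw [inv_eq_iff_mul_eq_one, ← pow_three, ← hy, pow_orderOf_eq_one]
  have eu : φ (x * y⁻¹) = φ x * (φ y + 1) := by rw [map_mul, iy]
  obtain ⟨a1, a2⟩ := Q1.usq (cb hx) (cb hy)
  have uu : IsUnit (φ x * (φ y + 1)) := eu ▸ (Group.isUnit _).map φ
  have o2 : (1 : AddMonoid.End V) + 1 = 0 := AddMonoidHom.ext fun v => h.two v
  have hn : IsNilpotent ((φ x + φ y) * (φ x + φ y)) := by
    obtain ⟨k, hk⟩ := hu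
    refine ⟨2 ^ k, (uu.pow (2 ^ k)).mul_left_eq_zero.1 ?_⟩
    rw [← a2.mul_pow, ← a1, Q1.frob, ← pow_mul, mul_comm, pow_mul, ← eu, ← map_pow, hk, map_one, one_pow, o2]
  have hc : IsNilpotent (φ x + φ y) := IsNilpotent.of_pow (m := 2) (by rwa [sq])
  suffices hb : (φ x + φ y) * (φ x + φ y) = 0 by
    rw [hb, zero_mul, ← eu, ← map_pow] at a1
    refine h.faith hO fun v => ?_
    have k : (x * y⁻¹) ^ 2 • v + v = 0 := DFunLike.congr_fun a1 v
    rw [← add_zero ((x * y⁻¹) ^ 2 • v), ← h.two v, ← add_assoc, k, zero_add]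
  by_contra hb
  obtain ⟨b1, b2⟩ := Q1.alg (cb hx) (cb hy) hn
  obtain ⟨n, hn'⟩ := hc
  have main : ∀ (δ : X) (N : AddMonoid.End V) (a : ℕ), 0 < a → N = φ δ + 1 → (φ x + φ y) ^ a ≠ 0 →
      (∀ i : ℕ, ∃ η η', IsUnit η ∧ IsUnit η' ∧ N ^ 2 ^ i = η' * (φ x + φ y) ^ (a * 2 ^ i) ∧
        N ^ 2 ^ i = (φ x + φ y) ^ (a * 2 ^ i) * η) →
      ∃ i : ℕ, (φ x + φ y) ^ (2 * (a * 2 ^ i)) = 0 ∧ (φ x + φ y) ^ (2 * (a * 2 ^ i) - 1) ≠ 0 := fun δ N a ha e h0 k => by
    obtain ⟨i, k1, k2, k3⟩ := Q1.inv h hO δ e (by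
      obtain ⟨η, -, u, -, -, e⟩ := k 0
      rw [pow_zero, pow_one, mul_one] at e
      rw [e]
      exact mt u.mul_left_eq_zero.1 h0) (by
      obtain ⟨η, -, -, -, -, e⟩ := k n
      exact ⟨_, by rw [e, pow_eq_zero_of_le (Nat.lt_two_pow_self.le.trans (Nat.le_mul_of_pos_left _ ha)) hn', zero_mul]⟩)
    obtain ⟨η, η', u, u', e1, e2⟩ := k i
    exact ⟨i, Q1.key (by positivity) u u' e1 e2 k1 k2 k3⟩
  obtain ⟨i, i1, i2⟩ := main ((x * y) ^ 3) _ 2 two_pos (by rw [map_pow, map_mul]) (by rwa [sq]) fun i => b1 (2 ^ i)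
  have p1 : 0 < 2 ^ i := by positivity
  obtain ⟨j, j1, j2⟩ := main ((x * y⁻¹) ^ 2 * (x * y) ^ 3) _ 3 three_pos (by rw [map_mul, map_pow, map_pow, eu, map_mul])
    (fun e => i2 (pow_eq_zero_of_le (by omega) e)) b2
  have p2 : 0 < 2 ^ j := by positivity
  rcases lt_trichotomy (2 * 2 ^ i) (3 * 2 ^ j) with k | k | k
  · exact j2 (pow_eq_zero_of_le (by omega) i1)
  · have : 3 ∣ 2 ^ (i + 1) := ⟨2 ^ j, by rw [pow_succ', k]⟩
    exact absurd (Nat.prime_three.dvd_of_dvd_pow this) (by norm_num)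
  · exact i2 (pow_eq_zero_of_le (by omega) j1)

end CL.Gg
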