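import Cfsg.Agent.BLK.Gg.Q1

/-!
A 2-group normalized by an element of order 3.
-/

set_option autoImplicit false

namespace CL.Gg

open Subgroup Cfsg CL.MSS
open scoped commutatorElement

universe u v

namespace Q2

section ring
variable {R : Type*} [Ring R] (h2 : ∀ r : R, r + r = 0) {a b d : R}
include h2

theorem r1 (h : a * (b + 1) = b * (a + 1)) :
    a * (a + b) = (a + b) * a + (a + b) := by
  linear_combination (norm := noncomm_ring) h - h2 a

theorem r2 (ha : a * a = a + 1) (hb : b * b = b + 1) (h : a * (b + 1) = b * (a + 1)) :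
    (a + b) * (a + b) = 0 := by
  linear_combination (norm := noncomm_ring) ha + hb + h + h2 1 + h2 b + h2 (b * a)

theorem r3 {c c' : R} (h1 : c * c = 0) (h3 : c' * c' = 0) (h4 : (c + c') * (c + c') = 0) :
    c * c' = c' * c := by
  linear_combination (norm := noncomm_ring) h4 - h1 - h3 - h2 (c' * c)

theorem r4 (ha : a * a = a + 1) (hb : b * b = b + 1) (hd : d * d = d + 1)
    (hab : a * (b + 1) = b * (a + 1)) (had : a * (d + 1) = d * (a + 1))
    (hbd : b * (d + 1) = d * (b + 1)) : (a + b) * (a + d) = (a + d) * (a + b) := by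
  refine r3 h2 (r2 h2 ha hb hab) (r2 h2 ha hd had) ?_
  have : a + b + (a + d) = b + d := by linear_combination (norm := noncomm_ring) h2 a
  rw [this]
  exact r2 h2 hb hd hbd

omit h2 in
theorem r5 {c c' : R} (hc : a * c = c * a + c) (h1 : c * c' = c' * c)
    (h3 : c * (c' * a) = c' * a * c) : a * c * (a * c') = 0 := by
  have h4 : c * c' = 0 := by
    linear_combination (norm := noncomm_ring) h1 - h3 - c' * hc + h1 * a
  have h5 : c * a = a * c - c := by rw [hc]; abel
  rw [mul_assoc, ← mul_assoc c, h5, sub_mul, mul_assoc, h4]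
  simp

end ring

variable {X : Type u} {V : Type v} [Group X] [Finite X] [AddCommGroup V] [Finite V]
  [DistribMulAction X V]

theorem main (h : Md X V) (hO : pCore 2 X = ⊥) {E : Subgroup X} (hE : IsPGroup 2 E) {x : X}
    (hx : orderOf x = 3) (hn : x ∈ normalizer (E : Set X)) :
    ∃ S : Subgroup X, (∀ e ∈ E, ⁅e, x⁆ ∈ S) ∧
      (∀ s ∈ S, ∀ t ∈ S, ∀ v : V, s • (t • v + v) = t • v + v) ∧
      ∀ t ∈ S, x * t = t * x → ∀ v : V, t • v = v := by
  let φ := DistribMulAction.toAddMonoidEnd X V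
  have hφ : ∀ g v, φ g v = g • v := fun _ _ => rfl
  have h2 : ∀ r : AddMonoid.End V, r + r = 0 := fun r => AddMonoidHom.ext fun v => h.two _
  have hsq : ∀ y, orderOf y = 3 → φ y * φ y = φ y + 1 := fun y hy =>
    AddMonoidHom.ext fun v => h.cube hy v
  have hinv : ∀ y, orderOf y = 3 → φ y⁻¹ = φ y + 1 := fun y hy => by
    have h3 : y⁻¹ = y * y := by
      rw [inv_eq_iff_mul_eq_one, ← pow_three, ← hy, pow_orderOf_eq_one]
    rw [h3, map_mul, hsq y hy]
  have hrel : ∀ y z, orderOf y = 3 → orderOf z = 3 → y * z⁻¹ ∈ E →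
      φ y * (φ z + 1) = φ z * (φ y + 1) := by
    intro y z hy hz hyz
    obtain ⟨k, hk⟩ := hE ⟨_, hyz⟩
    have h1 := h.q1 hO hy hz ⟨k, congrArg Subtype.val hk⟩
    have h3 : y * z⁻¹ = z * y⁻¹ := by
      rw [pow_two, mul_eq_one_iff_eq_inv] at h1
      rw [h1]; group
    rw [← hinv y hy, ← hinv z hz, ← map_mul, h3, map_mul]
  have hxe : ∀ e ∈ E, x * e * x⁻¹ ∈ E := fun e he => (mem_normalizer_iff.1 hn e).1 he
  have hy : ∀ e : X, orderOf (e * x * e⁻¹) = 3 := fun e => by
    rw [← hx]; exact (SemiconjBy.orderOf_eq e (x := x) (y := e * x * e⁻¹) (by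
      unfold SemiconjBy; group)).symm
  have hu : ∀ e ∈ E, x * (e * x * e⁻¹)⁻¹ ∈ E := fun e he => by
    have := E.mul_mem (hxe e he) (E.inv_mem he)
    convert this using 1; group
  have huu : ∀ e ∈ E, ∀ f ∈ E, (e * x * e⁻¹) * (f * x * f⁻¹)⁻¹ ∈ E := fun e he f hf => by
    have := E.mul_mem (E.inv_mem (hu e he)) (hu f hf)
    convert this using 1; group
  have hR1 : ∀ e ∈ E, φ x * (φ x + φ (e * x * e⁻¹)) =
      (φ x + φ (e * x * e⁻¹)) * φ x + (φ x + φ (e * x * e⁻¹)) := fun e he =>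
    r1 h2 (hrel _ _ hx (hy e) (hu e he))
  have hcm : ∀ e ∈ E, ∀ f ∈ E, (φ x + φ (e * x * e⁻¹)) * (φ x + φ (f * x * f⁻¹)) =
      (φ x + φ (f * x * f⁻¹)) * (φ x + φ (e * x * e⁻¹)) := fun e he f hf =>
    r4 h2 (hsq x hx) (hsq _ (hy e)) (hsq _ (hy f)) (hrel _ _ hx (hy e) (hu e he))
      (hrel _ _ hx (hy f) (hu f hf)) (hrel _ _ (hy e) (hy f) (huu e he f hf))
  have hcj : ∀ f ∈ E, φ x + φ ((x * f * x⁻¹) * x * (x * f * x⁻¹)⁻¹) =
      (φ x + φ (f * x * f⁻¹)) * φ x := fun f hf => by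
    have h1 : (x * f * x⁻¹) * x * (x * f * x⁻¹)⁻¹ = x * (f * x * f⁻¹) * x⁻¹ := by group
    rw [h1, map_mul, map_mul φ x, hinv x hx]
    have h3 := hR1 f hf
    have h4 := hsq x hx
    generalize φ (f * x * f⁻¹) = d at h3 ⊢
    generalize φ x = a at h3 h4 ⊢
    linear_combination (norm := noncomm_ring) h3 * (a + 1) + d * h4 + h2 (d * a) + h2 d
      + h2 a - h2 1 + h2 1
  have hgen : ∀ e ∈ E, φ ⁅e, x⁆ + 1 = φ x * (φ x + φ (e * x * e⁻¹)) := fun e he => by
    rw [commutatorElement_def, map_mul, hinv x hx, ← hrel _ _ hx (hy e) (hu e he), mul_add,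
      mul_add, hsq x hx]
    noncomm_ring
  let C : AddSubgroup (AddMonoid.End V) := AddSubgroup.closure {r | ∃ e ∈ E, r = φ ⁅e, x⁆ + 1}
  have hC : ∀ m ∈ C, ∀ n ∈ C, m * n = 0 := by
    intro m hm n hn'
    induction hm, hn' using AddSubgroup.closure_induction₂ with
    | mem m n hm hn' =>
      obtain ⟨e, he, rfl⟩ := hm
      obtain ⟨f, hf, rfl⟩ := hn'
      rw [hgen e he, hgen f hf]
      refine r5 (hR1 e he) (hcm e he f hf) ?_
      rw [← hcj f hf]
      exact hcm e he _ (hxe f hf)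
    | zero_left => exact zero_mul _
    | zero_right => exact mul_zero _
    | add_left _ _ _ _ _ _ h1 h3 => rw [add_mul, h1, h3, add_zero]
    | add_right _ _ _ _ _ _ h1 h3 => rw [mul_add, h1, h3, add_zero]
    | neg_left _ _ _ _ h1 => rw [neg_mul, h1, neg_zero]
    | neg_right _ _ _ _ h1 => rw [mul_neg, h1, neg_zero]
  have hC' : ∀ n ∈ C, φ x * n = n * φ x + n := by
    intro n hn'
    induction hn' using AddSubgroup.closure_induction with
    | mem n hn' =>
      obtain ⟨e, he, rfl⟩ := hn'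
      rw [hgen e he]
      linear_combination (norm := noncomm_ring) φ x * hR1 e he
    | zero => simp
    | add _ _ _ _ h1 h3 => linear_combination (norm := noncomm_ring) h1 + h3
    | neg _ _ h1 => linear_combination (norm := noncomm_ring) -h1
  have hmul : ∀ s t, φ s + 1 ∈ C → φ t + 1 ∈ C → φ (s * t) + 1 = (φ s + 1) + (φ t + 1) := by
    intro s t hs ht
    rw [map_mul]
    linear_combination (norm := noncomm_ring) hC _ hs _ ht - h2 (φ s) - h2 (φ t) - h2 1
  let S : Subgroup X :=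
    { carrier := {t | φ t + 1 ∈ C}
      one_mem' := by
        change φ 1 + 1 ∈ C
        rw [map_one, h2]; exact C.zero_mem
      mul_mem' := fun {s t} hs ht => by
        change φ (s * t) + 1 ∈ C
        rw [hmul s t hs ht]; exact C.add_mem hs ht
      inv_mem' := fun {t} ht => by
        change φ t⁻¹ + 1 ∈ C
        have h1 := hmul t t ht ht
        rw [h2, map_mul] at h1
        have h3 : φ t⁻¹ = φ t := by
          have h4 : φ t⁻¹ * φ t = 1 := by rw [← map_mul, inv_mul_cancel, map_one]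
          linear_combination (norm := noncomm_ring) h4 * φ t - φ t⁻¹ * h1 + h2 (φ t⁻¹)
        rw [h3]; exact ht }
  refine ⟨S, fun e he => AddSubgroup.subset_closure ⟨e, he, rfl⟩, fun s hs t ht v => ?_,
    fun t ht hc v => ?_⟩
  · have h1 : s • (t • v + v) + (t • v + v) = 0 := DFunLike.congr_fun (hC _ hs _ ht) v
    exact add_right_cancel (h1.trans (h.two _).symm)
  · have h1 := hC' _ ht
    have h3 : φ x * φ t = φ t * φ x := by rw [← map_mul, hc, map_mul]
    have h4 : φ t + 1 = 0 := by linear_combination (norm := noncomm_ring) h3 - h1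
    have h5 : t • v + v = 0 := DFunLike.congr_fun h4 v
    exact add_right_cancel (h5.trans (h.two _).symm)

omit [Finite V] in
theorem comm_le {E S : Subgroup X} {x : X} (hn : x ∈ normalizer (E : Set X))
    (h : ∀ e ∈ E, ⁅e, x⁆ ∈ S) : ⁅E, zpowers x⁆ ≤ S := by
  refine commutator_le.2 fun e he y hy => ?_
  obtain ⟨n, rfl⟩ := (Submonoid.mem_powers_iff _ _).1 (mem_powers_iff_mem_zpowers.2 hy)
  clear hy
  induction n generalizing e with
  | zero => simp
  | succ n ih =>
    have := S.mul_mem (h e he) (ih _ ((mem_normalizer_iff.1 hn e).1 he))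
    convert this using 1
    simp only [commutatorElement_def]
    group

end Q2

variable {X : Type u} {V : Type v} [Group X] [Finite X] [AddCommGroup V] [Finite V]
  [DistribMulAction X V]

theorem Md.q2_le (h : Md X V) (hO : pCore 2 X = ⊥) {E : Subgroup X} (hE : IsPGroup 2 E) {x : X}
    (hx : orderOf x = 3) (hn : x ∈ normalizer (E : Set X)) {t : X} (ht : t ∈ ⁅E, zpowers x⁆)
    (h1 : t ≠ 1) : orderOf t = 2 ∧ ⁅E, zpowers x⁆ ≤ At V t := by
  obtain ⟨S, hS, hS1, -⟩ := Q2.main h hO hE hx hn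
  have hle := Q2.comm_le hn hS
  have h2 : orderOf t = 2 := by
    refine orderOf_eq_prime (h.faith hO fun v => ?_) h1
    have h3 := hS1 t (hle ht) t (hle ht) v
    rw [smul_add, add_comm (t • v) v] at h3
    rw [pow_two, mul_smul]
    exact add_right_cancel h3
  refine ⟨h2, fun s hs => h.mem_At_of hO h2 fun v => ?_⟩
  have h3 : t • v - v = t • v + v := by
    rw [sub_eq_add_neg, neg_eq_of_add_eq_zero_right (h.two v)]
  rw [h3]
  exact hS1 s (hle hs) t (hle ht) v

/-- `x` and `E` normalize `Q`, so `g t g⁻¹ ∈ Q ≤ At V t`; `At_TI`. -/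
theorem Md.q2_norm (h : Md X V) (hO : pCore 2 X = ⊥) {E : Subgroup X} (hE : IsPGroup 2 E) {x : X}
    (hx : orderOf x = 3) (hn : x ∈ normalizer (E : Set X)) {t : X} (ht : t ∈ ⁅E, zpowers x⁆)
    (h1 : t ≠ 1) : x ∈ normalizer (At V t : Set X) ∧ E ≤ normalizer (At V t : Set X) := by
  obtain ⟨h2, hle⟩ := h.q2_le hO hE hx hn ht h1
  exact ⟨h.At_TI hO h2 (self_mem_At t) h1 (hle ((mem_normalizer_iff.1
      (normalizer_commutator_ge_right E (zpowers x) (mem_zpowers x)) t).1 ht)),
    fun g hg => h.At_TI hO h2 (self_mem_At t) h1 (hle ((mem_normalizer_iff.1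
      (normalizer_commutator_ge_left E (zpowers x) hg) t).1 ht))⟩

/-- `t = 1 + n`, `x n = n x + n`. -/
theorem Md.q2_fpf (h : Md X V) (hO : pCore 2 X = ⊥) {E : Subgroup X} (hE : IsPGroup 2 E) {x : X}
    (hx : orderOf x = 3) (hn : x ∈ normalizer (E : Set X)) {t : X} (ht : t ∈ ⁅E, zpowers x⁆)
    (hc : x * t = t * x) : t = 1 := by
  obtain ⟨S, hS, -, hS2⟩ := Q2.main h hO hE hx hn
  exact h.faith hO (hS2 t (Q2.comm_le hn hS ht) hc)

end CL.Gg
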