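import Cfsg.Agent.BLK.Gg.SLa
import Cfsg.Agent.BLK.Gg.X3
import Cfsg.Agent.S2602
import Cfsg.Agent.S2117
import Cfsg.Agent.FGS.SchurHopf
import Cfsg.Agent.KSG.KOutAbs

/-!
Automorphisms and multiplier of `SL₂(2^k)`.
-/

set_option autoImplicit false

namespace CL.Gg

open Subgroup Cfsg CL.MSS

universe u v

variable {Y : Type u} [Group Y] [Finite Y]

namespace SLc

theorem cen {L : Type*} [Group L] (h : IsSimpleGroup L ∧ ¬ IsMulCommutative L) : center L = ⊥ := by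
  have := h.1
  refine (IsSimpleGroup.eq_bot_or_eq_top_of_normal (center L) inferInstance).resolve_right fun e => h.2 ?_
  exact ⟨⟨fun a b => mem_center_iff.1 (e ▸ mem_top b : b ∈ center L) a⟩⟩

theorem hom {L : Type u} [Group L] [Finite L] {F : Type} [Field F] [Fintype F] {k : ℕ} (hk : 2 ≤ k)
    (hF : Fintype.card F = 2 ^ k) (e : L ≃* Matrix.SpecialLinearGroup (Fin 2) F) :
    ∃ ψ : MulAut L →* Multiplicative (ZMod k), ∀ a, ψ a = 1 → ∃ l, MulAut.conj l = a := by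
  have hc : center (Matrix.SpecialLinearGroup (Fin 2) F) = ⊥ :=
    cen (L2e.simple ⟨F, inferInstance, inferInstance, k, hk, hF, ⟨MulEquiv.refl _⟩⟩)
  let e' : L ≃* Matrix.ProjectiveSpecialLinearGroup (Fin 2) F :=
    e.trans ((QuotientGroup.quotientMulEquivOfEq hc).trans QuotientGroup.quotientBot).symm
  obtain ⟨φ, -, -, h⟩ := Cfsg.Agent.S2602.result (F := F) (p := 2) (f := k) (by omega) hF
    (by simpa using Nat.pow_le_pow_right two_pos hk)
  have h1 : Nat.gcd 2 (2 ^ k - 1) = 1 := by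
    obtain ⟨j, rfl⟩ := Nat.exists_eq_add_of_le hk
    have : 0 < 2 ^ j := by positivity
    refine Nat.coprime_two_left.2 ⟨2 * 2 ^ j - 1, ?_⟩
    rw [pow_add]; omega
  rw [h1, Subgroup.card_eq_one] at h
  refine ⟨(φ.comp (CL.KOut.outEquiv e').toMonoidHom).comp (QuotientGroup.mk' _), fun a ha => ?_⟩
  have h2 : CL.KOut.outEquiv e' (a : Out L) ∈ φ.ker := ha
  rw [h, mem_bot, MulEquiv.map_eq_one_iff, QuotientGroup.eq_one_iff] at h2
  exact h2

omit [Finite Y] in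
theorem cent {L : Subgroup Y} [L.Normal] {u : Y} {l : L} (h : MulAut.conj l = MulAut.conjNormal u) :
    (l : Y)⁻¹ * u ∈ centralizer (L : Set Y) := fun x hx => by
  have := congrArg (fun a : MulAut L => (a ⟨x, hx⟩ : Y)) h
  simp only [MulAut.conj_apply, coe_mul, coe_inv, MulAut.conjNormal_apply] at this
  calc x * ((l : Y)⁻¹ * u) = (l : Y)⁻¹ * (l * x * (l : Y)⁻¹) * u := by group
    _ = (l : Y)⁻¹ * u * x := by rw [this]; group

theorem inner (L : Subgroup Y) [L.Normal] (hL : L2o L) {u : Y} (hu : ∃ k : ℕ, u ^ 2 ^ k = 1) :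
    ∃ l ∈ L, (∃ k : ℕ, l ^ 2 ^ k = 1) ∧ l⁻¹ * u ∈ centralizer (L : Set Y) := by
  have hc := cen hL.l2e.simple
  obtain ⟨F, _, _, k, ho, hk, hF, ⟨e⟩⟩ := hL
  obtain ⟨j, hj⟩ := hu
  obtain ⟨ψ, hψ⟩ := hom (by omega) hF e
  have : NeZero k := ⟨by omega⟩
  have h1 : ψ (MulAut.conjNormal u) = 1 := by
    refine orderOf_eq_one_iff.1 (Nat.eq_one_of_dvd_coprimes (a := 2 ^ j) (b := k)
      ((Nat.coprime_two_left.2 ho).pow_left j) (orderOf_dvd_of_pow_eq_one ?_) ?_)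
    · rw [← map_pow, ← map_pow, hj, map_one, map_one]
    · simpa using orderOf_dvd_natCard (ψ (MulAut.conjNormal u))
  obtain ⟨l, hl⟩ := hψ _ h1
  refine ⟨l, l.2, ⟨j, ?_⟩, cent hl⟩
  have h2 : l ^ 2 ^ j ∈ center L := by
    have h3 : MulAut.conj (l ^ 2 ^ j) = 1 := by rw [map_pow, hl, ← map_pow, hj, map_one]
    refine mem_center_iff.2 fun x => ?_
    have := congrArg (fun a : MulAut L => a x) h3
    simp only [MulAut.conj_apply, MulAut.one_apply] at this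
    exact (mul_inv_eq_iff_eq_mul.1 this).symm
  rw [hc, mem_bot] at h2
  exact congrArg Subtype.val h2

end SLc

/-- `u` induces an automorphism of `L` of 2-power order; `Out(L)` has odd order `k` (S2602 with `PSL₂ ≅ SL₂`, e.g. `CL.Zass.nonempty_pgl_equiv_of_char_two`
or `center = ⊥`), so it is conjugation by `l ∈ L`, a 2-element (`Z(L) = 1`) centralizing `x`, so `l = 1` (`L2e.cent3`). -/
theorem L2o.out (L : Subgroup Y) [L.Normal] (hL : L2o L) {u x : Y} (hu : ∃ k : ℕ, u ^ 2 ^ k = 1)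
    (hxL : x ∈ L) (hx : orderOf x = 3) (hc : u * x = x * u) : u ∈ centralizer (L : Set Y) := by
  obtain ⟨l, hl, ⟨j, hj⟩, h⟩ := SLc.inner L hL hu
  have h1 : l * x = x * l := by
    have := h x hxL
    calc l * x = l * (x * (l⁻¹ * u)) * u⁻¹ * l := by group
      _ = x * l := by rw [this, ← mul_assoc, ← mul_assoc, mul_inv_cancel, one_mul, hc]; group
  have h2 := hL.l2e.cent3 (x := ⟨x, hxL⟩) (u := ⟨l, hl⟩) ((orderOf_mk x hxL).trans hx)
    ⟨j, Subtype.ext hj⟩ (Subtype.ext h1)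
  rw [show l = 1 from congrArg Subtype.val h2, inv_one, one_mul] at h
  exact h

/-- Same first step: a 2-element induces an inner automorphism. -/
theorem L2o.inner (L : Subgroup Y) [L.Normal] (hL : L2o L) {u : Y} (hu : ∃ k : ℕ, u ^ 2 ^ k = 1) :
    ∃ l ∈ L, (∃ k : ℕ, l ^ 2 ^ k = 1) ∧ l⁻¹ * u ∈ centralizer (L : Set Y) := SLc.inner L hL hu

/-- `Y ⧸ Z` is perfect so `Y = Y' Z`; `Y ⧸ Y'` is a 2-group generated by images of elements of order 3, so `Y` is perfect; S2117 (`q ≠ 4, 9`)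
or `CL.Acd.card_ker_le`. -/
theorem L2o.schur (h3 : X3 (⊤ : Subgroup Y) = ⊤) (Z : Subgroup Y) [Z.Normal] (hZ : IsPGroup 2 Z)
    (hc : Z ≤ center Y) (hL : L2o (Y ⧸ Z)) : Z = ⊥ := by
  obtain ⟨hs, hn⟩ := hL.l2e.simple
  have p1 : commutator (Y ⧸ Z) = ⊤ :=
    (IsSimpleGroup.eq_bot_or_eq_top_of_normal (commutator (Y ⧸ Z)) inferInstance).resolve_left fun e =>
      hn ⟨⟨fun a b => mem_center_iff.1
        (((commutator_eq_bot_iff_center_eq_top _).1 e) ▸ mem_top b : b ∈ center (Y ⧸ Z)) a⟩⟩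
  have p2 : (commutator Y).map (QuotientGroup.mk' Z) = ⊤ := by
    rw [_root_.commutator_def, map_commutator, map_top_of_surjective _ (QuotientGroup.mk'_surjective Z)]
    exact p1
  have p3 : commutator Y = ⊤ := by
    rw [eq_top_iff, ← h3, X3, closure_le]
    rintro x ⟨-, hx⟩
    obtain ⟨c, hc', e⟩ := (p2 ▸ mem_top (x : Y ⧸ Z) : (x : Y ⧸ Z) ∈ (commutator Y).map (QuotientGroup.mk' Z))
    obtain ⟨j, hj⟩ := hZ ⟨c⁻¹ * x, QuotientGroup.eq.1 e⟩
    have e1 : (x : Y ⧸ commutator Y) = ((c⁻¹ * x : Y) : Y ⧸ commutator Y) := by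
      rw [QuotientGroup.mk_mul, (QuotientGroup.eq_one_iff _).2 (inv_mem hc'), one_mul]
    refine (QuotientGroup.eq_one_iff x).1 (orderOf_eq_one_iff.1 (Nat.eq_one_of_dvd_coprimes (a := 2 ^ j) (b := 3)
      (Nat.Coprime.pow_left j (by norm_num)) (orderOf_dvd_of_pow_eq_one ?_) ?_))
    · rw [e1, ← QuotientGroup.mk_pow, show (c⁻¹ * x) ^ 2 ^ j = 1 from congrArg Subtype.val hj]; rfl
    · exact hx ▸ orderOf_map_dvd (QuotientGroup.mk' _) x
  obtain ⟨F, _, _, k, ho, hk, hF, ⟨e⟩⟩ := hL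
  have k8 : 2 ^ 3 ≤ 2 ^ k := Nat.pow_le_pow_right two_pos hk
  have hker : (e.toMonoidHom.comp (QuotientGroup.mk' Z)).ker = Z := by
    ext y
    simp
  obtain ⟨φ, hφ⟩ := CL.Schur.exists_surj_ker (Cfsg.Agent.S2117.result (F := F) (by omega) (by
      rw [hF]; intro h9
      have : 2 ∣ 2 ^ k := dvd_pow_self 2 (by omega)
      omega)) (ξ := e.toMonoidHom.comp (QuotientGroup.mk' Z))
    ⟨e.surjective.comp (QuotientGroup.mk'_surjective Z), hker.le.trans hc, p3 ▸ le_top⟩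
  have := hφ.subsingleton
  rw [← hker]
  exact eq_bot_of_subsingleton _

/-- `Y ⧸ (L C(L))` embeds in `Out(L)`, cyclic by S2602 (kernel of order `gcd(2, 2^k-1) = 1`). -/
theorem L2e.cyc (L : Subgroup Y) [L.Normal] (hL : L2e L) (hC : centralizer (L : Set Y) = ⊥) :
    ∃ y : Y, L ⊔ zpowers y = ⊤ := by
  obtain ⟨F, _, _, k, hk, hF, ⟨e⟩⟩ := hL
  obtain ⟨ψ, hψ⟩ := SLc.hom hk hF e
  let χ : Y →* Multiplicative (ZMod k) := ψ.comp MulAut.conjNormal
  obtain ⟨⟨_, y, rfl⟩, hy⟩ := IsCyclic.exists_generator (α := χ.range)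
  refine ⟨y, eq_top_iff.2 fun g _ => ?_⟩
  obtain ⟨n, hn⟩ := hy ⟨χ g, g, rfl⟩
  have h1 : χ (g * (y ^ n)⁻¹) = 1 := by
    rw [map_mul, map_inv, map_zpow, show χ y ^ n = χ g from congrArg Subtype.val hn, mul_inv_cancel]
  obtain ⟨l, hl⟩ := hψ _ h1
  have h2 := SLc.cent hl
  rw [hC, mem_bot, inv_mul_eq_one] at h2
  rw [← inv_mul_cancel_right g (y ^ n), ← h2]
  exact mul_mem_sup l.2 ⟨n, rfl⟩

end CL.Gg
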