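import Cfsg.Agent.BLK.Gg.Odd
import Cfsg.Agent.BLK.Gg.X3
import Cfsg.Agent.FGS.CoprimeIndex
import Cfsg.Agent.SPOR.TTBasic
import Cfsg.Agent.SOLV.CoprimeSylow
import Cfsg.Agent.SOLV.Fitting
import Cfsg.Agent.BLK.Go.CompB

/-!
Structure of groups generated by elements of order 3.
-/

set_option autoImplicit false

namespace CL.Gg

open Subgroup Cfsg CL.MSS
open scoped commutatorElement

universe u v

variable {X : Type u} {V : Type v} [Group X] [Finite X] [AddCommGroup V] [Finite V]
  [DistribMulAction X V]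

namespace Strx

theorem top_le_of {X : Type u} [Group X] (h3 : X3 (⊤ : Subgroup X) = ⊤) {K : Subgroup X}
    (hK : ∀ x : X, orderOf x = 3 → x ∈ K) : K = ⊤ := by
  rw [eq_top_iff, ← h3]
  exact (closure_le K).2 fun x hx => hK x hx.2

theorem not_dvd (h : Md X V) (h3 : X3 (⊤ : Subgroup X) = ⊤)
    (N : Subgroup X) [hNn : N.Normal] (hN : N ≠ ⊤) : ¬ 3 ∣ Nat.card N := by
  intro hd
  have : Fact (Nat.Prime 3) := ⟨by norm_num⟩
  obtain ⟨y, hy⟩ := exists_prime_orderOf_dvd_card' 3 hd
  have oy : orderOf (y : X) = 3 := by rw [Subgroup.orderOf_coe, hy]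
  apply hN
  apply top_le_of h3
  intro x ox
  obtain ⟨g, -, hg⟩ := h.conj3 ⊤ (mem_top (y : X)) (mem_top x) oy ox
  have hm : g * y * g⁻¹ ∈ N := hNn.conj_mem _ y.2 g
  rcases hg with hg | hg
  · rwa [hg] at hm
  · rw [hg] at hm
    exact (inv_mem_iff).1 hm

theorem cent (h : Md X V) (hO : pCore 2 X = ⊥) (N : Subgroup X) [hNn : N.Normal]
    (hd : ¬ 3 ∣ Nat.card N) {x : X} (ox : orderOf x = 3) : x ∈ centralizer (N : Set X) := by
  have hAK : zpowers x ≤ normalizer (N : Set X) := by
    rw [normalizer_eq_top]; exact le_top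
  have hcop : (Nat.card (zpowers x)).Coprime (Nat.card N) := by
    rw [Nat.card_zpowers, ox]
    exact (Nat.Prime.coprime_iff_not_dvd (by norm_num)).2 hd
  have hsol : Group.IsSolvable (zpowers x) := by
    refine Group.isSolvable_of_comm ?_
    intro a b
    exact Subtype.ext (by
      obtain ⟨m, hm⟩ := mem_zpowers_iff.1 a.2
      obtain ⟨n, hn⟩ := mem_zpowers_iff.1 b.2
      simp only [Subgroup.coe_mul, ← hm, ← hn, ← zpow_add, add_comm])
  have hsyl := fun (p : ℕ) [Fact p.Prime] =>
    CL.coprime_exists_invariant_sylow (zpowers x) N hAK hcop (Or.inl hsol) p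
  have : Fact (Nat.Prime 2) := ⟨Nat.prime_two⟩
  obtain ⟨T, hT⟩ := hsyl 2
  set B : Subgroup N := (centralizer (zpowers x : Set X)).subgroupOf N with hB
  have hco : (T : Subgroup N).index.Coprime B.index := by
    apply Nat.Coprime.symm
    rw [Nat.coprime_iff_gcd_eq_one]
    by_contra hne
    obtain ⟨r, hr, hrd⟩ := Nat.exists_prime_and_dvd hne
    have : Fact r.Prime := ⟨hr⟩
    have h1 : r ∣ B.index := hrd.trans (Nat.gcd_dvd_left _ _)
    have h2 : r ∣ (T : Subgroup N).index := hrd.trans (Nat.gcd_dvd_right _ _)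
    by_cases hr2 : r = 2
    · subst hr2
      exact T.not_dvd_index h2
    · obtain ⟨P, hP⟩ := hsyl r
      have hc := h.cent3 hr2 ((P : Subgroup N).map N.subtype) (P.2.map _) ox (hP (mem_zpowers x))
      have hle : (P : Subgroup N) ≤ B := by
        intro a ha
        rw [hB, mem_subgroupOf, mem_centralizer_iff]
        intro y hy
        obtain ⟨m, rfl⟩ := mem_zpowers_iff.1 hy
        have := (mem_centralizer_iff.1 hc) a ⟨a, ha, rfl⟩
        exact ((Commute.zpow_right (show Commute (a : X) x from this) m)).symm.eq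
      exact P.not_dvd_index (h1.trans (index_dvd_of_le hle))
  have hcomm : ⁅N, zpowers x⁆ ≤ (T : Subgroup N).map N.subtype := by
    rw [commutator_le]
    intro n hn y hy
    obtain ⟨a, ha, b, hb, hab⟩ := CL.exists_mul_eq_of_coprime_index (T : Subgroup N) B hco ⟨n, hn⟩
    have hab' : n = (a : X) * b := congrArg Subtype.val hab
    have hb' : y * b = b * y := by
      rw [hB, mem_subgroupOf, mem_centralizer_iff] at hb
      exact hb y hy
    have ha' : (a : X) ∈ (T : Subgroup N).map N.subtype := ⟨a, ha, rfl⟩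
    have e : ⁅n, y⁆ = a * (y * (a : X)⁻¹ * y⁻¹) := by
      rw [commutatorElement_def, hab']
      calc (a : X) * b * y * ((a : X) * b)⁻¹ * y⁻¹ = a * ((b * y) * (b : X)⁻¹) * (a : X)⁻¹ * y⁻¹ := by
            group
        _ = a * (y * (a : X)⁻¹ * y⁻¹) := by rw [← hb']; group
    rw [e]
    exact mul_mem ha' ((mem_normalizer_iff.1 (hT hy) _).1 (inv_mem ha'))
  have hbot : ⁅N, zpowers x⁆ = ⊥ := by
    rw [eq_bot_iff, ← hO]
    refine CL.TT.le_pCore_of_le_normal (K := N) (commutator_le_left _ _)
      (normalizer_commutator_ge_left _ _) ?_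
    exact (T.2.map N.subtype).to_le hcomm
  rw [commutator_eq_bot_iff_le_centralizer] at hbot
  rw [mem_centralizer_iff]
  intro n hn
  exact ((mem_centralizer_iff.1 (hbot hn)) x (mem_zpowers x)).symm

end Strx

theorem Md.normal_central (h : Md X V) (hO : pCore 2 X = ⊥) (h3 : X3 (⊤ : Subgroup X) = ⊤)
    (N : Subgroup X) [N.Normal] (hN : N ≠ ⊤) : N ≤ center X := by
  have hd := Strx.not_dvd h h3 N hN
  have ht : centralizer (N : Set X) = ⊤ :=
    Strx.top_le_of h3 fun x ox => Strx.cent h hO N hd ox
  intro n hn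
  rw [mem_center_iff]
  intro g
  have hg : g ∈ centralizer (N : Set X) := ht ▸ mem_top g
  exact ((mem_centralizer_iff.1 hg) n hn).symm

theorem Md.str (h : Md X V) (hO : pCore 2 X = ⊥) (h3 : X3 (⊤ : Subgroup X) = ⊤) [Nontrivial X] :
    Nat.card X = 3 ∨ (IsSimpleGroup X ∧ ¬ IsMulCommutative X) := by
  have : Fact (Nat.Prime 3) := ⟨by norm_num⟩
  by_cases hc : IsMulCommutative X
  · left
    have hex : ∃ y : X, orderOf y = 3 := by
      by_contra hne
      have : (⊥ : Subgroup X) = ⊤ := Strx.top_le_of h3 fun x ox => absurd ⟨x, ox⟩ hne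
      exact bot_ne_top this
    obtain ⟨y, oy⟩ := hex
    have ht : zpowers y = ⊤ := by
      apply Strx.top_le_of h3
      intro x ox
      obtain ⟨g, -, hg⟩ := h.conj3 ⊤ (mem_top y) (mem_top x) oy ox
      have e : g * y * g⁻¹ = y := by rw [hc.is_comm.comm g y]; group
      rw [e] at hg
      rcases hg with hg | hg
      · exact hg ▸ mem_zpowers y
      · have : x = y⁻¹ := by rw [hg, inv_inv]
        rw [this]; exact inv_mem (mem_zpowers y)
    rw [← oy, ← Nat.card_zpowers, ht, card_top]
  · right
    refine ⟨?_, hc⟩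
    have hperf : commutator X = ⊤ := by
      by_contra hne
      have hle := h.normal_central hO h3 (commutator X) hne
      have : Group.IsNilpotent X :=
        Subgroup.isNilpotent_of_ker_le_center (Abelianization.of (G := X))
          (by rw [Abelianization.ker_of]; exact hle)
      obtain ⟨P⟩ : Nonempty (Sylow 3 X) := inferInstance
      have hPn : (P : Subgroup X).Normal := inferInstance
      have hP : (P : Subgroup X) = ⊤ := by
        apply Strx.top_le_of h3
        intro x ox
        have hx : IsPGroup 3 (zpowers x) :=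
          IsPGroup.of_card (n := 1) (by rw [Nat.card_zpowers, ox, pow_one])
        obtain ⟨Q, hQ⟩ := hx.exists_le_sylow
        have := Sylow.unique_of_normal P hPn
        rw [Subsingleton.elim P Q]
        exact hQ (mem_zpowers x)
      have hcy := h.cyclic (r := 3) (by norm_num) (P : Subgroup X) P.2
      rw [hP] at hcy
      apply hc
      have : IsCyclic X := isCyclic_of_surjective (⊤ : Subgroup X).subtype
        (fun g => ⟨⟨g, mem_top g⟩, rfl⟩)
      exact IsCyclic.isMulCommutative
    have hp : Group.IsPerfect X := ⟨hperf⟩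
    have hZ : center X = ⊥ := by
      by_contra hne
      have hcard : Nat.card (center X) ≠ 1 := fun e => hne (Subgroup.card_eq_one.1 e)
      obtain ⟨r, hr, hrd⟩ := Nat.exists_prime_and_dvd hcard
      have : Fact r.Prime := ⟨hr⟩
      obtain ⟨z, hz⟩ := exists_prime_orderOf_dvd_card' r hrd
      have oz : orderOf (z : X) = r := by rw [Subgroup.orderOf_coe, hz]
      have hz1 : (z : X) ≠ 1 := by
        intro e; rw [e, orderOf_one] at oz; exact hr.one_lt.ne oz
      have hpz : IsPGroup r (zpowers (z : X)) :=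
        IsPGroup.of_card (n := 1) (by rw [Nat.card_zpowers, oz, pow_one])
      by_cases hr2 : r = 2
      · subst hr2
        have : (zpowers (z : X)).Normal := by
          refine ⟨fun a ha g => ?_⟩
          have hac : a ∈ center X := (zpowers_le.2 z.2) ha
          rw [mem_center_iff.1 hac g]
          simpa using ha
        have := CL.le_pCore hpz (mem_zpowers (z : X))
        rw [hO] at this
        exact hz1 (mem_bot.1 this)
      · obtain ⟨P, hP⟩ := hpz.exists_le_sylow
        exact hz1 (CL.Go.CompB.cen_eq_one hp P (h.cyclic hr2 _ P.2) z.2 (hP (mem_zpowers _)))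
    refine ⟨fun N hN => ?_⟩
    by_cases hT : N = ⊤
    · exact Or.inr hT
    · left
      rw [eq_bot_iff, ← hZ]
      exact h.normal_central hO h3 N hT

end CL.Gg
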