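import Cfsg.Agent.BLK.Gg.Ar
import Cfsg.Agent.BLK.Gg.SLc
import Cfsg.Agent.BLK.Gg.SLa
import Cfsg.Agent.BLK.Gg.Bas
import Cfsg.Agent.CLAS.SLBasic

/-!
From `L ≅ SL₂(2^k)` to the structure of the transitive group.
-/

set_option autoImplicit false

namespace CL.Gg

open Subgroup Cfsg CL.MSS

universe u v

variable {X : Type u} {V : Type v} [Group X] [Finite X] [AddCommGroup V] [Finite V]
  [DistribMulAction X V]

theorem TopX.odd_eq {a b x y : ℕ} (hx : ¬ 2 ∣ x) (hy : ¬ 2 ∣ y) (h : 2 ^ a * x = 2 ^ b * y) : x = y := by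
  have c1 : Nat.Coprime x (2 ^ b) := ((Nat.Prime.coprime_iff_not_dvd Nat.prime_two).2 hx).symm.pow_right _
  have c2 : Nat.Coprime y (2 ^ a) := ((Nat.Prime.coprime_iff_not_dvd Nat.prime_two).2 hy).symm.pow_right _
  exact Nat.dvd_antisymm (c1.dvd_of_dvd_mul_left ⟨2 ^ a, by rw [← h, mul_comm]⟩)
    (c2.dvd_of_dvd_mul_left ⟨2 ^ b, by rw [h, mul_comm]⟩)

theorem TopX.pc (G : Type*) [Group G] : IsPGroup 2 (pCore 2 G) :=
  Sylow.sSup_of_normal _ (fun _ h => h.2) (fun _ h => h.1)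

theorem TopX.ar {m k : ℕ} (hm : 1 ≤ m) (hk : 1 ≤ k) (h1 : 2 ^ m + 1 ∣ 2 ^ (2 * k) - 1)
    (h2 : 2 ^ (2 * k) - 1 ∣ 2 ^ (2 * m) - 1) : m = k := by
  have p1 : 1 < 2 ^ (2 * k) := Nat.one_lt_two_pow (by omega)
  have e1 : m < 2 * k := by
    have := Nat.le_of_dvd (by omega) h1
    exact (Nat.pow_lt_pow_iff_right one_lt_two).1 (by omega)
  have e2 : Nat.gcd (2 * k) (2 * m) = 2 * k := by
    have h3 := Nat.pow_sub_one_gcd_pow_sub_one 2 (2 * k) (2 * m)
    rw [Nat.gcd_eq_left h2] at h3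
    have h4 : 1 ≤ 2 ^ Nat.gcd (2 * k) (2 * m) := Nat.one_le_two_pow
    exact (Nat.pow_right_injective le_rfl (by simp only; omega)).symm
  obtain ⟨c, hc⟩ : 2 * k ∣ 2 * m := e2 ▸ Nat.gcd_dvd_right _ _
  have : c = 1 := by
    rcases c with _ | _ | c
    · omega
    · rfl
    · exfalso; nlinarith
  subst this
  omega

/-- Transitive on `V \ 0`: `P.index = 4^m - 1` for `P` Sylow in `X`. For `L` (`St.normal`, `O₂(L) = 1`, same `V`, same `m`): odd part `q²-1`, `q = 2^k`, `2^m+1 ∣ q²-1 ∣ 4^m-1` ⇒ `k ∣ m`, `m < 2k` ⇒ `m = k`.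
So `|X|` and `|L|` have the same odd part. -/
theorem St.index (h : St X V) (hO : pCore 2 X = ⊥)
    (htr : ∀ v w : V, v ≠ 0 → w ≠ 0 → ∃ g : X, g • v = w) (L : Subgroup X) [L.Normal] (hL : L2e L) :
    ∃ k : ℕ, L.index = 2 ^ k := by
  have hs := hL.simple
  obtain ⟨T⟩ : Nonempty (Sylow 2 L) := inferInstance
  have hT : (T : Subgroup L) ≠ ⊥ := fun e => by
    have := hL.syl_card T
    rw [e, card_bot] at this
    omega
  have hOL : pCore 2 L = ⊥ := by
    rcases hs.1.eq_bot_or_eq_top_of_normal (pCore 2 L) inferInstance with e | e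
    · exact e
    · have h0 : (pCore 2 L).map L.subtype = L := by rw [e, ← MonoidHom.range_eq_map, range_subtype]
      have h1 : IsPGroup 2 L := h0 ▸ (TopX.pc L).map L.subtype
      have h2 : L ≤ pCore 2 X := le_sSup ⟨inferInstance, h1⟩
      rw [hO, le_bot_iff] at h2
      have := hs.1.toNontrivial
      exact absurd h2 ((nontrivial_iff_ne_bot L).1 this)
  obtain ⟨m, f, -, -, hm, hV, -, -, d1, d2, d3⟩ := (h.normal L).ar hOL T hT
  obtain ⟨F, _, _, k, hk, hF, ⟨e⟩⟩ := hL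
  have hc : Nat.card L = 2 ^ k * (2 ^ (2 * k) - 1) := by
    rw [Nat.card_congr e.toEquiv, CL.SL.card_SL_two, Nat.card_eq_fintype_card, hF, ← pow_mul, mul_comm k 2]
  have ho : ¬ 2 ∣ 2 ^ (2 * k) - 1 := by
    have h1 : 2 ∣ 2 ^ (2 * k) := dvd_pow_self 2 (by omega)
    have h2 : 1 ≤ 2 ^ (2 * k) := Nat.one_le_two_pow
    omega
  obtain ⟨a, ha⟩ := IsPGroup.iff_card.1 T.isPGroup'
  have hi : (T : Subgroup L).index = 2 ^ (2 * k) - 1 :=
    TopX.odd_eq (a := a) (b := k) T.not_dvd_index ho (by rw [← ha, ← hc, card_mul_index])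
  rw [hi] at d2 d3
  obtain rfl := TopX.ar hm (by omega) (d1.trans d2) d3
  obtain ⟨v, hv⟩ := h.md.nt
  obtain ⟨P, hP⟩ := h.syl v hv
  have hPi : (P : Subgroup X).index = 2 ^ (2 * m) - 1 := by
    rw [← hP, MulAction.index_stabilizer, ← hV]
    have : MulAction.orbit X v = {0}ᶜ := by
      ext w
      constructor
      · rintro ⟨g, rfl⟩ h0
        exact hv ((smul_eq_zero_iff_eq g).1 h0)
      · exact fun hw => htr v w hv hw
    rw [this, ← Set.ncard_add_ncard_compl ({0} : Set V), Set.ncard_singleton, Nat.add_sub_cancel_left]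
  obtain ⟨b, hb⟩ := IsPGroup.iff_card.1 P.isPGroup'
  have h1 := (P : Subgroup X).card_mul_index
  rw [hb, hPi, ← L.card_mul_index, hc, mul_right_comm] at h1
  have h2 := Nat.eq_of_mul_eq_mul_right (Nat.pos_of_ne_zero fun h0 => ho (by rw [h0]; exact dvd_zero 2)) h1
  obtain ⟨j, -, hj⟩ := (Nat.dvd_prime_pow Nat.prime_two).1 (⟨2 ^ m, by rw [h2, mul_comm]⟩ : L.index ∣ 2 ^ b)
  exact ⟨j, hj⟩

omit [Finite V] [AddCommGroup V] [DistribMulAction X V] in
/-- `C(L)` is normal, meets `L` trivially (`L2e.simple`), so `|C(L)|` divides `L.index`: a normal 2-subgroup. -/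
theorem cent_bot (hO : pCore 2 X = ⊥) (L : Subgroup X) [L.Normal] (hL : L2e L) {k : ℕ}
    (hk : L.index = 2 ^ k) : centralizer (L : Set X) = ⊥ := by
  have hs := hL.simple
  have hz : center L = ⊥ := by
    rcases hs.1.eq_bot_or_eq_top_of_normal (center L) inferInstance with e | e
    · exact e
    · refine absurd ⟨⟨fun a b => ?_⟩⟩ hs.2
      exact (mem_center_iff.1 (e ▸ mem_top b : b ∈ center L) a)
  have hinj : Function.Injective ((QuotientGroup.mk' L).comp (centralizer (L : Set X)).subtype) := by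
    rw [injective_iff_map_eq_one]
    rintro ⟨c, hc⟩ h1
    have h2 : c ∈ L := (QuotientGroup.eq_one_iff c).1 h1
    have h3 : (⟨c, h2⟩ : L) ∈ center L := mem_center_iff.2 fun a => Subtype.ext (hc a.1 a.2)
    rw [hz, mem_bot] at h3
    exact Subtype.ext (congrArg (fun x : L => (x : X)) h3)
  have hq : IsPGroup 2 (X ⧸ L) := IsPGroup.of_card hk
  have h2 : centralizer (L : Set X) ≤ pCore 2 X := le_sSup ⟨inferInstance, hq.of_injective _ hinj⟩
  rwa [hO, le_bot_iff] at h2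

/-- A Sylow 2-subgroup fixes some `v₀ ≠ 0` (`Md.fix`), so equals its stabilizer (`Md.stab`); the other stabilizers are conjugate. `C_V(O₂(X))` is invariant and nonzero, so `= V`. -/
theorem Md.st (h : Md X V) (hf : ∀ g : X, (∀ v : V, g • v = v) → g = 1)
    (htr : ∀ v w : V, v ≠ 0 → w ≠ 0 → ∃ g : X, g • v = w) : St X V ∧ pCore 2 X = ⊥ := by
  refine ⟨⟨h, fun v hv => ?_⟩, ?_⟩
  · obtain ⟨P, hP⟩ := (h.stab hv).exists_le_sylow
    obtain ⟨w, hw, hPw⟩ := h.fix P P.isPGroup'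
    obtain ⟨g, rfl⟩ := htr w v hw hv
    have h1 : (P : Subgroup X) = MulAction.stabilizer X w := (P.3 (h.stab hw) fun d hd => hPw d hd).symm
    refine ⟨P, eq_of_le_of_card_ge hP (le_of_eq ?_)⟩
    rw [h1, MulAction.stabilizer_smul_eq_stabilizer_map_conj, card_map_of_injective (MulAut.conj g).injective]
  · obtain ⟨w, hw, hPw⟩ := h.fix _ (TopX.pc X)
    rw [eq_bot_iff]
    intro d hd
    refine hf d fun v => ?_
    by_cases hv : v = 0
    · rw [hv, smul_zero]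
    · obtain ⟨g, rfl⟩ := htr w v hw hv
      have h1 := hPw _ ((pCore_normal 2 X).conj_mem d hd g⁻¹)
      rw [inv_inv, mul_smul, mul_smul, inv_smul_eq_iff] at h1
      exact h1

end CL.Gg
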