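import Cfsg.Agent.BLK.Gg.Defs
import Cfsg.Prelude.Def_Classical

/-!
`PSU₃(q)`, `q ≥ 4` even, has a noncyclic subgroup of odd prime exponent.
-/

set_option autoImplicit false

namespace CL.Gg

open Subgroup Cfsg CL.MSS

universe u v

namespace U3x

open Matrix

variable {F : Type} [Field F] {q : ℕ}

/-- diagonal unitary matrices -/
def dg (q : ℕ) (x y z : F) (hx : x ^ (q + 1) = 1) (hy : y ^ (q + 1) = 1) (hz : z ^ (q + 1) = 1)
    (h : x * y * z = 1) : SU 3 F q :=
  ⟨⟨!![x, 0, 0; 0, y, 0; 0, 0, z], by simp [Matrix.det_fin_three, h]⟩, by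
    intro u v
    change hermForm 3 F q (!![x, 0, 0; 0, y, 0; 0, 0, z] *ᵥ u) (!![x, 0, 0; 0, y, 0; 0, 0, z] *ᵥ v) = _
    simp only [hermForm, Fin.sum_univ_three, Matrix.mulVec, dotProduct]
    simp [mul_pow]
    rw [pow_succ] at hx hy hz
    linear_combination u 0 * v 0 ^ q * hx + u 1 * v 1 ^ q * hy + u 2 * v 2 ^ q * hz⟩

/-- the cyclic permutation matrix -/
def cy (F : Type) [Field F] (q : ℕ) : SU 3 F q :=
  ⟨⟨!![0, 1, 0; 0, 0, 1; 1, 0, 0], by simp [Matrix.det_fin_three]⟩, by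
    intro u v
    change hermForm 3 F q (!![0, 1, 0; 0, 0, 1; 1, 0, 0] *ᵥ u) (!![0, 1, 0; 0, 0, 1; 1, 0, 0] *ᵥ v) = _
    simp only [hermForm, Fin.sum_univ_three, Matrix.mulVec, dotProduct]
    simp
    ring⟩

theorem ext' {a b : SU 3 F q} (h : (a.1.1 : Matrix (Fin 3) (Fin 3) F) = b.1.1) : a = b :=
  Subtype.ext (Subtype.ext h)

theorem val_mul (a b : SU 3 F q) :
    ((a * b).1.1 : Matrix (Fin 3) (Fin 3) F) = a.1.1 * b.1.1 := rfl

theorem dg_val (x y z : F) (hx hy hz h) :
    ((dg q x y z hx hy hz h).1.1 : Matrix (Fin 3) (Fin 3) F) = !![x, 0, 0; 0, y, 0; 0, 0, z] := rfl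

theorem cy_val : ((cy F q).1.1 : Matrix (Fin 3) (Fin 3) F) = !![0, 1, 0; 0, 0, 1; 1, 0, 0] := rfl

theorem dg_pow (x y z : F) (hx hy hz h) (i : ℕ) :
    (((dg q x y z hx hy hz h) ^ i).1.1 : Matrix (Fin 3) (Fin 3) F) =
      !![x ^ i, 0, 0; 0, y ^ i, 0; 0, 0, z ^ i] := by
  induction i with
  | zero =>
    rw [pow_zero]
    change (1 : Matrix (Fin 3) (Fin 3) F) = _
    simp [Matrix.one_fin_three]
  | succ i ih =>
    rw [pow_succ, val_mul, ih, dg_val]
    simp [pow_succ]

theorem ord {r : ℕ} (hr : r.Prime) {a c : SU 3 F q} (h1 : a ^ r = 1) (h2 : a * c ≠ c * a) :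
    orderOf (QuotientGroup.mk a : PSU 3 F q) = r := by
  haveI := Fact.mk hr
  refine orderOf_eq_prime ?_ ?_
  · rw [← QuotientGroup.mk_pow, h1, QuotientGroup.mk_one]
  · intro h
    exact h2 ((mem_center_iff.1 ((QuotientGroup.eq_one_iff a).1 h) c).symm)

theorem nm [Finite F] {a b : SU 3 F q}
    (h : (QuotientGroup.mk b : PSU 3 F q) ∈ zpowers (QuotientGroup.mk a : PSU 3 F q)) :
    ∃ i : ℕ, ∃ z ∈ center (SU 3 F q), b = a ^ i * z := by
  obtain ⟨i, hi⟩ := (mem_powers_iff_mem_zpowers.2 h)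
  refine ⟨i, (a ^ i)⁻¹ * b, ?_, by group⟩
  rw [← QuotientGroup.eq, QuotientGroup.mk_pow]
  exact hi

end U3x

open U3x in
/-- `hermForm` is the standard form, so diagonal matrices with entries in `μ_(q+1)` and permutation matrices are unitary. Take a prime `r ∣ q+1` (odd), `ζ ∈ F` of order `r`.
`r ≠ 3`: `a = diag(ζ,ζ⁻¹,1)`, `b = diag(1,ζ,ζ⁻¹)`; a scalar `diag(ζ^i, ζ^(j-i), ζ^(-j))` needs `3i ≡ 0`. `r = 3`: `a = diag(ζ,ζ⁻¹,1)`, `b` = cyclic permutation matrix;
they commute modulo the central scalar `ζ`. -/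
theorem psu_rr (F : Type) [Field F] [Fintype F] (q : ℕ) (hF : Fintype.card F = q ^ 2) (he : Even q)
    (h4 : 4 ≤ q) : ∃ r : ℕ, r.Prime ∧ r ≠ 2 ∧ ∃ a b : PSU 3 F q, orderOf a = r ∧ orderOf b = r ∧
      a * b = b * a ∧ b ∉ zpowers a := by
  classical
  obtain ⟨r, hr, hd⟩ := Nat.exists_prime_and_dvd (n := q + 1) (by omega)
  haveI := Fact.mk hr
  have hr2 : r ≠ 2 := by
    rintro rfl
    obtain ⟨k, rfl⟩ := he
    omega
  have hdu : r ∣ Fintype.card Fˣ := by
    rw [Fintype.card_units, hF]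
    refine hd.trans ⟨q - 1, ?_⟩
    obtain ⟨k, rfl⟩ : ∃ k, q = k + 1 := ⟨q - 1, by omega⟩
    rw [Nat.add_sub_cancel, Nat.sub_eq_iff_eq_add (Nat.one_le_pow _ _ (by omega))]
    ring
  obtain ⟨u, hu⟩ := exists_prime_orderOf_dvd_card r hdu
  set ζ : F := (u : F) with hζ
  have h0 : ζ ≠ 0 := u.ne_zero
  have ho : orderOf ζ = r := by rw [hζ, orderOf_units, hu]
  have hζr : ζ ^ r = 1 := by rw [← ho, pow_orderOf_eq_one]
  have h1 : ζ ≠ 1 := by
    intro h
    rw [h, orderOf_one] at ho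
    exact hr.one_lt.ne ho
  have hq : ζ ^ (q + 1) = 1 := by
    obtain ⟨k, hk⟩ := hd
    rw [hk, pow_mul, hζr, one_pow]
  have hq' : ζ⁻¹ ^ (q + 1) = 1 := by rw [inv_pow, hq, inv_one]
  have hq1 : (1 : F) ^ (q + 1) = 1 := one_pow _
  set a := dg q ζ ζ⁻¹ 1 hq hq' hq1 (by field_simp) with ha
  have har : a ^ r = 1 := by
    apply ext'
    rw [dg_pow]
    change _ = (1 : Matrix (Fin 3) (Fin 3) F)
    simp [Matrix.one_fin_three, hζr]
  have hac : a * cy F q ≠ cy F q * a := by
    intro h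
    have := congrArg (fun m : SU 3 F q => (m.1.1 : Matrix (Fin 3) (Fin 3) F) 2 0) h
    simp only [val_mul, ha, dg_val, cy_val] at this
    simp at this
    exact h1 this.symm
  refine ⟨r, hr, hr2, QuotientGroup.mk a, ?_⟩
  by_cases h3 : r = 3
  · subst h3
    have h3' : ζ * ζ * ζ = 1 := by rw [← hζr]; ring
    have hi : ζ⁻¹ = ζ * ζ := by field_simp; rw [← hζr]
    refine ⟨QuotientGroup.mk (cy F q), ord hr har hac, ord hr ?_ hac.symm, ?_, ?_⟩
    · apply ext'
      rw [pow_succ, pow_two, val_mul, val_mul, cy_val]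
      change _ = (1 : Matrix (Fin 3) (Fin 3) F)
      simp [Matrix.one_fin_three]
    · have hz : dg q ζ ζ ζ hq hq hq h3' ∈ center (SU 3 F q) := by
        rw [mem_center_iff]
        intro g
        apply ext'
        rw [val_mul, val_mul, dg_val]
        ext i j
        fin_cases i <;> fin_cases j <;> simp [Matrix.mul_apply, Fin.sum_univ_three, mul_comm]
      rw [← QuotientGroup.mk_mul, ← QuotientGroup.mk_mul, QuotientGroup.eq]
      have : cy F q * a = a * cy F q * dg q ζ ζ ζ hq hq hq h3' := by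
        apply ext'
        simp only [val_mul, ha, dg_val, cy_val, hi]
        simp [h3']
      rw [this, inv_mul_cancel_left]
      exact hz
    · intro h
      obtain ⟨i, z, hz, e⟩ := nm h
      apply hac
      rw [e, ← mul_assoc, mul_assoc (a ^ i), ← mem_center_iff.1 hz a, ← mul_assoc, ← pow_succ,
        ← pow_succ']
  · set b := dg q 1 ζ ζ⁻¹ hq1 hq hq' (by field_simp) with hb
    refine ⟨QuotientGroup.mk b, ord hr har hac, ord (c := cy F q) hr ?_ ?_, ?_, ?_⟩
    · apply ext'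
      rw [dg_pow]
      change _ = (1 : Matrix (Fin 3) (Fin 3) F)
      simp [Matrix.one_fin_three, hζr]
    · intro h
      have := congrArg (fun m : SU 3 F q => (m.1.1 : Matrix (Fin 3) (Fin 3) F) 0 1) h
      simp only [val_mul, hb, dg_val, cy_val] at this
      simp at this
      exact h1 this.symm
    · rw [← QuotientGroup.mk_mul, ← QuotientGroup.mk_mul]
      congr 1
      apply ext'
      simp only [val_mul, ha, hb, dg_val]
      simp [mul_comm]
    · intro h
      obtain ⟨i, z, hz, e⟩ := nm h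
      have hc := mem_center_iff.1 hz (cy F q)
      have hzv : (z.1.1 : Matrix (Fin 3) (Fin 3) F) =
          !![ζ⁻¹ ^ i, 0, 0; 0, ζ ^ i * ζ, 0; 0, 0, ζ⁻¹] := by
        have : z = (dg q ζ⁻¹ ζ 1 hq' hq hq1 (by field_simp)) ^ i * b := by
          rw [e, ← mul_assoc, ← Commute.mul_pow]
          · have : dg q ζ⁻¹ ζ 1 hq' hq hq1 (by field_simp) * a = 1 := by
              apply ext'
              simp only [val_mul, ha, dg_val]
              change _ = (1 : Matrix (Fin 3) (Fin 3) F)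
              simp [Matrix.one_fin_three, h0]
            rw [this, one_pow, one_mul]
          · apply ext'
            simp only [val_mul, ha, dg_val]
            simp [mul_comm]
        rw [this, val_mul, dg_pow, hb, dg_val]
        simp
      have k1 := congrArg (fun m : SU 3 F q => (m.1.1 : Matrix (Fin 3) (Fin 3) F) 2 0) hc
      have k2 := congrArg (fun m : SU 3 F q => (m.1.1 : Matrix (Fin 3) (Fin 3) F) 1 2) hc
      simp only [val_mul, hzv, cy_val] at k1 k2
      simp at k1 k2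
      have k3 : ζ ^ 3 = 1 := by
        rw [k1] at k2
        field_simp at k2
        first | exact k2 | exact k2.symm
      have := orderOf_dvd_of_pow_eq_one k3
      rw [ho] at this
      exact h3 ((Nat.prime_dvd_prime_iff_eq hr Nat.prime_three).1 this)

end CL.Gg
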