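import Cfsg.Agent.BLK.Gg.MA3
import Cfsg.Agent.BLK.Gg.LY

/-!
`Q` is weakly closed in `M` (element-wise proof).
-/

set_option autoImplicit false

namespace CL.Gg.WCi

open Subgroup Cfsg CL.MSS

universe u v

section
variable {X : Type u} [Group X]

/-- The facts about `Q`, `M`, `x` that are used. -/
structure D (Q M : Subgroup X) (x : X) : Prop where
  ox : orderOf x = 3
  xm : x ∈ M
  ne : Q ≠ ⊥
  sq : ∀ a ∈ Q, a * a = 1
  cm : ∀ a ∈ Q, ∀ b ∈ Q, a * b = b * a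
  mx : ∀ y, orderOf y = 3 → y ∈ M → y * x⁻¹ ∈ Q ∨ y * x ∈ Q
  nm : ∀ m ∈ M, ∀ a ∈ Q, m * a * m⁻¹ ∈ Q
  fpf : ∀ y, orderOf y = 3 → y ∈ M → ∀ a ∈ Q, y * a = a * y → a = 1
  cen : ∀ a ∈ Q, a ≠ 1 → ∀ c, c * a = a * c → c ∈ M

theorem inv_not {x b a : X} (hx : orderOf x = 3) (hb : b * (x * a * x⁻¹) = (x * a * x⁻¹) * b)
    (hb' : b * (x⁻¹ * a * x) = (x⁻¹ * a * x) * b)
    (hc : (b * x * b⁻¹ * x) * a = a * (b * x * b⁻¹ * x)) : x * a = a * x := by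
  have h3 : x * x * x = 1 := by rw [← pow_orderOf_eq_one x, hx, pow_succ, pow_two]
  have hi : x * x = x⁻¹ := eq_inv_of_mul_eq_one_left h3
  have e1 : b⁻¹ * (x * a * x⁻¹) * b = x * a * x⁻¹ := by rw [mul_assoc, ← hb]; group
  have e2 : b * (x⁻¹ * a * x) * b⁻¹ = x⁻¹ * a * x := by rw [hb']; group
  have e3 : x * (x * a * x⁻¹) * x⁻¹ = x⁻¹ * a * x := by
    calc x * (x * a * x⁻¹) * x⁻¹ = (x * x) * a * (x * x)⁻¹ := by group
      _ = x⁻¹ * a * x := by rw [hi, inv_inv]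
  have e4 : a = x⁻¹ * a * x := by
    calc a = (b * x * b⁻¹ * x) * a * (b * x * b⁻¹ * x)⁻¹ := by rw [hc]; group
      _ = b * (x * (b⁻¹ * (x * a * x⁻¹) * b) * x⁻¹) * b⁻¹ := by group
      _ = x⁻¹ * a * x := by rw [e1, e3, e2]
  calc x * a = x * (x⁻¹ * a * x) := by rw [← e4]
    _ = a * x := by group

theorem ord_conj {x : X} (b : X) (hx : orderOf x = 3) : orderOf (b * x * b⁻¹) = 3 :=
  ((MulAut.conj b).orderOf_eq x).trans hx

theorem core [Finite X] {Q M Q' M' : Subgroup X} {x x' : X} (d : D Q M x) (d' : D Q' M' x')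
    (hle : Q' ≤ M) (hd : ∀ a ∈ Q, a ∈ Q' → a = 1) :
    ∃ Y : Subgroup X, IsPGroup 2 Y ∧ Q' ≤ Y ∧ x ∈ normalizer (Y : Set X) ∧
      x' ∈ normalizer (Y : Set X) ∧ x ∉ M' := by
  have : Fact (Nat.Prime 2) := ⟨Nat.prime_two⟩
  have pQ : IsPGroup 2 Q := fun a => ⟨1, Subtype.ext (by simpa [pow_two] using d.sq a a.2)⟩
  have pQ' : IsPGroup 2 Q' := fun a => ⟨1, Subtype.ext (by simpa [pow_two] using d'.sq a a.2)⟩
  have hN : Q' ≤ normalizer (Q : Set X) := le_normalizer_iff.2 fun m hm a ha => d.nm m (hle hm) a ha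
  obtain ⟨⟨a0, ha0⟩, ha1⟩ := ne_bot_iff_exists_ne_one.1 (inf_centralizer_ne_bot pQ' pQ hN d.ne)
  have ha1' : a0 ≠ 1 := fun e => ha1 (Subtype.ext e)
  obtain ⟨⟨b0, hb0⟩, hb1⟩ := ne_bot_iff_exists_ne_one.1 d'.ne
  have hb1' : b0 ≠ 1 := fun e => hb1 (Subtype.ext e)
  have inv' : ∀ b ∈ Q', b⁻¹ = b := fun b hb => inv_eq_of_mul_eq_one_left (d'.sq b hb)
  have inv0 : ∀ b ∈ Q, b⁻¹ = b := fun b hb => inv_eq_of_mul_eq_one_left (d.sq b hb)
  -- (1)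
  have s1 : ∀ b ∈ Q', b ≠ 1 → ∀ q ∈ Q, q * b = b * q → q ∈ centralizer (Q' : Set X) := by
    intro b hb h1 q hq hc c hc'
    have hm := d'.cen b hb h1 q hc
    have e1 : q * c * q⁻¹ * c⁻¹ ∈ Q' := mul_mem (d'.nm q hm c hc') (inv_mem hc')
    have e2 : q * c * q⁻¹ * c⁻¹ ∈ Q := by
      have := mul_mem hq (d.nm c (hle hc') q⁻¹ (inv_mem hq))
      simpa only [mul_assoc] using this
    have e3 := hd _ e2 e1
    calc c * q = 1 * (c * q) := (one_mul _).symm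
      _ = q * c := by rw [← e3]; group
  -- (2)
  have mx : ∀ b ∈ Q', b * x * b⁻¹ * x⁻¹ ∈ Q ∨ b * x * b⁻¹ * x ∈ Q := fun b hb =>
    d.mx _ (ord_conj b d.ox) (mul_mem (mul_mem (hle hb) d.xm) (inv_mem (hle hb)))
  have s2 : ∃ b ∈ Q', b ≠ 1 ∧ b * x * b⁻¹ * x⁻¹ ∈ Q := by
    have hb2 := d'.nm x' d'.xm b0 hb0
    rcases mx b0 hb0 with h0 | h0
    · exact ⟨b0, hb0, hb1', h0⟩
    have hne : x' * b0 * x'⁻¹ ≠ 1 := fun e => hb1' (by simpa [mul_assoc] using congrArg (fun z => x'⁻¹ * z * x') e)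
    rcases mx _ hb2 with h2 | h2
    · exact ⟨_, hb2, hne, h2⟩
    refine ⟨b0 * (x' * b0 * x'⁻¹), mul_mem hb0 hb2, fun e => hb1' (d'.fpf x' d'.ox d'.xm b0 hb0 ?_), ?_⟩
    · have : x' * b0 * x'⁻¹ = b0 := (eq_inv_of_mul_eq_one_right e).trans (inv' b0 hb0)
      rw [← mul_inv_eq_iff_eq_mul, this]
    · generalize x' * b0 * x'⁻¹ = b1 at h2 ⊢
      have := mul_mem (d.nm b0 (hle hb0) _ h2) (d.nm x d.xm _ (inv_mem h0))
      convert this using 1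
      group
  obtain ⟨b, hb, hb1, hq⟩ := s2
  have h3 : x * x * x = 1 := by rw [← pow_orderOf_eq_one x, d.ox, pow_succ, pow_two]
  have i1 : ∀ a ∈ Q ⊓ centralizer (Q' : Set X), x⁻¹ * a * x ∈ Q ⊓ centralizer (Q' : Set X) := by
    intro a ha
    have hm : x⁻¹ * a * x ∈ Q := by simpa using d.nm x⁻¹ (inv_mem d.xm) a ha.1
    refine ⟨hm, s1 b⁻¹ (inv_mem hb) (inv_ne_one.2 hb1) _ hm ?_⟩
    have e1 := d.cm a ha.1 _ hq
    have e2 : b⁻¹ * a = a * b⁻¹ := ha.2 b⁻¹ (inv_mem hb)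
    have e3 : a * (b⁻¹ * (b * x * b⁻¹ * x⁻¹)) = (b⁻¹ * (b * x * b⁻¹ * x⁻¹)) * a := by
      rw [← mul_assoc a, ← e2, mul_assoc b⁻¹ a, e1, ← mul_assoc]
    calc x⁻¹ * a * x * b⁻¹ = x⁻¹ * (a * (b⁻¹ * (b * x * b⁻¹ * x⁻¹))) * x := by group
      _ = b⁻¹ * (x⁻¹ * a * x) := by rw [e3]; group
  have i2 : ∀ a ∈ Q ⊓ centralizer (Q' : Set X), x * a * x⁻¹ ∈ Q ⊓ centralizer (Q' : Set X) := by
    intro a ha
    have := i1 _ (i1 a ha)
    have hi : x⁻¹ * x⁻¹ = x := by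
      rw [← mul_inv_rev, inv_eq_iff_mul_eq_one, h3]
    have e : x⁻¹ * (x⁻¹ * a * x) * x = (x⁻¹ * x⁻¹) * a * (x⁻¹ * x⁻¹)⁻¹ := by
      simp only [mul_inv_rev, inv_inv, mul_assoc]
    rwa [e, hi] at this
  have s3 : ∀ c ∈ Q', c * x * c⁻¹ * x⁻¹ ∈ Q := fun c hc => (mx c hc).resolve_right fun h =>
    ha1' (d.fpf x d.ox d.xm a0 ha0.1 (inv_not d.ox ((i2 a0 ha0).2 c hc) ((i1 a0 ha0).2 c hc)
      (d.cm _ h _ ha0.1)))
  have s4 : ∀ c ∈ Q', c * x * c⁻¹ * x⁻¹ ∈ Q ⊓ centralizer (Q' : Set X) := by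
    intro c hc
    by_cases h1 : c = 1
    · subst h1
      simp
    refine ⟨s3 c hc, s1 c⁻¹ (inv_mem hc) (inv_ne_one.2 h1) _ (s3 c hc) ?_⟩
    have e1 := inv0 _ (s3 c hc)
    have e2 := inv' c hc
    calc c * x * c⁻¹ * x⁻¹ * c⁻¹ = (c * x * c⁻¹ * x⁻¹)⁻¹ * c := by rw [e1, e2]
      _ = x * c * x⁻¹ := by group
      _ = x * c⁻¹ * x⁻¹ := by rw [e2]
      _ = c⁻¹ * (c * x * c⁻¹ * x⁻¹) := by group
  -- (3)
  have s5 : ∀ a ∈ Q ⊓ centralizer (Q' : Set X), a * x' * a⁻¹ * x'⁻¹ ∈ Q' := by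
    intro a ha
    have hm : a ∈ M' := d'.cen b hb hb1 a (ha.2 b hb).symm
    refine (d'.mx _ (ord_conj a d'.ox) (mul_mem (mul_mem hm d'.xm) (inv_mem hm))).resolve_right
      fun h => hb1 (d'.fpf x' d'.ox d'.xm b hb (inv_not d'.ox (ha.2 _ (d'.nm x' d'.xm b hb)).symm
        (ha.2 _ ?_).symm (d'.cm _ h _ hb)))
    simpa using d'.nm x'⁻¹ (inv_mem d'.xm) b hb
  refine ⟨(Q ⊓ centralizer (Q' : Set X)) ⊔ Q', isPGroup_sup_of_normalizes (pQ.to_le inf_le_left) pQ'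
    (inf_le_right.trans (centralizer_le_normalizer _)), le_sup_right, ?_, ?_, fun hx => ?_⟩
  · refine mem_normalizer_of_cj_le ?_
    rw [cj_sup]
    refine sup_le (cj_le_iff_forall.2 fun a ha => mem_sup_left (i2 a ha))
      (cj_le_iff_forall.2 fun c hc => ?_)
    have := mul_mem (inv_mem (mem_sup_left (T := Q') (s4 c hc))) (mem_sup_right (S := Q ⊓ centralizer (Q' : Set X)) hc)
    convert this using 1
    group
  · refine mem_normalizer_of_cj_le ?_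
    rw [cj_sup]
    refine sup_le (cj_le_iff_forall.2 fun a ha => ?_)
      (cj_le_iff_forall.2 fun c hc => mem_sup_right (d'.nm x' d'.xm c hc))
    have := mul_mem (inv_mem (mem_sup_right (S := Q ⊓ centralizer (Q' : Set X)) (s5 a ha))) (mem_sup_left (T := Q') ha)
    convert this using 1
    group
  · have e1 : b * x * b⁻¹ * x⁻¹ ∈ Q' := by
      have := mul_mem hb (d'.nm x hx _ (inv_mem hb))
      simpa only [mul_assoc] using this
    have e2 := hd _ hq e1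
    refine hb1 (d'.fpf x d.ox hx b hb ?_)
    calc x * b = 1 * (x * b) := (one_mul _).symm
      _ = b * x := by rw [← e2]; group

end

variable {X : Type u} {V : Type v} [Group X] [Finite X] [AddCommGroup V] [Finite V]
  [DistribMulAction X V]

theorem mkD (ih : ∀ n, IH.{u, v} n) (h : Md X V) (hO : pCore 2 X = ⊥) {t x : X} (ht : orderOf t = 2)
    (hx : orderOf x = 3) (hn : x ∈ normalizer (At V t : Set X)) (hQ : ⁅At V t, zpowers x⁆ ≠ ⊥) :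
    D ⁅At V t, zpowers x⁆ (normalizer (At V t : Set X)) x := by
  have hle : ⁅At V t, zpowers x⁆ ≤ At V t := commutator_le_left_of_normalizes (zpowers_le.2 hn)
  exact ⟨hx, hn, hQ, fun a ha => by rw [← pow_two]; exact h.At_sq hO ht (hle ha),
    fun a ha b hb => h.At_comm hO ht (hle ha) (hle hb),
    fun y hy hm => h.ma_x ih hO ht hx hn hQ hy hm,
    fun m hm a ha => conj_mem_of_normalizes (h.ma_norm ih hO ht hx hn hQ) hm ha,
    fun y hy hm a ha hc => h.ma_fpf ih hO ht hx hn hQ hy hm ha hc,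
    fun a ha h1 c hc => by
      rw [← (h.At_eq hO ht (hle ha) h1).2]
      exact cent_le_norm_At a (mem_centralizer_singleton_iff.2 hc)⟩

theorem wc (ih : ∀ n, IH.{u, v} n) (h : Md X V) (hO : pCore 2 X = ⊥) {t x : X} (ht : orderOf t = 2)
    (hx : orderOf x = 3) (hn : x ∈ normalizer (At V t : Set X)) (hQ : ⁅At V t, zpowers x⁆ ≠ ⊥)
    {g : X} (hg : g •ᶜ ⁅At V t, zpowers x⁆ ≤ normalizer (At V t : Set X)) :
    g •ᶜ ⁅At V t, zpowers x⁆ = ⁅At V t, zpowers x⁆ := by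
  have ht' : orderOf (g * t * g⁻¹) = 2 := ((MulAut.conj g).orderOf_eq t).trans ht
  have hx' := ord_conj g hx
  have e : g •ᶜ ⁅At V t, zpowers x⁆ = ⁅At V (g * t * g⁻¹), zpowers (g * x * g⁻¹)⁆ := by
    rw [cj_commutator, At_conj, cj_zpowers]
  have hn' : g * x * g⁻¹ ∈ normalizer (At V (g * t * g⁻¹) : Set X) := by
    rw [At_conj, ← cj_normalizer]
    exact conj_mem_cj hn
  have hQ' : ⁅At V (g * t * g⁻¹), zpowers (g * x * g⁻¹)⁆ ≠ ⊥ := by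
    rw [← e]
    exact fun e' => hQ (cj_eq_bot_iff.1 e')
  have hle : ⁅At V t, zpowers x⁆ ≤ At V t := commutator_le_left_of_normalizes (zpowers_le.2 hn)
  have hle' : ⁅At V (g * t * g⁻¹), zpowers (g * x * g⁻¹)⁆ ≤ At V (g * t * g⁻¹) :=
    commutator_le_left_of_normalizes (zpowers_le.2 hn')
  by_cases hd : ∀ a ∈ ⁅At V t, zpowers x⁆, a ∈ ⁅At V (g * t * g⁻¹), zpowers (g * x * g⁻¹)⁆ → a = 1
  · exfalso
    obtain ⟨Y, hY, hQY, h1, h2, h3⟩ := core (mkD ih h hO ht hx hn hQ) (mkD ih h hO ht' hx' hn' hQ')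
      (e ▸ hg) hd
    obtain ⟨⟨b, hb⟩, hb1⟩ := ne_bot_iff_exists_ne_one.1 hQ'
    have hb1' : b ≠ 1 := fun e => hb1 (Subtype.ext e)
    have eb := (h.At_eq hO ht' (hle' hb) hb1').2
    have hb2 : b ∈ ⁅Y, zpowers (g * x * g⁻¹)⁆ := by
      rw [← comm_comm (h.At_pg hO ht') hx' hn'] at hb
      exact commutator_mono hQY le_rfl hb
    have := h.ly ih hO hY hx' hx h2 h1 hb2 hb1' (by rw [eb]; exact hQY)
    rw [eb] at this
    exact h3 this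
  · push Not at hd
    obtain ⟨a, ha, ha', h1⟩ := hd
    have e1 := (h.At_eq hO ht (hle ha) h1).2
    have e2 := (h.At_eq hO ht' (hle' ha') h1).2
    refine cj_eq_of_mem_normalizer (h.ma_norm ih hO ht hx hn hQ (mem_normalizer_iff_cj.2 ?_))
    rw [← At_conj, ← e2, e1]

end CL.Gg.WCi
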